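import Cfsg.Agent.Lib.Chevalley.G2Degree.C3Frame

/-!
The characters of the centre of the radical in characteristic three and the resulting dimensions.
-/

set_option autoImplicit false
set_option linter.unusedSectionVars false
set_option linter.style.haveILetI false
set_option maxRecDepth 10000

open Cfsg.Lie Module

namespace CfsgLib.Chevalley.G2Degree

universe u v

variable {F : Type u} [Field F] [Fintype F] [DecidableEq F]
  {V : Type v} [AddCommGroup V] [Module ℂ V] [FiniteDimensional ℂ V]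
  (ρ : ↥(chevG2.group F) →* Module.End ℂ V) {ψ : AddChar F ℂ} (Φ : Frame ψ)

theorem fam_top' {n : ℕ} {L : Fin n → ℕ}
    (h : ∀ i j, ∀ s t : F, Commute (el (L i) s) (el (L j) t)) : Fam ρ ⊤ (fam (F := F) L) :=
  fam_isFam ρ (fun _ _ _ _ => trivial) fun i j s t w _ => by
    rw [← Module.End.mul_apply, ← Module.End.mul_apply, ← map_mul, ← map_mul, (h i j s t).eq]

namespace Frame

theorem com {r s : ℕ} (h : (r, s) ∈ [(Φ.xb, Φ.x1), (Φ.xb, Φ.x2), (Φ.xb, Φ.zz), (Φ.x1, Φ.x2),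
    (Φ.x1, Φ.x3), (Φ.x1, Φ.zz), (Φ.x2, Φ.x3), (Φ.x2, Φ.zz), (Φ.x3, Φ.zz), (Φ.xa, Φ.x2),
    (Φ.xa, Φ.x3), (Φ.xa, Φ.zz)]) (t u : F) : Commute (el s u) (el r t) :=
  (Φ.comm (r, s) h).elim (fun h => el_comm h t u) fun h => h t u

theorem c_b1 (t u : F) : Commute (el Φ.x1 u) (el Φ.xb t) := Φ.com (by simp) t u

theorem c_b2 (t u : F) : Commute (el Φ.x2 u) (el Φ.xb t) := Φ.com (by simp) t u

theorem c_bz (t u : F) : Commute (el Φ.zz u) (el Φ.xb t) := Φ.com (by simp) t u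

theorem c_12 (t u : F) : Commute (el Φ.x2 u) (el Φ.x1 t) := Φ.com (by simp) t u

theorem c_13 (t u : F) : Commute (el Φ.x3 u) (el Φ.x1 t) := Φ.com (by simp) t u

theorem c_1z (t u : F) : Commute (el Φ.zz u) (el Φ.x1 t) := Φ.com (by simp) t u

theorem c_23 (t u : F) : Commute (el Φ.x3 u) (el Φ.x2 t) := Φ.com (by simp) t u

theorem c_2z (t u : F) : Commute (el Φ.zz u) (el Φ.x2 t) := Φ.com (by simp) t u

theorem c_3z (t u : F) : Commute (el Φ.zz u) (el Φ.x3 t) := Φ.com (by simp) t u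

theorem c_a2 (t u : F) : Commute (el Φ.x2 u) (el Φ.xa t) := Φ.com (by simp) t u

theorem c_a3 (t u : F) : Commute (el Φ.x3 u) (el Φ.xa t) := Φ.com (by simp) t u

theorem c_az (t u : F) : Commute (el Φ.zz u) (el Φ.xa t) := Φ.com (by simp) t u

/-- The centre of the radical. -/
def f3 : Fin 3 → ℕ := ![Φ.zz, Φ.x1, Φ.x2]

/-- The centre and `xb`. -/
def f4b : Fin 4 → ℕ := ![Φ.zz, Φ.x1, Φ.x2, Φ.xb]

/-- The centre and `x3`. -/
def f4c : Fin 4 → ℕ := ![Φ.zz, Φ.x1, Φ.x2, Φ.x3]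

/-- The four roots above `zz`. -/
def fQ : Fin 4 → ℕ := ![Φ.xb, Φ.x1, Φ.x2, Φ.x3]

theorem fam3 : Fam ρ ⊤ (fam (F := F) Φ.f3) := by
  refine fam_top' ρ fun i j s t => ?_
  fin_cases i <;> fin_cases j <;>
    first
    | exact el_comm_self _ t s
    | exact Φ.c_b1 t s
    | exact (Φ.c_b1 s t).symm
    | exact Φ.c_b2 t s
    | exact (Φ.c_b2 s t).symm
    | exact Φ.c_bz t s
    | exact (Φ.c_bz s t).symm
    | exact Φ.c_12 t s
    | exact (Φ.c_12 s t).symm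
    | exact Φ.c_13 t s
    | exact (Φ.c_13 s t).symm
    | exact Φ.c_1z t s
    | exact (Φ.c_1z s t).symm
    | exact Φ.c_23 t s
    | exact (Φ.c_23 s t).symm
    | exact Φ.c_2z t s
    | exact (Φ.c_2z s t).symm
    | exact Φ.c_3z t s
    | exact (Φ.c_3z s t).symm
    | exact Φ.c_a2 t s
    | exact (Φ.c_a2 s t).symm
    | exact Φ.c_a3 t s
    | exact (Φ.c_a3 s t).symm
    | exact Φ.c_az t s
    | exact (Φ.c_az s t).symm

theorem fam4b : Fam ρ ⊤ (fam (F := F) Φ.f4b) := by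
  refine fam_top' ρ fun i j s t => ?_
  fin_cases i <;> fin_cases j <;>
    first
    | exact el_comm_self _ t s
    | exact Φ.c_b1 t s
    | exact (Φ.c_b1 s t).symm
    | exact Φ.c_b2 t s
    | exact (Φ.c_b2 s t).symm
    | exact Φ.c_bz t s
    | exact (Φ.c_bz s t).symm
    | exact Φ.c_12 t s
    | exact (Φ.c_12 s t).symm
    | exact Φ.c_13 t s
    | exact (Φ.c_13 s t).symm
    | exact Φ.c_1z t s
    | exact (Φ.c_1z s t).symm
    | exact Φ.c_23 t s
    | exact (Φ.c_23 s t).symm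
    | exact Φ.c_2z t s
    | exact (Φ.c_2z s t).symm
    | exact Φ.c_3z t s
    | exact (Φ.c_3z s t).symm
    | exact Φ.c_a2 t s
    | exact (Φ.c_a2 s t).symm
    | exact Φ.c_a3 t s
    | exact (Φ.c_a3 s t).symm
    | exact Φ.c_az t s
    | exact (Φ.c_az s t).symm

theorem fam4c : Fam ρ ⊤ (fam (F := F) Φ.f4c) := by
  refine fam_top' ρ fun i j s t => ?_
  fin_cases i <;> fin_cases j <;>
    first
    | exact el_comm_self _ t s
    | exact Φ.c_b1 t s
    | exact (Φ.c_b1 s t).symm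
    | exact Φ.c_b2 t s
    | exact (Φ.c_b2 s t).symm
    | exact Φ.c_bz t s
    | exact (Φ.c_bz s t).symm
    | exact Φ.c_12 t s
    | exact (Φ.c_12 s t).symm
    | exact Φ.c_13 t s
    | exact (Φ.c_13 s t).symm
    | exact Φ.c_1z t s
    | exact (Φ.c_1z s t).symm
    | exact Φ.c_23 t s
    | exact (Φ.c_23 s t).symm
    | exact Φ.c_2z t s
    | exact (Φ.c_2z s t).symm
    | exact Φ.c_3z t s
    | exact (Φ.c_3z s t).symm
    | exact Φ.c_a2 t s
    | exact (Φ.c_a2 s t).symm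
    | exact Φ.c_a3 t s
    | exact (Φ.c_a3 s t).symm
    | exact Φ.c_az t s
    | exact (Φ.c_az s t).symm

theorem comm_zz {r : ℕ} (hr : r ∈ [Φ.xb, Φ.x1, Φ.x2, Φ.x3, Φ.xa]) (t u : F) :
    Commute (el Φ.zz u) (el r t) := by
  simp only [List.mem_cons, List.not_mem_nil, or_false] at hr
  rcases hr with rfl | rfl | rfl | rfl | rfl <;> first
    | exact Φ.c_bz t u
    | exact Φ.c_1z t u
    | exact Φ.c_2z t u
    | exact Φ.c_3z t u
    | exact Φ.c_az t u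

theorem stable_zz {r : ℕ} (hr : r ∈ [Φ.xb, Φ.x1, Φ.x2, Φ.x3, Φ.xa]) (t : F) {w : V}
    (hw : w ∈ RF ρ [Φ.zz]) : ρ (el r t) w ∈ RF ρ [Φ.zz] := by
  rintro _ ⟨r', hr', u, rfl⟩
  rw [List.mem_singleton] at hr'
  subst hr'
  rw [← Module.End.mul_apply, ← map_mul, (Φ.comm_zz hr t u).eq, map_mul, Module.End.mul_apply,
    hw _ (el_mem_XS (by simp) _)]

theorem famQ : Fam ρ (RF ρ [Φ.zz]) (fam (F := F) Φ.fQ) := by
  obtain ⟨κ, -, hsw⟩ := Φ.swap3
  have hg : ∀ (g g' : ↥(chevG2.group F)), Commute g g' → ∀ w : V, ρ g (ρ g' w) = ρ g' (ρ g w) :=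
    fun g g' h w => by rw [← Module.End.mul_apply, ← Module.End.mul_apply, ← map_mul, ← map_mul, h.eq]
  have c3b : ∀ t u, ∀ w ∈ RF ρ [Φ.zz],
      ρ (el Φ.x3 u) (ρ (el Φ.xb t) w) = ρ (el Φ.xb t) (ρ (el Φ.x3 u) w) := by
    intro t u w hw
    rw [← Module.End.mul_apply, ← map_mul, hsw, map_mul, map_mul, Module.End.mul_apply,
      Module.End.mul_apply, hw _ (el_mem_XS (by simp) _)]
  refine fam_isFam ρ (fun i t w hw => Φ.stable_zz ρ (by fin_cases i <;> simp [fQ]) t hw)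
    fun i j s t w hw => ?_
  fin_cases i <;> fin_cases j <;>
    first
    | exact hg _ _ (el_comm_self _ t s) w
    | exact hg _ _ (Φ.c_b1 t s) w
    | exact hg _ _ (Φ.c_b1 s t).symm w
    | exact hg _ _ (Φ.c_b2 t s) w
    | exact hg _ _ (Φ.c_b2 s t).symm w
    | exact hg _ _ (Φ.c_bz t s) w
    | exact hg _ _ (Φ.c_bz s t).symm w
    | exact hg _ _ (Φ.c_12 t s) w
    | exact hg _ _ (Φ.c_12 s t).symm w
    | exact hg _ _ (Φ.c_13 t s) w
    | exact hg _ _ (Φ.c_13 s t).symm w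
    | exact hg _ _ (Φ.c_1z t s) w
    | exact hg _ _ (Φ.c_1z s t).symm w
    | exact hg _ _ (Φ.c_23 t s) w
    | exact hg _ _ (Φ.c_23 s t).symm w
    | exact hg _ _ (Φ.c_2z t s) w
    | exact hg _ _ (Φ.c_2z s t).symm w
    | exact hg _ _ (Φ.c_3z t s) w
    | exact hg _ _ (Φ.c_3z s t).symm w
    | exact hg _ _ (Φ.c_a2 t s) w
    | exact hg _ _ (Φ.c_a2 s t).symm w
    | exact hg _ _ (Φ.c_a3 t s) w
    | exact hg _ _ (Φ.c_a3 s t).symm w
    | exact hg _ _ (Φ.c_az t s) w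
    | exact hg _ _ (Φ.c_az s t).symm w
    | exact c3b t s w hw
    | exact (c3b s t w hw).symm

/-- The multiplicities on the fixed space of `zz`. -/
noncomputable def nu (a : Fin 4 → F) : ℕ := mu ψ ρ (RF ρ [Φ.zz]) (fam Φ.fQ) a

/-- The multiplicity of the characters of the centre trivial on `x1` and `x2`. -/
noncomputable def mA : ℕ := mu ψ ρ ⊤ (fam Φ.f4b) ![1, 0, 0, 0]

/-- The multiplicity of the other characters of the centre. -/
noncomputable def mB : ℕ := mu ψ ρ ⊤ (fam Φ.f4b) ![1, 1, 0, 0]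

theorem shift_b {c x y z z' : F} (hc : c ≠ 0) :
    mu ψ ρ ⊤ (fam Φ.f4b) ![c, x, y, z] ≤ mu ψ ρ ⊤ (fam Φ.f4b) ![c, x, y, z'] := by
  obtain ⟨κ, hκ, hsw⟩ := Φ.swap3
  set u := (z - z') / (κ * c) with hu
  refine mu_le_single ρ (g := el Φ.x3 u) (Φ.fam4b ρ) (fun _ _ => trivial) fun i t => ?_
  have hconj : ∀ r, Commute (el Φ.x3 u) (el r t) → ∀ w : V,
      ρ ((el Φ.x3 u)⁻¹ * el r t * el Φ.x3 u) w = ρ (el r t) w := fun r h w => by
    rw [mul_assoc, ← h.eq, inv_mul_cancel_left]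
  fin_cases i
  · refine ⟨Pi.single 0 t, fun w _ => ?_, by rw [pair_single]; rfl⟩
    rw [fam_single]
    exact hconj _ (Φ.comm_zz (by simp) u t).symm w
  · refine ⟨Pi.single 1 t, fun w _ => ?_, by rw [pair_single]; rfl⟩
    rw [fam_single]
    exact hconj _ (Φ.c_13 t u) w
  · refine ⟨Pi.single 2 t, fun w _ => ?_, by rw [pair_single]; rfl⟩
    rw [fam_single]
    exact hconj _ (Φ.c_23 t u) w
  · refine ⟨Pi.single 0 (-(κ * (t * u))) + Pi.single 3 t, fun w hw => ?_, ?_⟩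
    · rw [(Φ.fam4b ρ).add _ _ w trivial, fam_single, fam_single, ← Module.End.mul_apply, ← map_mul]
      congr 2
      show (el Φ.x3 u)⁻¹ * el Φ.xb t * el Φ.x3 u = el Φ.zz _ * el Φ.xb t
      have e := hsw t u
      rw [mul_assoc, inv_mul_eq_iff_eq_mul, (Φ.c_bz t _).eq, ← el_inv,
        ← mul_assoc, e, mul_inv_cancel_right]
    · rw [pair_add_right, pair_single, pair_single, ← AddChar.map_add_eq_mul]
      congr 1
      simp only [Matrix.cons_val, Fin.reduceFinMk]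
      rw [hu]
      field_simp
      ring

theorem shift_c {c x y z z' : F} (hc : c ≠ 0) :
    mu ψ ρ ⊤ (fam Φ.f4c) ![c, x, y, z] ≤ mu ψ ρ ⊤ (fam Φ.f4c) ![c, x, y, z'] := by
  obtain ⟨κ, hκ, hsw⟩ := Φ.swap3
  set u := (z' - z) / (κ * c) with hu
  refine mu_le_single ρ (g := el Φ.xb u) (Φ.fam4c ρ) (fun _ _ => trivial) fun i t => ?_
  have hconj : ∀ r, Commute (el Φ.xb u) (el r t) → ∀ w : V,
      ρ ((el Φ.xb u)⁻¹ * el r t * el Φ.xb u) w = ρ (el r t) w := fun r h w => by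
    rw [mul_assoc, ← h.eq, inv_mul_cancel_left]
  fin_cases i
  · refine ⟨Pi.single 0 t, fun w _ => ?_, by rw [pair_single]; rfl⟩
    rw [fam_single]
    exact hconj _ (Φ.comm_zz (by simp) u t).symm w
  · refine ⟨Pi.single 1 t, fun w _ => ?_, by rw [pair_single]; rfl⟩
    rw [fam_single]
    exact hconj _ (Φ.c_b1 u t).symm w
  · refine ⟨Pi.single 2 t, fun w _ => ?_, by rw [pair_single]; rfl⟩
    rw [fam_single]
    exact hconj _ (Φ.c_b2 u t).symm w
  · refine ⟨Pi.single 0 (κ * (u * t)) + Pi.single 3 t, fun w hw => ?_, ?_⟩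
    · rw [(Φ.fam4c ρ).add _ _ w trivial, fam_single, fam_single, ← Module.End.mul_apply, ← map_mul]
      congr 2
      show (el Φ.xb u)⁻¹ * el Φ.x3 t * el Φ.xb u = el Φ.zz _ * el Φ.x3 t
      rw [mul_assoc, hsw u t, ← mul_assoc, ← mul_assoc, inv_mul_cancel, one_mul,
        (Φ.c_3z t _).eq]
    · rw [pair_add_right, pair_single, pair_single, ← AddChar.map_add_eq_mul]
      congr 1
      simp only [Matrix.cons_val, Fin.reduceFinMk]
      rw [hu]
      field_simp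
      ring

theorem marginal (hψ : ψ ≠ 1) {L : Fin 4 → ℕ} (hL : Fam ρ ⊤ (fam (F := F) L))
    (h3L : Φ.f3 = fun i : Fin 3 => L i.castSucc) (a : Fin 3 → F) :
    mu ψ ρ ⊤ (fam Φ.f3) a = ∑ z : F, mu ψ ρ ⊤ (fam L) ![a 0, a 1, a 2, z] := by
  have hi : ∀ (i : Fin 3) (t : F), fam L (Pi.single i.castSucc t) = fam Φ.f3 (Pi.single i t) := by
    intro i t
    rw [fam_single, fam_single, h3L]
  have e : spec ψ ρ ⊤ (fam Φ.f3) a = part ρ ψ ⊤ (fam L) {0, 1, 2} ![a 0, a 1, a 2, 0] := by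
    ext v
    constructor
    · rintro ⟨-, hv⟩
      refine ⟨trivial, fun i hi' t => ?_⟩
      simp only [Finset.mem_insert, Finset.mem_singleton] at hi'
      rcases hi' with rfl | rfl | rfl
      · show ρ (fam L (Pi.single (Fin.castSucc (0 : Fin 3)) t)) v = _
        rw [hi, hv, pair_single]; rfl
      · show ρ (fam L (Pi.single (Fin.castSucc (1 : Fin 3)) t)) v = _
        rw [hi, hv, pair_single]; rfl
      · show ρ (fam L (Pi.single (Fin.castSucc (2 : Fin 3)) t)) v = _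
        rw [hi, hv, pair_single]; rfl
    · rintro ⟨-, hv⟩
      refine mem_spec_of_single ρ (Φ.fam3 ρ) trivial fun i t => ?_
      rw [← hi, hv i.castSucc (by fin_cases i <;> simp) t]
      congr 2
      fin_cases i <;> rfl
  rw [mu, e, finrank_part ρ hψ hL]
  refine (Finset.sum_bij (fun z _ => ![a 0, a 1, a 2, z]) ?_ ?_ ?_ fun _ _ => rfl).symm
  · intro z _
    simp
  · intro z _ z' _ h
    simpa using congrFun h 3
  · intro b hb
    refine ⟨b 3, Finset.mem_univ _, ?_⟩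
    have hb' := (Finset.mem_filter.1 hb).2
    funext i
    fin_cases i
    · simpa using (hb' 0 (by simp)).symm
    · simpa using (hb' 1 (by simp)).symm
    · simpa using (hb' 2 (by simp)).symm
    · rfl

theorem m3_shift {c x x' y : F} (hy : y ≠ 0) :
    mu ψ ρ ⊤ (fam Φ.f3) ![c, x, y] ≤ mu ψ ρ ⊤ (fam Φ.f3) ![c, x', y] := by
  obtain ⟨κ, hκ, hsw⟩ := Φ.swap1
  set s := (x' - x) / (κ * y) with hs
  refine mu_le_single ρ (g := el Φ.xa s) (Φ.fam3 ρ) (fun _ _ => trivial) fun i t => ?_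
  fin_cases i
  · refine ⟨Pi.single 0 t, fun w _ => ?_, by rw [pair_single]; rfl⟩
    rw [fam_single]
    congr 2
    show (el Φ.xa s)⁻¹ * el Φ.zz t * el Φ.xa s = el Φ.zz t
    rw [mul_assoc, (Φ.comm_zz (by simp) s t).eq, inv_mul_cancel_left]
  · refine ⟨Pi.single 1 t + Pi.single 2 (κ * (s * t)), fun w _ => ?_, ?_⟩
    · rw [(Φ.fam3 ρ).add _ _ w trivial, fam_single, fam_single, ← Module.End.mul_apply, ← map_mul]
      congr 2
      show (el Φ.xa s)⁻¹ * el Φ.x1 t * el Φ.xa s = el Φ.x1 t * el Φ.x2 _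
      rw [mul_assoc, hsw, ← mul_assoc, ← mul_assoc, inv_mul_cancel, one_mul]
    · rw [pair_add_right, pair_single, pair_single, ← AddChar.map_add_eq_mul]
      congr 1
      simp only [Matrix.cons_val, Fin.reduceFinMk, Fin.mk_one]
      rw [hs]
      field_simp
      ring
  · refine ⟨Pi.single 2 t, fun w _ => ?_, by rw [pair_single]; rfl⟩
    rw [fam_single]
    congr 2
    show (el Φ.xa s)⁻¹ * el Φ.x2 t * el Φ.xa s = el Φ.x2 t
    rw [mul_assoc, (Φ.c_a2 s t).eq, inv_mul_cancel_left]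

theorem f3_lt : ∀ i, Φ.f3 i < 12 := fun i => Φ.lt _ (by fin_cases i <;> simp [f3])

/-- The two orbits of characters of the centre. -/
theorem m3_eq {c x y : F} (hc : c ≠ 0) :
    mu ψ ρ ⊤ (fam Φ.f3) ![c, x, y] =
      if x = 0 ∧ y = 0 then mu ψ ρ ⊤ (fam Φ.f3) ![1, 0, 0]
      else mu ψ ρ ⊤ (fam Φ.f3) ![1, 1, 0] := by
  have hscal : ∀ (c d : Fˣ) (x0 : F), mu ψ ρ ⊤ (fam Φ.f3) ![(c : F), (d : F) * x0, 0] =
      mu ψ ρ ⊤ (fam Φ.f3) ![1, x0, 0] := by
    intro c d x0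
    obtain ⟨s, t, h1, h2⟩ := Φ.tor_zx c d
    rw [← mu_scal ρ (Φ.fam3 ρ) Φ.f3_lt (fun _ _ _ _ => trivial) s t ![1, x0, 0]]
    congr 1
    funext i
    fin_cases i <;> simp [scal, f3, h1, h2]
  by_cases h0 : x = 0 ∧ y = 0
  · rw [if_pos h0, h0.1, h0.2]
    simpa using hscal (Units.mk0 c hc) 1 0
  rw [if_neg h0]
  have hone : ∀ c d : F, c ≠ 0 → d ≠ 0 →
      mu ψ ρ ⊤ (fam Φ.f3) ![c, d, 0] = mu ψ ρ ⊤ (fam Φ.f3) ![1, 1, 0] := fun c d hc hd => by
    simpa using hscal (Units.mk0 c hc) (Units.mk0 d hd) 1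
  by_cases hy : y = 0
  · subst hy
    exact hone c x hc fun h => h0 ⟨h, rfl⟩
  -- move `x` to zero
  have e1 : mu ψ ρ ⊤ (fam Φ.f3) ![c, x, y] = mu ψ ρ ⊤ (fam Φ.f3) ![c, 0, y] :=
    le_antisymm (Φ.m3_shift ρ hy) (Φ.m3_shift ρ hy)
  obtain ⟨e, he⟩ := mu_weyl ρ (ψ := ψ) (Φ.fam3 ρ) Φ.wl Φ.f3_lt (fun _ _ => trivial)
    (Equiv.swap (1 : Fin 3) 2) (fun i => by
      fin_cases i <;> simp [f3, Φ.wl_act.1, Φ.wl_act.2.2.1, Φ.wl_act.2.2.2.1, Equiv.swap_apply_def])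
  rw [e1, ← he ![c, 0, y]]
  rw [show (fun i => (e i : F) * (![c, 0, y] : Fin 3 → F) ((Equiv.swap (1 : Fin 3) 2).symm i)) =
    ![(e 0 : F) * c, (e 1 : F) * y, 0] by
      funext i
      fin_cases i <;> simp [Equiv.swap_apply_def]]
  exact hone _ _ (mul_ne_zero (e 0).ne_zero hc) (mul_ne_zero (e 1).ne_zero hy)

end Frame

end CfsgLib.Chevalley.G2Degree
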