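import Cfsg.Agent.Lib.Chevalley.G2Degree.C3Centre

/-!
The dimensions of fixed spaces of root subgroups of the radical in characteristic three.
-/

set_option autoImplicit false
set_option linter.unusedSectionVars false
set_option linter.style.haveILetI false
set_option maxRecDepth 10000

open Cfsg.Lie Module

namespace CfsgLib.Chevalley.G2Degree

universe u v

variable {F : Type u} [Field F] [Fintype F] [DecidableEq F]
  {V : Type v} [AddCommGroup V] [Module ℂ V] [FiniteDimensional ℂ V]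
  (ρ : ↥(chevG2.group F) →* Module.End ℂ V) {ψ : AddChar F ℂ} (Φ : Frame ψ)

theorem sum_off_zero (g : F → ℕ) (K : ℕ) (h : ∀ c, c ≠ 0 → g c = K) :
    ∑ c, g c = g 0 + (Fintype.card F - 1) * K := by
  rw [← Finset.add_sum_erase _ _ (Finset.mem_univ (0 : F)),
    Finset.sum_congr rfl fun x hx => h x (Finset.mem_erase.1 hx).1, Finset.sum_const,
    Finset.card_erase_of_mem (Finset.mem_univ _), Finset.card_univ, smul_eq_mul]

namespace Frame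

theorem m4b_eq (hψ : ψ ≠ 1) {c x y z : F} (hc : c ≠ 0) :
    mu ψ ρ ⊤ (fam Φ.f4b) ![c, x, y, z] = if x = 0 ∧ y = 0 then Φ.mA ρ else Φ.mB ρ := by
  have hq := Fintype.card_pos (α := F)
  have h3 : Φ.f3 = fun i : Fin 3 => Φ.f4b i.castSucc := by funext i; fin_cases i <;> rfl
  have key : ∀ c x y : F, c ≠ 0 →
      mu ψ ρ ⊤ (fam Φ.f3) ![c, x, y] = Fintype.card F * mu ψ ρ ⊤ (fam Φ.f4b) ![c, x, y, 0] := by
    intro c x y hc
    rw [Φ.marginal ρ hψ (Φ.fam4b ρ) h3]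
    simp only [Matrix.cons_val]
    rw [Finset.sum_congr rfl fun z _ => show
      mu ψ ρ ⊤ (fam Φ.f4b) ![c, x, y, z] = mu ψ ρ ⊤ (fam Φ.f4b) ![c, x, y, 0] from
        le_antisymm (Φ.shift_b ρ hc) (Φ.shift_b ρ hc)]
    simp
  rw [le_antisymm (Φ.shift_b ρ (z' := 0) hc) (Φ.shift_b ρ hc)]
  apply Nat.eq_of_mul_eq_mul_left hq
  rw [← key c x y hc, Φ.m3_eq ρ hc, key 1 0 0 one_ne_zero, key 1 1 0 one_ne_zero]
  split_ifs <;> rfl

theorem m4c_eq (hψ : ψ ≠ 1) {c x y z : F} (hc : c ≠ 0) :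
    mu ψ ρ ⊤ (fam Φ.f4c) ![c, x, y, z] = if x = 0 ∧ y = 0 then Φ.mA ρ else Φ.mB ρ := by
  have hq := Fintype.card_pos (α := F)
  have hb : Φ.f3 = fun i : Fin 3 => Φ.f4b i.castSucc := by funext i; fin_cases i <;> rfl
  have hcc : Φ.f3 = fun i : Fin 3 => Φ.f4c i.castSucc := by funext i; fin_cases i <;> rfl
  have e := (Φ.marginal ρ hψ (Φ.fam4b ρ) hb ![c, x, y]).symm.trans
    (Φ.marginal ρ hψ (Φ.fam4c ρ) hcc ![c, x, y])
  simp only [Matrix.cons_val] at e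
  rw [Finset.sum_congr rfl fun z _ => Φ.m4b_eq ρ hψ (z := z) hc,
    Finset.sum_congr rfl fun z' _ => show mu ψ ρ ⊤ (fam Φ.f4c) ![c, x, y, z'] =
      mu ψ ρ ⊤ (fam Φ.f4c) ![c, x, y, z] from le_antisymm (Φ.shift_c ρ hc) (Φ.shift_c ρ hc),
    Finset.sum_const, Finset.sum_const, Finset.card_univ, smul_eq_mul, smul_eq_mul] at e
  exact (Nat.eq_of_mul_eq_mul_left hq e).symm

/-- The contribution of one nontrivial character of `zz`, by the coordinates allowed to vary. -/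
theorem split_zz (hψ : ψ ≠ 1) :
    finrank ℂ V = finrank ℂ (RF ρ [Φ.zz]) + (Fintype.card F - 1) *
      (Fintype.card F * (Φ.mA ρ + (Fintype.card F ^ 2 - 1) * Φ.mB ρ)) := by
  have e1 : finrank ℂ V = ∑ a, mu ψ ρ ⊤ (fam Φ.f4b) a := by
    rw [← finrank_top (R := ℂ) (M := V), finrank_fam ρ hψ (Φ.fam4b ρ)]
  have e2 : finrank ℂ (RF ρ [Φ.zz]) =
      ∑ a ∈ Finset.univ.filter (fun a : Fin 4 → F => a 0 = 0), mu ψ ρ ⊤ (fam Φ.f4b) a := by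
    rw [show [Φ.zz] = ([0] : List (Fin 4)).map Φ.f4b from rfl, finrank_top_eq ρ hψ (Φ.fam4b ρ)]
    simp
  rw [e1, e2, Finset.sum_filter, sum4, sum4, sum_off_zero _
    (Fintype.card F * (Φ.mA ρ + (Fintype.card F ^ 2 - 1) * Φ.mB ρ)) (fun c hc => ?_)]
  · rw [sum_off_zero (fun c => ∑ x : F, ∑ y : F, ∑ z : F,
      if (![c, x, y, z] : Fin 4 → F) 0 = 0 then mu ψ ρ ⊤ (fam Φ.f4b) ![c, x, y, z] else 0) 0
      fun c hc => by simp [hc]]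
    simp
  · simp only [Φ.m4b_eq ρ hψ hc, Finset.sum_const, Finset.card_univ, smul_eq_mul,
      ← Finset.mul_sum, sum_plane]

theorem split_xb (hψ : ψ ≠ 1) :
    finrank ℂ (RF ρ [Φ.xb]) = finrank ℂ (RF ρ [Φ.zz, Φ.xb]) +
      (Fintype.card F - 1) * (Φ.mA ρ + (Fintype.card F ^ 2 - 1) * Φ.mB ρ) := by
  have e1 : finrank ℂ (RF ρ [Φ.xb]) =
      ∑ a ∈ Finset.univ.filter (fun a : Fin 4 → F => a 3 = 0), mu ψ ρ ⊤ (fam Φ.f4b) a := by
    rw [show [Φ.xb] = ([3] : List (Fin 4)).map Φ.f4b from rfl, finrank_top_eq ρ hψ (Φ.fam4b ρ)]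
    simp
  have e2 : finrank ℂ (RF ρ [Φ.zz, Φ.xb]) =
      ∑ a ∈ Finset.univ.filter (fun a : Fin 4 → F => a 0 = 0 ∧ a 3 = 0),
        mu ψ ρ ⊤ (fam Φ.f4b) a := by
    rw [show [Φ.zz, Φ.xb] = ([0, 3] : List (Fin 4)).map Φ.f4b from rfl,
      finrank_top_eq ρ hψ (Φ.fam4b ρ)]
    simp
  rw [e1, e2, Finset.sum_filter, Finset.sum_filter, sum4, sum4, sum_off_zero _
    (Φ.mA ρ + (Fintype.card F ^ 2 - 1) * Φ.mB ρ) (fun c hc => ?_)]
  · rw [sum_off_zero (fun c => ∑ x : F, ∑ y : F, ∑ z : F,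
      if (![c, x, y, z] : Fin 4 → F) 0 = 0 ∧ (![c, x, y, z] : Fin 4 → F) 3 = 0 then
        mu ψ ρ ⊤ (fam Φ.f4b) ![c, x, y, z] else 0) 0 fun c hc => by simp [hc]]
    simp
    exact Finset.sum_congr rfl fun x _ => Finset.sum_congr rfl fun y _ =>
      (Finset.sum_eq_single 0 (fun b _ hb => if_neg hb) (by simp)).trans (if_pos rfl)
  · simp only [Matrix.cons_val, Φ.m4b_eq ρ hψ hc, Finset.sum_ite_eq', Finset.mem_univ, if_true,
      sum_plane]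

theorem split_x3 (hψ : ψ ≠ 1) :
    finrank ℂ (RF ρ [Φ.x3]) = finrank ℂ (RF ρ [Φ.zz, Φ.x3]) +
      (Fintype.card F - 1) * (Φ.mA ρ + (Fintype.card F ^ 2 - 1) * Φ.mB ρ) := by
  have e1 : finrank ℂ (RF ρ [Φ.x3]) =
      ∑ a ∈ Finset.univ.filter (fun a : Fin 4 → F => a 3 = 0), mu ψ ρ ⊤ (fam Φ.f4c) a := by
    rw [show [Φ.x3] = ([3] : List (Fin 4)).map Φ.f4c from rfl, finrank_top_eq ρ hψ (Φ.fam4c ρ)]
    simp
  have e2 : finrank ℂ (RF ρ [Φ.zz, Φ.x3]) =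
      ∑ a ∈ Finset.univ.filter (fun a : Fin 4 → F => a 0 = 0 ∧ a 3 = 0),
        mu ψ ρ ⊤ (fam Φ.f4c) a := by
    rw [show [Φ.zz, Φ.x3] = ([0, 3] : List (Fin 4)).map Φ.f4c from rfl,
      finrank_top_eq ρ hψ (Φ.fam4c ρ)]
    simp
  rw [e1, e2, Finset.sum_filter, Finset.sum_filter, sum4, sum4, sum_off_zero _
    (Φ.mA ρ + (Fintype.card F ^ 2 - 1) * Φ.mB ρ) (fun c hc => ?_)]
  · rw [sum_off_zero (fun c => ∑ x : F, ∑ y : F, ∑ z : F,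
      if (![c, x, y, z] : Fin 4 → F) 0 = 0 ∧ (![c, x, y, z] : Fin 4 → F) 3 = 0 then
        mu ψ ρ ⊤ (fam Φ.f4c) ![c, x, y, z] else 0) 0 fun c hc => by simp [hc]]
    simp
    exact Finset.sum_congr rfl fun x _ => Finset.sum_congr rfl fun y _ =>
      (Finset.sum_eq_single 0 (fun b _ hb => if_neg hb) (by simp)).trans (if_pos rfl)
  · simp only [Matrix.cons_val, Φ.m4c_eq ρ hψ hc, Finset.sum_ite_eq', Finset.mem_univ, if_true,
      sum_plane]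

theorem split_x2 (hψ : ψ ≠ 1) :
    finrank ℂ (RF ρ [Φ.x2]) = finrank ℂ (RF ρ [Φ.zz, Φ.x2]) + (Fintype.card F - 1) *
      (Fintype.card F * (Φ.mA ρ + (Fintype.card F - 1) * Φ.mB ρ)) := by
  have e1 : finrank ℂ (RF ρ [Φ.x2]) =
      ∑ a ∈ Finset.univ.filter (fun a : Fin 4 → F => a 2 = 0), mu ψ ρ ⊤ (fam Φ.f4b) a := by
    rw [show [Φ.x2] = ([2] : List (Fin 4)).map Φ.f4b from rfl, finrank_top_eq ρ hψ (Φ.fam4b ρ)]
    simp
  have e2 : finrank ℂ (RF ρ [Φ.zz, Φ.x2]) =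
      ∑ a ∈ Finset.univ.filter (fun a : Fin 4 → F => a 0 = 0 ∧ a 2 = 0),
        mu ψ ρ ⊤ (fam Φ.f4b) a := by
    rw [show [Φ.zz, Φ.x2] = ([0, 2] : List (Fin 4)).map Φ.f4b from rfl,
      finrank_top_eq ρ hψ (Φ.fam4b ρ)]
    simp
  rw [e1, e2, Finset.sum_filter, Finset.sum_filter, sum4, sum4, sum_off_zero _
    (Fintype.card F * (Φ.mA ρ + (Fintype.card F - 1) * Φ.mB ρ)) (fun c hc => ?_)]
  · rw [sum_off_zero (fun c => ∑ x : F, ∑ y : F, ∑ z : F,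
      if (![c, x, y, z] : Fin 4 → F) 0 = 0 ∧ (![c, x, y, z] : Fin 4 → F) 2 = 0 then
        mu ψ ρ ⊤ (fam Φ.f4b) ![c, x, y, z] else 0) 0 fun c hc => by simp [hc]]
    simp
    exact Finset.sum_congr rfl fun x _ => Finset.sum_comm.trans <| Finset.sum_congr rfl fun z _ =>
      (Finset.sum_eq_single 0 (fun b _ hb => if_neg hb) (by simp)).trans (if_pos rfl)
  · simp only [Matrix.cons_val, Φ.m4b_eq ρ hψ hc]
    rw [Finset.sum_congr rfl fun x _ => Finset.sum_comm]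
    simp only [Finset.sum_ite_eq', Finset.mem_univ, if_true, and_true, Finset.sum_const,
      Finset.card_univ, smul_eq_mul, ← Finset.mul_sum, sum_ite_zero]

theorem split_x2_x3 (hψ : ψ ≠ 1) :
    finrank ℂ (RF ρ [Φ.x3, Φ.x2]) = finrank ℂ (RF ρ [Φ.zz, Φ.x3, Φ.x2]) +
      (Fintype.card F - 1) * (Φ.mA ρ + (Fintype.card F - 1) * Φ.mB ρ) := by
  have e1 : finrank ℂ (RF ρ [Φ.x3, Φ.x2]) =
      ∑ a ∈ Finset.univ.filter (fun a : Fin 4 → F => a 3 = 0 ∧ a 2 = 0),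
        mu ψ ρ ⊤ (fam Φ.f4c) a := by
    rw [show [Φ.x3, Φ.x2] = ([3, 2] : List (Fin 4)).map Φ.f4c from rfl,
      finrank_top_eq ρ hψ (Φ.fam4c ρ)]
    simp
  have e2 : finrank ℂ (RF ρ [Φ.zz, Φ.x3, Φ.x2]) =
      ∑ a ∈ Finset.univ.filter (fun a : Fin 4 → F => a 0 = 0 ∧ a 3 = 0 ∧ a 2 = 0),
        mu ψ ρ ⊤ (fam Φ.f4c) a := by
    rw [show [Φ.zz, Φ.x3, Φ.x2] = ([0, 3, 2] : List (Fin 4)).map Φ.f4c from rfl,
      finrank_top_eq ρ hψ (Φ.fam4c ρ)]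
    simp
  rw [e1, e2, Finset.sum_filter, Finset.sum_filter, sum4, sum4, sum_off_zero _
    (Φ.mA ρ + (Fintype.card F - 1) * Φ.mB ρ) (fun c hc => ?_)]
  · rw [sum_off_zero (fun c => ∑ x : F, ∑ y : F, ∑ z : F,
      if (![c, x, y, z] : Fin 4 → F) 0 = 0 ∧ (![c, x, y, z] : Fin 4 → F) 3 = 0 ∧
          (![c, x, y, z] : Fin 4 → F) 2 = 0 then
        mu ψ ρ ⊤ (fam Φ.f4c) ![c, x, y, z] else 0) 0 fun c hc => by simp [hc]]
    simp
    exact Finset.sum_congr rfl fun x _ => Finset.sum_congr rfl fun y _ =>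
      Finset.sum_congr rfl fun z _ => by
        by_cases h : z = 0 ∧ y = 0
        · exact (if_pos h).trans (if_pos h).symm
        · exact (if_neg h).trans (if_neg h).symm
  · simp only [Matrix.cons_val, Φ.m4c_eq ρ hψ hc, ite_and, Finset.sum_ite_eq', Finset.mem_univ,
      if_true]
    simp only [← ite_and, and_true, sum_ite_zero]

/-- The characters on the fixed space of `zz`. -/
theorem sum_nu_eq (hψ : ψ ≠ 1) (J : List (Fin 4)) :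
    finrank ℂ (RF ρ ([Φ.zz] ++ J.map Φ.fQ)) =
      ∑ a ∈ Finset.univ.filter (fun a : Fin 4 → F => ∀ i ∈ J, a i = 0), Φ.nu ρ a :=
  finrank_RF_eq ρ hψ (Φ.famQ ρ) J

/-- What the dimensions say about the characters on the fixed space of `zz`. -/
theorem nu_counts (hψ : ψ ≠ 1) :
    finrank ℂ (RF ρ [Φ.zz]) = ∑ a, Φ.nu ρ a ∧
    (∑ a, if a 0 ≠ 0 then Φ.nu ρ a else 0) =
      (Fintype.card F - 1) * (Φ.mA ρ + (Fintype.card F ^ 2 - 1) * Φ.mB ρ) ∧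
    (∑ a, if a 3 ≠ 0 then Φ.nu ρ a else 0) =
      (Fintype.card F - 1) * (Φ.mA ρ + (Fintype.card F ^ 2 - 1) * Φ.mB ρ) ∧
    (∑ a, if a 2 ≠ 0 ∧ a 3 ≠ 0 then Φ.nu ρ a else 0) =
      (Fintype.card F - 1) * ((Fintype.card F ^ 2 - Fintype.card F) * Φ.mB ρ) ∧
    finrank ℂ (RF ρ [Φ.zz, Φ.x2]) + (∑ a, if a 2 ≠ 0 then Φ.nu ρ a else 0) =
      finrank ℂ (RF ρ [Φ.zz]) := by
  have hlt := Φ.lt
  simp only [List.mem_cons, List.not_mem_nil, or_false, forall_eq_or_imp, forall_eq] at hlt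
  obtain ⟨hxb, hx1, hx2, hx3, hzz, hxa⟩ := hlt
  have hcb : finrank ℂ (RF ρ [Φ.zz]) = finrank ℂ (RF ρ [Φ.xb]) :=
    finrank_RF_weyl ρ Φ.vb _ _ (by simp [hzz]) (by simp [Φ.vb_act])
  have hc3 : finrank ℂ (RF ρ [Φ.zz]) = finrank ℂ (RF ρ [Φ.x3]) :=
    finrank_RF_weyl ρ Φ.vz _ _ (by simp [hzz]) (by simp [Φ.vz_act.1])
  have hc32 : finrank ℂ (RF ρ [Φ.zz, Φ.x2]) = finrank ℂ (RF ρ [Φ.x3, Φ.x2]) :=
    finrank_RF_weyl ρ Φ.vz _ _ (by simp [hzz, hx2]) (by simp [Φ.vz_act.1, Φ.vz_act.2])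
  have d0 : finrank ℂ (RF ρ [Φ.zz]) = ∑ a, Φ.nu ρ a := finrank_fam ρ hψ (Φ.famQ ρ)
  have dP : ∀ (J : List (Fin 4)) (P : (Fin 4 → F) → Prop) [DecidablePred P],
      (∀ a, (∀ i ∈ J, a i = 0) ↔ ¬ P a) →
      finrank ℂ (RF ρ ([Φ.zz] ++ J.map Φ.fQ)) + (∑ a, if P a then Φ.nu ρ a else 0) =
        finrank ℂ (RF ρ [Φ.zz]) := by
    intro J P _ hP
    rw [Φ.sum_nu_eq ρ hψ J, d0, Finset.sum_filter, ← Finset.sum_add_distrib]
    refine Finset.sum_congr rfl fun a _ => ?_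
    by_cases h : P a <;> simp [hP, h]
  have db := dP [0] (fun a => a 0 ≠ 0) (by simp)
  have d3 := dP [3] (fun a => a 3 ≠ 0) (by simp)
  have d2 := dP [2] (fun a => a 2 ≠ 0) (by simp)
  have d32 := dP [3, 2] (fun a => ¬ (a 3 = 0 ∧ a 2 = 0)) (by simp)
  change finrank ℂ (RF ρ [Φ.zz, Φ.xb]) + _ = _ at db
  change finrank ℂ (RF ρ [Φ.zz, Φ.x3]) + _ = _ at d3
  change finrank ℂ (RF ρ [Φ.zz, Φ.x2]) + _ = _ at d2
  change finrank ℂ (RF ρ [Φ.zz, Φ.x3, Φ.x2]) + _ = _ at d32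
  have hincl : (∑ a, if ¬ (a 3 = 0 ∧ a 2 = 0) then Φ.nu ρ a else 0) +
      (∑ a, if a 2 ≠ 0 ∧ a 3 ≠ 0 then Φ.nu ρ a else 0) =
      (∑ a, if a 3 ≠ 0 then Φ.nu ρ a else 0) + (∑ a, if a 2 ≠ 0 then Φ.nu ρ a else 0) := by
    rw [← Finset.sum_add_distrib, ← Finset.sum_add_distrib]
    refine Finset.sum_congr rfl fun a _ => ?_
    by_cases h3 : a 3 = 0 <;> by_cases h2 : a 2 = 0 <;> simp [h2, h3]
  have s1 := Φ.split_xb ρ hψ
  have s3 := Φ.split_x3 ρ hψ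
  have s32 := Φ.split_x2_x3 ρ hψ
  refine ⟨d0, by omega, by omega, ?_, d2⟩
  obtain ⟨r, hr⟩ : ∃ r, Fintype.card F = r + 1 :=
    ⟨Fintype.card F - 1, by have := Fintype.card_pos (α := F); omega⟩
  have e1 : (r + 1) ^ 2 - 1 = r * r + 2 * r := by
    rw [show (r + 1) ^ 2 = r * r + 2 * r + 1 by ring]; rfl
  have e2 : (r + 1) ^ 2 - (r + 1) = r * r + r := by
    rw [show (r + 1) ^ 2 = r * r + r + (r + 1) by ring, Nat.add_sub_cancel]
  rw [hr, e1, show r + 1 - 1 = r from rfl] at s1 s3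
  rw [hr, show r + 1 - 1 = r from rfl] at s32
  rw [hr, e2, show r + 1 - 1 = r from rfl]
  have e3 : r * (Φ.mA ρ + (r * r + 2 * r) * Φ.mB ρ) =
      r * (Φ.mA ρ + r * Φ.mB ρ) + r * ((r * r + r) * Φ.mB ρ) := by ring
  omega

end Frame

end CfsgLib.Chevalley.G2Degree
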