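import Cfsg.Agent.Lib.Chevalley.G2Degree.Cuspidal
import Cfsg.Agent.Lib.Chevalley.OrderG2
import Cfsg.Agent.Lib.CharTheory.Basic

/-!
A representation of degree `q³` of this shape with a vector fixed by `U` would have a Borel fixed
vector on which the Hecke algebra acts through the character `(1, -1/q)`; the Schur relation for
the resulting spherical function rules this out.
-/

set_option autoImplicit false
set_option linter.unusedSectionVars false
set_option linter.style.haveILetI false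
set_option maxRecDepth 10000

open Cfsg.Lie Module

namespace CfsgLib.Chevalley.G2Degree

universe u v

variable {F : Type u} [Field F]

theorem simple_data : chevG2.simple 0 = 7 ∧ chevG2.simple 1 = 6 ∧ chevG2.neg 7 = 4 ∧
    chevG2.neg 6 = 5 := by decide +kernel

theorem coe_wEl (l : List (Fin chevG2.rank)) :
    ((wEl l : ↥(chevG2.group F)) : GL chevG2.Idx F) = nW full.cert F l := rfl

theorem wEl_single (i : Fin chevG2.rank) : (wEl [i] : ↥(chevG2.group F)) =
    el (chevG2.simple i) 1 * el (chevG2.neg (chevG2.simple i)) (-1) * el (chevG2.simple i) 1 := by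
  apply Subtype.ext
  simp only [Subgroup.coe_mul, el]
  show nW cert_G2 F [i] = _
  rw [nW_cons, nW_nil, mul_one, nG, inv_one]

theorem wEl_wa : (wEl wa : ↥(chevG2.group F)) = el 7 1 * el 4 (-1) * el 7 1 := by
  have h := wEl_single (F := F) (0 : Fin 2)
  simp only [Fin.val_zero, simple_data.1, simple_data.2.2.1] at h
  exact h

theorem wEl_wb : (wEl wb : ↥(chevG2.group F)) = el 6 1 * el 5 (-1) * el 6 1 := by
  have h := wEl_single (F := F) (1 : Fin 2)
  simp only [Fin.val_one, simple_data.2.1, simple_data.2.2.2] at h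
  exact h

theorem nW_one (i : Fin chevG2.rank) :
    nW full.cert F [i] = nG full.cert (chevG2.simple i) (1 : F) := by
  rw [nW_cons, nW_nil, mul_one]

theorem reflTorus_apply (i k : Fin chevG2.rank) (c : Fin chevG2.rank → Fˣ) :
    reflTorus chevG2 i c k =
      if (k : ℕ) = i then c k * (chi chevG2 (chevG2.simple i) c)⁻¹ else c k := by
  unfold reflTorus
  rw [Pi.mul_apply]
  by_cases h : k = i
  · subst h; rw [if_pos rfl, Pi.mulSingle_eq_same]
  · rw [if_neg (fun e => h (Fin.ext e)), Pi.mulSingle_eq_of_ne h, mul_one]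

theorem chi_tc (s t : Fˣ) (r : Fin 12) : chi chevG2 (r : ℕ) (tc s t) = rv s t r := by
  show ∏ k : Fin 2, tc s t k ^ chevG2.cartan k r = _
  obtain ⟨h1, h2⟩ := cartan_comb r
  rw [Fin.prod_univ_two]
  simp only [tc, Fin.val_zero, Fin.val_one, if_true, one_ne_zero, if_false,
    rv, mul_zpow, ← zpow_natCast, ← zpow_mul, ← h1, ← h2, zpow_add, Nat.cast_ofNat]
  rw [mul_mul_mul_comm, mul_comm (chevG2.cartan 0 r) 2, mul_comm (chevG2.cartan 1 r) 3,
    mul_comm (chevG2.cartan 1 r) 2]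

theorem tor_wa (s t : Fˣ) :
    (wEl wa : ↥(chevG2.group F)) * tor s t * (wEl wa)⁻¹ = tor s⁻¹ (s ^ 3 * t) := by
  apply Subtype.ext
  rw [Subgroup.coe_mul, Subgroup.coe_mul, Subgroup.coe_inv, coe_wEl,
    show nW full.cert F wa = _ from nW_one (F := F) (0 : Fin 2)]
  refine (nG_simple_mul_torus (F := F) full _ (1 : F) one_ne_zero _).trans ?_
  show torusHom chevG2 F _ = torusHom chevG2 F _
  congr 1
  funext k
  have hchi : chi chevG2 (chevG2.simple 0) (tc s t) = s := by
    rw [simple_data.1]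
    refine (chi_tc s t ⟨7, by decide⟩).trans ?_
    simp [rv, ca, cb]
  refine (reflTorus_apply _ k _).trans ?_
  show (if (k : ℕ) = 0 then tc s t k * (chi chevG2 (chevG2.simple 0) (tc s t))⁻¹ else tc s t k) = _
  rw [hchi]
  revert k
  show ∀ k : Fin 2, _
  intro k
  apply Units.ext
  fin_cases k <;> simp [tc] <;> field_simp <;> ring

theorem tor_wb (s t : Fˣ) :
    (wEl wb : ↥(chevG2.group F)) * tor s t * (wEl wb)⁻¹ = tor (s * t) t⁻¹ := by
  apply Subtype.ext
  rw [Subgroup.coe_mul, Subgroup.coe_mul, Subgroup.coe_inv, coe_wEl,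
    show nW full.cert F wb = _ from nW_one (F := F) (1 : Fin 2)]
  refine (nG_simple_mul_torus (F := F) full _ (1 : F) one_ne_zero _).trans ?_
  show torusHom chevG2 F _ = torusHom chevG2 F _
  congr 1
  funext k
  have hchi : chi chevG2 (chevG2.simple 1) (tc s t) = t := by
    rw [simple_data.2.1]
    refine (chi_tc s t ⟨6, by decide⟩).trans ?_
    simp [rv, ca, cb]
  refine (reflTorus_apply _ k _).trans ?_
  show (if (k : ℕ) = 1 then tc s t k * (chi chevG2 (chevG2.simple 1) (tc s t))⁻¹ else tc s t k) = _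
  rw [hchi]
  revert k
  show ∀ k : Fin 2, _
  intro k
  apply Units.ext
  fin_cases k <;> simp [tc] <;> field_simp <;> ring

theorem exists_tor {g : ↥(chevG2.group F)}
    (h : (g : GL chevG2.Idx F) ∈ chevG2.diagonalSubgroup F) : ∃ s t, g = tor s t := by
  rw [diagonalSubgroup_eq_range full] at h
  obtain ⟨c, hc⟩ := h
  refine ⟨c (0 : Fin 2) ^ 2 * (c (1 : Fin 2))⁻¹, c (1 : Fin 2) ^ 2 * (c (0 : Fin 2) ^ 3)⁻¹,
    Subtype.ext (hc.symm.trans ?_)⟩
  show torusHom chevG2 F _ = torusHom chevG2 F _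
  congr 1
  funext k
  revert k
  show ∀ k : Fin 2, _
  intro k
  apply Units.ext
  fin_cases k <;> simp [tc] <;> field_simp <;> ring

theorem wb_sq : ∃ s t, (wEl wb : ↥(chevG2.group F)) * wEl wb = tor s t :=
  exists_tor (by
    rw [Subgroup.coe_mul, coe_wEl, show nW full.cert F wb = _ from nW_one (F := F) (1 : Fin 2)]
    exact nG_simple_sq full _)

variable [Fintype F] [DecidableEq F] {V : Type v} [AddCommGroup V] [Module ℂ V]
  [FiniteDimensional ℂ V] (ρ : ↥(chevG2.group F) →* Module.End ℂ V) {ψ : AddChar F ℂ}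

/-- The stabiliser of a vector. -/
def stabV (v : V) : Subgroup ↥(chevG2.group F) where
  carrier := {g | ρ g v = v}
  one_mem' := by simp
  mul_mem' {a b} ha hb := by
    show ρ (a * b) v = v
    rw [map_mul, Module.End.mul_apply, hb, ha]
  inv_mem' {a} ha := by
    show ρ a⁻¹ v = v
    conv_lhs => rw [← ha]
    rw [ρ_inv_apply]

theorem mem_stabV {v : V} {g : ↥(chevG2.group F)} : g ∈ stabV ρ v ↔ ρ g v = v := Iff.rfl

theorem stabV_wAct {v : V} {l : List (Fin chevG2.rank)} (hl : wEl l ∈ stabV ρ v) {r : ℕ}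
    (hr : r < 12) (h : ∀ t, el r t ∈ stabV ρ v) (t : F) : el (wAct l r) t ∈ stabV ρ v := by
  obtain ⟨η, hη⟩ := wEl_conj (F := F) l
  have e := hη r hr (((η r)⁻¹ : Fˣ) * t)
  rw [← mul_assoc, ← Units.val_mul, mul_inv_cancel, Units.val_one, one_mul] at e
  rw [← e]
  exact mul_mem (mul_mem hl (h _)) (inv_mem hl)

/-- An element sends the vector `v` with `F`-eigen relations to a multiple. -/
theorem exists_smul {v : V} {L : List ℕ} (hL : finrank ℂ (RF ρ L) = 1) (hv : v ∈ RF ρ L)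
    (hv0 : v ≠ 0) {w : V} (hw : w ∈ RF ρ L) : ∃ c : ℂ, w = c • v := by
  obtain ⟨c, hc⟩ := (finrank_eq_one_iff_of_nonzero' (⟨v, hv⟩ : RF ρ L)
    (fun e => hv0 (congrArg Subtype.val e))).1 hL ⟨w, hw⟩
  exact ⟨c, (congrArg Subtype.val hc).symm⟩

theorem el7_RF (s : F) {w : V} (hw : w ∈ RF ρ [11, 6, 8, 9, 10]) :
    ρ (el 7 s) w ∈ RF ρ [11, 6, 8, 9, 10] := by
  have hfix : ∀ r ∈ [11, 6, 8, 9, 10], ∀ t, ρ (el r t) w = w := fun r hr t =>
    hw _ (el_mem_XS hr t)
  rintro _ ⟨r, hr, t, rfl⟩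
  simp only [List.mem_cons, List.not_mem_nil, or_false] at hr
  rcases hr with rfl | rfl | rfl | rfl | rfl
  · rw [comm_apply ρ (r := 7) (s := 11) (by decide +kernel), hfix 11 (by simp)]
  · rw [← Module.End.mul_apply, ← map_mul, swap_a_b]
    simp only [map_mul, Module.End.mul_apply, hfix 6 (by simp), hfix 8 (by simp), hfix 9 (by simp),
      hfix 10 (by simp), hfix 11 (by simp)]
  · rw [← Module.End.mul_apply, ← map_mul, swap_a_ab]
    simp only [map_mul, Module.End.mul_apply, hfix 8 (by simp), hfix 9 (by simp),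
      hfix 10 (by simp), hfix 11 (by simp)]
  · rw [← Module.End.mul_apply, ← map_mul, swap_a_2ab]
    simp only [map_mul, Module.End.mul_apply, hfix 9 (by simp), hfix 10 (by simp)]
  · rw [comm_apply ρ (r := 7) (s := 10) (by decide +kernel), hfix 10 (by simp)]

theorem el6_RF (s : F) {w : V} (hw : w ∈ RF ρ [7, 8, 9, 10, 11]) :
    ρ (el 6 s) w ∈ RF ρ [7, 8, 9, 10, 11] := by
  have hfix : ∀ r ∈ [7, 8, 9, 10, 11], ∀ t, ρ (el r t) w = w := fun r hr t =>
    hw _ (el_mem_XS hr t)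
  rintro _ ⟨r, hr, t, rfl⟩
  simp only [List.mem_cons, List.not_mem_nil, or_false] at hr
  rcases hr with rfl | rfl | rfl | rfl | rfl
  · rw [← Module.End.mul_apply, ← map_mul, swap_b_a]
    simp only [map_mul, Module.End.mul_apply, hfix 7 (by simp), hfix 8 (by simp), hfix 9 (by simp),
      hfix 10 (by simp), hfix 11 (by simp)]
  · rw [comm_apply ρ (r := 6) (s := 8) (by decide +kernel), hfix 8 (by simp)]
  · rw [comm_apply ρ (r := 6) (s := 9) (by decide +kernel), hfix 9 (by simp)]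
  · rw [← Module.End.mul_apply, ← map_mul, swap_b_3ab]
    simp only [map_mul, Module.End.mul_apply, hfix 10 (by simp), hfix 11 (by simp)]
  · rw [comm_apply ρ (r := 6) (s := 11) (by decide +kernel), hfix 11 (by simp)]

/-- The Borel fixed vector and the relation for the reflection in `b`. -/
theorem Small.exists_sign_vector (hψ : ψ ≠ 1) (h : Small ρ ψ) (h1 : nu ρ ψ 0 = 1)
    (hq : 3 ≤ Fintype.card F) (hnofix : ∀ w : V, (∀ g, ρ g w = w) → w = 0) :
    ∃ v : V, v ≠ 0 ∧ (∀ r : ℕ, 6 ≤ r → r < 12 → ∀ t, ρ (el r t) v = v) ∧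
      (∀ s t, ρ (tor s t) v = v) ∧ ρ (wEl wa) v = v ∧
      ∑ t : F, ρ (el 6 t) (ρ (wEl wb) v) = -v := by
  classical
  set L := [11, 6, 10] with hLdef
  have hL : finrank ℂ (RF ρ L) = 1 := (h.RF_11_6_10 hψ).trans h1
  have h5 : finrank ℂ (RF ρ [11, 6, 8, 9, 10]) = 1 := by
    rw [show [11, 6, 8, 9, 10] = [11] ++ ([0, 1, 2, 3] : List (Fin 4)).map Q4 from rfl,
      finrank_RF_eq ρ hψ (fam_Q4 ρ), Finset.sum_eq_single (0 : Fin 4 → F)]
    · exact h1
    · intro a ha hne
      exact absurd (funext fun i => (Finset.mem_filter.1 ha).2 i (by fin_cases i <;> simp)) hne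
    · intro hn
      exact absurd (Finset.mem_filter.2 ⟨Finset.mem_univ _, fun i _ => rfl⟩) hn
  obtain ⟨v', hv'0, -⟩ := finrank_eq_one_iff'.1 h5
  obtain ⟨v, hv⟩ := v'
  have hv0 : v ≠ 0 := fun e => hv'0 (Subtype.ext e)
  clear hv'0
  have hvL : v ∈ RF ρ L := RF_anti ρ (by simp [hLdef]) hv
  have hsub : ∀ r ∈ [11, 6, 8, 9, 10], ∀ t, el r t ∈ stabV ρ v := fun r hr t =>
    hv _ (el_mem_XS hr t)
  -- the torus acts by scalars
  have htor : ∀ s t, ∃ c : ℂ, ρ (tor s t) v = c • v := fun s t =>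
    exists_smul ρ h5 hv hv0 (RF_stable_tor ρ s t _ (by decide) hv)
  choose η hη using htor
  have hη0 : ∀ s t, η s t ≠ 0 := fun s t e => by
    have := hη s t
    rw [e, zero_smul] at this
    exact hv0 (by rw [← ρ_inv_apply ρ (tor s t) v, this, map_zero])
  have hinj := smul_left_injective ℂ hv0
  have hηmul : ∀ s t s' t', η (s * s') (t * t') = η s t * η s' t' := fun s t s' t' => hinj (by
    simp only
    rw [← hη, ← tor_mul, map_mul, Module.End.mul_apply, hη, map_smul, hη, smul_smul, mul_comm])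
  -- `X_a` fixes `v`
  have h7 : ∀ s : F, el 7 s ∈ stabV ρ v := by
    have hc : ∀ s, ∃ c : ℂ, ρ (el 7 s) v = c • v := fun s =>
      exists_smul ρ h5 hv hv0 (el7_RF ρ s hv)
    choose χ hχ using hc
    have hadd : ∀ s t, χ (s + t) = χ s * χ t := fun s t => hinj (by
      simp only
      rw [← hχ, el_add, map_mul, Module.End.mul_apply, hχ, map_smul, hχ, smul_smul, mul_comm])
    have hscale : ∀ (σ : Fˣ) (s : F), χ ((σ : F) * s) = χ s := by
      intro σ s
      have e := tor_conj σ 1 (show 7 < 12 by decide) s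
      rw [mul_inv_eq_iff_eq_mul] at e
      have hrv : ((rv σ (1 : Fˣ) 7 : Fˣ) : F) = σ := by simp [rv, ca, cb]
      rw [hrv] at e
      have e' := congrArg (fun g => ρ g v) e
      simp only [map_mul, Module.End.mul_apply, hχ, hη, map_smul, smul_smul] at e'
      have := hinj e'
      rw [mul_comm] at this
      exact (mul_left_cancel₀ (hη0 σ 1) this).symm
    obtain ⟨σ, hσ⟩ : ∃ σ : Fˣ, σ ≠ 1 :=
      Fintype.exists_ne_of_one_lt_card (by rw [Fintype.card_units]; omega) 1
    have hσ' : (σ : F) - 1 ≠ 0 := sub_ne_zero.2 fun e => hσ (Units.ext e)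
    have hne : ∀ s, χ s ≠ 0 := fun s e => by
      have := hχ s
      rw [e, zero_smul] at this
      exact hv0 (by rw [← ρ_inv_apply ρ (el 7 s) v, this, map_zero])
    intro s
    have e := hadd (((σ : F) - 1) * (((σ : F) - 1)⁻¹ * s)) (((σ : F) - 1)⁻¹ * s)
    rw [show ((σ : F) - 1) * (((σ : F) - 1)⁻¹ * s) + ((σ : F) - 1)⁻¹ * s =
      (σ : F) * (((σ : F) - 1)⁻¹ * s) by ring, hscale, ← mul_assoc, mul_inv_cancel₀ hσ', one_mul]
      at e
    rw [mem_stabV, hχ, (mul_eq_right₀ (hne _)).1 e.symm, one_smul]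
  -- `n_a` fixes `v`
  have hnv : wEl wa ∈ stabV ρ v := by
    obtain ⟨d, hd⟩ := exists_smul ρ h5 hv hv0
      (RF_stable_weyl ρ wa _ (by decide) (by decide +kernel) hv)
    have h4 : el 4 (-1 : F) ∈ stabV ρ v := by
      obtain ⟨θ, hθ⟩ := wEl_conj (F := F) wa
      have e := hθ 7 (by decide) (((θ 7)⁻¹ : Fˣ) * (-1))
      rw [← mul_assoc, ← Units.val_mul, mul_inv_cancel, Units.val_one, one_mul,
        show wAct wa 7 = 4 from wAct_wa ⟨7, by decide⟩, mul_inv_eq_iff_eq_mul] at e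
      have e' := congrArg (fun g => ρ g v) e
      simp only [map_mul, Module.End.mul_apply] at e'
      rw [show ∀ u, ρ (el 7 u) v = v from h7, hd, map_smul] at e'
      have hd0 : d ≠ 0 := fun e => by
        rw [e, zero_smul] at hd
        exact hv0 (by rw [← ρ_inv_apply ρ (wEl wa) v, hd, map_zero])
      exact (smul_right_injective V hd0 e'.symm :)
    rw [wEl_wa]
    exact mul_mem (mul_mem (h7 1) h4) (h7 1)
  -- the vector `y`
  set n : ↥(chevG2.group F) := wEl wb with hn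
  set y := ∑ t : F, ρ (el 6 t) (ρ n v) with hy
  have hU : v ∈ RF ρ [6, 7, 8, 9, 10, 11] := by
    rintro _ ⟨r, hr, t, rfl⟩
    simp only [List.mem_cons, List.not_mem_nil, or_false] at hr
    rcases hr with rfl | rfl | rfl | rfl | rfl | rfl
    · exact hsub 6 (by simp) t
    · exact h7 t
    · exact hsub 8 (by simp) t
    · exact hsub 9 (by simp) t
    · exact hsub 10 (by simp) t
    · exact hsub 11 (by simp) t
  have hnQ : ρ n v ∈ RF ρ [7, 8, 9, 10, 11] :=
    RF_stable_weyl ρ wb _ (by decide) (by decide +kernel) (RF_anti ρ (by simp) hU)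
  have hyL : y ∈ RF ρ L := by
    rintro _ ⟨r, hr, s, rfl⟩
    simp only [hLdef, List.mem_cons, List.not_mem_nil, or_false] at hr
    have hmem : y ∈ RF ρ [7, 8, 9, 10, 11] :=
      Submodule.sum_mem _ fun t _ => el6_RF ρ t hnQ
    rcases hr with rfl | rfl | rfl
    · exact hmem _ (el_mem_XS (by simp) s)
    · rw [hy, map_sum]
      refine Fintype.sum_equiv (Equiv.addLeft s) _ _ fun t => ?_
      rw [Equiv.coe_addLeft, el_add, map_mul, Module.End.mul_apply]
    · exact hmem _ (el_mem_XS (by simp) s)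
  obtain ⟨c, hc⟩ := exists_smul ρ hL hvL hv0 hyL
  obtain ⟨s0, t0, hsq⟩ := wb_sq (F := F)
  have hn2 : ρ n (ρ n v) = η s0 t0 • v := by
    rw [← Module.End.mul_apply, ← map_mul, hsq, hη]
  obtain ⟨θ, hθ⟩ := wEl_conj (F := F) wb
  have hw65 : wAct wb 6 = 5 := wAct_wb ⟨6, by decide⟩
  have hny : ρ n y = η s0 t0 • ∑ u : F, ρ (el 5 u) v := by
    rw [hy, map_sum, Finset.smul_sum]
    refine Fintype.sum_equiv (Units.mulLeft (θ 6)) _ _ fun t => ?_
    have e := hθ 6 (by decide) t
    rw [hw65, mul_inv_eq_iff_eq_mul] at e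
    rw [← Module.End.mul_apply, ← map_mul, hn, e, map_mul, Module.End.mul_apply, ← hn, hn2, map_smul]
    rfl
  -- the elements of `X_{-b}`
  have h5t : ∀ τ : Fˣ, ρ (el 5 (-((τ⁻¹ : Fˣ) : F))) v = η 1 τ⁻¹ •
      ρ (el 6 (-(τ : F))) (ρ (tor 1 τ) (ρ n v)) := by
    intro τ
    have e : el 5 (-((τ⁻¹ : Fˣ) : F)) = tor 1 τ * el 5 (-1) * (tor 1 τ)⁻¹ := by
      rw [tor_conj 1 τ (by decide : 5 < 12)]
      congr 1
      simp [rv, ca, cb]
    have e2 : tor 1 τ * el 6 (-1 : F) = el 6 (-(τ : F)) * tor 1 τ := by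
      have := tor_conj 1 τ (by decide : 6 < 12) (-1)
      rw [mul_inv_eq_iff_eq_mul] at this
      rw [this]
      congr 2
      simp [rv, ca, cb]
    have e3 : el 5 (-1 : F) = el 6 (-1) * n * el 6 (-1) := by
      rw [hn, wEl_wb, ← el_inv 6 (1 : F)]
      group
    have e4 : (tor (1 : Fˣ) τ)⁻¹ = tor 1 τ⁻¹ := by
      refine inv_eq_of_mul_eq_one_right ?_
      rw [tor_mul, one_mul, mul_inv_cancel]
      have e := tor_mul (1 : Fˣ) 1 1 1
      rw [mul_one] at e
      exact mul_eq_left.1 e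
    rw [e, e4, map_mul, Module.End.mul_apply, hη, map_smul, e3, ← mul_assoc, ← mul_assoc, e2]
    simp only [map_mul, Module.End.mul_apply]
    rw [hsub 6 (by simp) (-1)]
  have hnb : ∀ s t, ρ (tor s t) (ρ n v) = η (s * t) t⁻¹ • ρ n v := by
    intro s t
    have e := tor_wb (F := F) (s * t) t⁻¹
    rw [inv_inv, mul_inv_cancel_right, mul_inv_eq_iff_eq_mul] at e
    have e' := congrArg (fun g => ρ g v) e
    simp only [map_mul, Module.End.mul_apply, hη, map_smul] at e'
    exact e'.symm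
  have hc0 : c ≠ 0 := by
    intro hc0
    rw [hc0, zero_smul] at hc
    rw [hc, map_zero] at hny
    have hsum : ∑ u : F, ρ (el 5 u) v = 0 :=
      (smul_eq_zero.1 hny.symm).resolve_left (hη0 s0 t0)
    have hP := congrArg (fun x => ∑ s : F, ρ (el 6 s) x) hsum
    simp only [map_sum, map_zero, Finset.sum_const_zero] at hP
    rw [Finset.sum_comm, Finset.sum_eq_single (0 : F)] at hP
    · rw [el_zero, map_one, Module.End.one_apply, Finset.sum_congr rfl fun s _ => hsub 6 (by simp) s,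
        Finset.sum_const, Finset.card_univ, ← Nat.cast_smul_eq_nsmul ℂ, smul_eq_zero] at hP
      exact hv0 (hP.resolve_left (Nat.cast_ne_zero.2 Fintype.card_ne_zero))
    · intro u _ hu
      obtain ⟨τ, rfl⟩ : ∃ τ : Fˣ, -((τ⁻¹ : Fˣ) : F) = u :=
        ⟨(Units.mk0 (-u) (neg_ne_zero.2 hu))⁻¹, by simp⟩
      simp only [h5t, map_smul, hnb, ← Finset.smul_sum]
      have : ∑ s : F, ρ (el 6 s) (ρ (el 6 (-(τ : F))) (ρ n v)) = y := by
        rw [hy]
        refine Fintype.sum_equiv (Equiv.addRight (-(τ : F))) _ _ fun s => ?_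
        rw [Equiv.coe_addRight, el_add, map_mul, Module.End.mul_apply]
      rw [this, hc, smul_zero, smul_zero]
    · simp
  -- the torus fixes `v`
  have hT : ∀ s t, η s t = 1 := by
    have hb : ∀ s t, η (s * t) t⁻¹ = η s t := by
      intro s t
      have e1 : ρ (tor s t) y = η (s * t) t⁻¹ • y := by
        rw [hy, map_sum, Finset.smul_sum]
        refine Fintype.sum_equiv (Units.mulLeft t) _ _ fun u => ?_
        have e := tor_conj s t (by decide : 6 < 12) u
        rw [mul_inv_eq_iff_eq_mul] at e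
        rw [← Module.End.mul_apply, ← map_mul, e, map_mul, Module.End.mul_apply, hnb, map_smul]
        simp [rv, ca, cb]
      rw [hc, map_smul, hη, smul_smul, smul_smul] at e1
      exact (mul_left_cancel₀ hc0 ((hinj e1).trans (mul_comm _ _))).symm
    have ha : ∀ s t, η s⁻¹ (s ^ 3 * t) = η s t := by
      intro s t
      have e := tor_wa (F := F) s t
      rw [mul_inv_eq_iff_eq_mul] at e
      have e' := congrArg (fun g => ρ g v) e
      simp only [map_mul, Module.End.mul_apply, (mem_stabV ρ).1 hnv, hη, map_smul] at e'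
      exact (hinj e').symm
    have h11 : η 1 1 = 1 := by
      have e := hηmul 1 1 1 1
      rw [mul_one] at e
      exact (mul_eq_left₀ (hη0 1 1)).1 e.symm
    have kb : ∀ t, η t (t⁻¹ * t⁻¹) = 1 := by
      intro t
      have e := hηmul 1 t t (t⁻¹ * t⁻¹)
      rw [one_mul, mul_inv_cancel_left, show η t t⁻¹ = η (1 * t) t⁻¹ by rw [one_mul], hb] at e
      exact (mul_eq_left₀ (hη0 1 t)).1 e.symm
    have ka : ∀ s, η (s * s) (s⁻¹ * s⁻¹ * s⁻¹) = 1 := by
      intro s
      have e := hηmul (s * s) (s⁻¹ * s⁻¹ * s⁻¹) s⁻¹ (s ^ 3 * 1)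
      rw [mul_inv_cancel_right, mul_one, show s⁻¹ * s⁻¹ * s⁻¹ * s ^ 3 = 1 by group] at e
      rw [show η s⁻¹ (s ^ 3) = η s 1 by rw [← ha s 1, mul_one]] at e
      exact (mul_eq_right₀ (hη0 s 1)).1 e.symm
    have k1 : ∀ t, η 1 t = 1 := by
      intro t
      have e1 := hηmul t (t⁻¹ * t⁻¹) t (t⁻¹ * t⁻¹)
      rw [kb, one_mul] at e1
      have e2 := hηmul (t * t) (t⁻¹ * t⁻¹ * (t⁻¹ * t⁻¹)) 1 t
      rw [e1, one_mul, mul_one, show t⁻¹ * t⁻¹ * (t⁻¹ * t⁻¹) * t = t⁻¹ * t⁻¹ * t⁻¹ by group, ka] at e2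
      exact e2.symm
    intro s t
    have e := hηmul s (s⁻¹ * s⁻¹) 1 (s * s * t)
    rw [kb, k1, mul_one, mul_one, show s⁻¹ * s⁻¹ * (s * s * t) = t by
      rw [mul_assoc s s t, ← mul_assoc, mul_assoc s⁻¹, inv_mul_cancel, mul_one, inv_mul_cancel_left]]
      at e
    exact e
  have hfixT : ∀ s t, ρ (tor s t) v = v := fun s t => by rw [hη, hT, one_smul]
  refine ⟨v, hv0, ?_, hfixT, hnv, ?_⟩
  · intro r hr1 hr2 t
    refine hU _ (el_mem_XS ?_ t)
    simp only [List.mem_cons, List.not_mem_nil, or_false]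
    omega
  -- the eigenvalue
  have hTn : ∀ τ : Fˣ, ρ (tor 1 τ) (ρ n v) = ρ n v := fun τ => by rw [hnb, hT, one_smul]
  have hkey : ∑ u : F, ρ (el 5 u) v = v + (y - ρ n v) := by
    rw [← Finset.add_sum_erase _ _ (Finset.mem_univ (0 : F)), el_zero, map_one,
      Module.End.one_apply, hy,
      ← Finset.add_sum_erase (Finset.univ : Finset F) (fun t => ρ (el 6 t) (ρ n v))
        (Finset.mem_univ (0 : F)), el_zero, map_one, Module.End.one_apply, add_sub_cancel_left]
    congr 1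
    refine Finset.sum_bij' (fun u _ => u⁻¹) (fun u _ => u⁻¹) ?_ ?_ ?_ ?_ ?_
    · intro u hu; simpa using hu
    · intro u hu; simpa using hu
    · intro u _; simp
    · intro u _; simp
    · intro u hu
      have hu0 : u ≠ 0 := (Finset.mem_erase.1 hu).1
      have e := h5t (Units.mk0 (-u⁻¹) (neg_ne_zero.2 (inv_ne_zero hu0)))
      rw [hTn, hT, one_smul] at e
      simpa [inv_neg] using e
  rw [hkey, hT, one_smul, hc, map_smul] at hny
  have hfin : (c + 1) • (ρ n v - v) = 0 := by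
    rw [add_smul, one_smul, smul_sub, hny]
    abel
  rcases smul_eq_zero.1 hfin with e | e
  · show y = -v
    rw [hc, eq_neg_of_add_eq_zero_left e, neg_one_smul]
  · exfalso
    refine hv0 (hnofix v fun g => ?_)
    have hnb' : wEl wb ∈ stabV ρ v := sub_eq_zero.1 e
    have hpos : ∀ r ∈ [6, 7, 8, 9, 10, 11], ∀ t, el r t ∈ stabV ρ v := fun r hr t =>
      hU _ (el_mem_XS hr t)
    have s5 : ∀ t, el 5 t ∈ stabV ρ v := fun t => by
      simpa [show wAct wb 6 = 5 from wAct_wb ⟨6, by decide⟩] using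
        stabV_wAct ρ hnb' (by decide : 6 < 12) (hpos 6 (by simp)) t
    have s4 : ∀ t, el 4 t ∈ stabV ρ v := fun t => by
      simpa [show wAct wa 7 = 4 from wAct_wa ⟨7, by decide⟩] using
        stabV_wAct ρ hnv (by decide : 7 < 12) (hpos 7 (by simp)) t
    have s3 : ∀ t, el 3 t ∈ stabV ρ v := fun t => by
      simpa [show wAct wb 4 = 3 from wAct_wb ⟨4, by decide⟩] using
        stabV_wAct ρ hnb' (by decide : 4 < 12) s4 t
    have s2 : ∀ t, el 2 t ∈ stabV ρ v := fun t => by
      simpa [show wAct wa 3 = 2 from wAct_wa ⟨3, by decide⟩] using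
        stabV_wAct ρ hnv (by decide : 3 < 12) s3 t
    have s1 : ∀ t, el 1 t ∈ stabV ρ v := fun t => by
      simpa [show wAct wa 5 = 1 from wAct_wa ⟨5, by decide⟩] using
        stabV_wAct ρ hnv (by decide : 5 < 12) s5 t
    have s0 : ∀ t, el 0 t ∈ stabV ρ v := fun t => by
      simpa [show wAct wb 1 = 0 from wAct_wb ⟨1, by decide⟩] using
        stabV_wAct ρ hnb' (by decide : 1 < 12) s1 t
    have hall : (⊤ : Subgroup ↥(chevG2.group F)) ≤ stabV ρ v := by
      rw [← closure_el, Subgroup.closure_le]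
      rintro _ ⟨r, hr, t, rfl⟩
      interval_cases r
      all_goals first
        | exact s0 t | exact s1 t | exact s2 t | exact s3 t | exact s4 t | exact s5 t
        | exact hpos _ (by simp) t
    exact hall (Subgroup.mem_top g)

end CfsgLib.Chevalley.G2Degree
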