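import Cfsg.Agent.Lib.Chevalley.G2Degree.C3Orbits
import Cfsg.Agent.Lib.Chevalley.G2Degree.Hecke
import Cfsg.Agent.Lib.CharTheory.Degree

/-!
The bound `q⁴ + q² + 1` in characteristic three.
-/

set_option autoImplicit false
set_option linter.unusedSectionVars false
set_option linter.style.haveILetI false
set_option maxRecDepth 10000

open Cfsg.Lie Module

namespace CfsgLib.Chevalley.G2Degree

universe u v

theorem div_case_zero {q : ℕ} (hq : 9 ≤ q)
    (h : (q ^ 3 + q ^ 2 + 2 * q + 1) * (q - 1) ∣ q ^ 6 * ((q ^ 2 - 1) * (q ^ 6 - 1))) : False := by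
  obtain ⟨x, hx⟩ : ∃ x, x = q ^ 3 + q ^ 2 + 2 * q + 1 := ⟨_, rfl⟩
  rw [← hx] at h
  obtain ⟨e, he⟩ := h
  have h1 : ((x : ℤ) * ((q : ℤ) - 1)) * e = (q : ℤ) ^ 6 * (((q : ℤ) ^ 2 - 1) * ((q : ℤ) ^ 6 - 1)) := by
    have := congrArg (Nat.cast : ℕ → ℤ) he
    push_cast [Nat.cast_sub (by omega : 1 ≤ q), Nat.cast_sub (Nat.one_le_pow 2 q (by omega)),
      Nat.cast_sub (Nat.one_le_pow 6 q (by omega))] at this
    linear_combination -this
  have h2 : (x : ℤ) * e = (q : ℤ) ^ 6 * ((q : ℤ) - 1) * ((q : ℤ) + 1) ^ 2 *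
      ((q : ℤ) ^ 2 + q + 1) * ((q : ℤ) ^ 2 - q + 1) := by
    refine mul_right_cancel₀ (b := (q : ℤ) - 1) (by omega) ?_
    linear_combination h1
  set X : ZMod x := (q : ZMod x) with hX
  have h0 : X ^ 3 + X ^ 2 + 2 * X + 1 = 0 := by
    have e : ((x : ℕ) : ZMod x) = ((q ^ 3 + q ^ 2 + 2 * q + 1 : ℕ) : ZMod x) := congrArg _ hx
    rw [ZMod.natCast_self] at e
    push_cast at e
    exact e.symm
  have hE : X ^ 6 * (X - 1) * (X + 1) ^ 2 * (X ^ 2 + X + 1) * (X ^ 2 - X + 1) = 0 := by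
    have := congrArg (Int.cast : ℤ → ZMod x) h2
    push_cast at this
    rw [← this, ZMod.natCast_self, zero_mul]
  have a1 : X * (X ^ 2 + X + 2) = -1 := by linear_combination h0
  have a2 : (X + 1) * (X ^ 2 + 2) = 1 := by linear_combination h0
  have a3 : (X - 1) * (X ^ 2 + 2 * X + 4) = -5 := by linear_combination h0
  have a4 : (X ^ 2 + X + 1) * (-(X * (X ^ 2 + 2))) = 1 := by linear_combination a2 - (X ^ 2 + 2) * h0
  have a5 : (X ^ 2 - X + 1) * (9 + (3 * X - 2) * (X + 2)) = 7 := by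
    linear_combination (3 * X - 2) * h0
  have : ((35 : ℕ) : ZMod x) = 0 := by
    have e : (X * (X ^ 2 + X + 2)) ^ 6 * ((X - 1) * (X ^ 2 + 2 * X + 4)) *
        ((X + 1) * (X ^ 2 + 2)) ^ 2 * ((X ^ 2 + X + 1) * (-(X * (X ^ 2 + 2)))) *
        ((X ^ 2 - X + 1) * (9 + (3 * X - 2) * (X + 2))) = 0 := by
      linear_combination ((X ^ 2 + X + 2) ^ 6 * (X ^ 2 + 2 * X + 4) * (X ^ 2 + 2) ^ 2 *
        (-(X * (X ^ 2 + 2))) * (9 + (3 * X - 2) * (X + 2))) * hE
    rw [a1, a2, a3, a4, a5] at e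
    push_cast
    linear_combination -e
  have h35 := Nat.le_of_dvd (by norm_num) ((ZMod.natCast_eq_zero_iff _ _).1 this)
  have : 9 ^ 3 ≤ q ^ 3 := Nat.pow_le_pow_left hq 3
  omega

theorem div_case_pred {q : ℕ} (hq : 9 ≤ q)
    (h : (q ^ 2 - 1) * (q ^ 2 + 2) ∣ q ^ 6 * ((q ^ 2 - 1) * (q ^ 6 - 1))) : False := by
  obtain ⟨e, he⟩ := h
  have h1 : ((q : ℤ) ^ 2 + 2) * e = (q : ℤ) ^ 6 * ((q : ℤ) ^ 6 - 1) := by
    have := congrArg (Nat.cast : ℕ → ℤ) he
    push_cast [Nat.cast_sub (Nat.one_le_pow 2 q (by omega)),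
      Nat.cast_sub (Nat.one_le_pow 6 q (by omega))] at this
    refine mul_right_cancel₀ (b := (q : ℤ) ^ 2 - 1) (by nlinarith) ?_
    linear_combination -this
  have hd : ((q : ℤ) ^ 2 + 2) ∣ 72 := ⟨e - ((q : ℤ) ^ 10 - 2 * q ^ 8 + 4 * q ^ 6 - 9 * q ^ 4 + 18 * q ^ 2 - 36), by
    linear_combination -h1⟩
  have := Int.le_of_dvd (by norm_num) hd
  nlinarith

theorem div_case_q {q : ℕ} (hq : 9 ≤ q)
    (h : q ^ 4 + q ^ 2 - 1 ∣ q ^ 6 * ((q ^ 2 - 1) * (q ^ 6 - 1))) : False := by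
  obtain ⟨e, he⟩ := h
  have h1 : ((q : ℤ) ^ 4 + (q : ℤ) ^ 2 - 1) * e =
      (q : ℤ) ^ 6 * (((q : ℤ) ^ 2 - 1) * ((q : ℤ) ^ 6 - 1)) := by
    have := congrArg (Nat.cast : ℕ → ℤ) he
    have h4 : 1 ≤ q ^ 4 + q ^ 2 := le_add_right (Nat.one_le_pow 4 q (by omega))
    push_cast [Nat.cast_sub h4, Nat.cast_sub (Nat.one_le_pow 2 q (by omega)),
      Nat.cast_sub (Nat.one_le_pow 6 q (by omega))] at this
    linear_combination -this
  set k : ℤ := (q : ℤ) ^ 4 + (q : ℤ) ^ 2 - 1 with hk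
  have hd : k ∣ 2 := by
    rw [← Int.modEq_zero_iff_dvd]
    have hE : (q : ℤ) ^ 6 * (((q : ℤ) ^ 2 - 1) * ((q : ℤ) ^ 6 - 1)) ≡ 0 [ZMOD k] :=
      Int.modEq_zero_iff_dvd.2 ⟨e, h1.symm⟩
    have hE2 := hE.mul_right (((q : ℤ) ^ 2 + 2) ^ 2 * ((q : ℤ) ^ 2 + 1) ^ 3)
    rw [zero_mul] at hE2
    refine (Int.ModEq.trans ?_ hE2)
    have i1 : (q : ℤ) ^ 2 * ((q : ℤ) ^ 2 + 1) ≡ 1 [ZMOD k] :=
      Int.modEq_iff_dvd.2 ⟨-1, by rw [hk]; ring⟩
    have i2 : ((q : ℤ) ^ 2 - 1) * ((q : ℤ) ^ 2 + 2) ≡ -1 [ZMOD k] :=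
      Int.modEq_iff_dvd.2 ⟨-1, by rw [hk]; ring⟩
    have i3 : (q : ℤ) ^ 4 + (q : ℤ) ^ 2 + 1 ≡ 2 [ZMOD k] :=
      Int.modEq_iff_dvd.2 ⟨-1, by rw [hk]; ring⟩
    have := ((i1.pow 3).mul (i2.pow 2)).mul i3
    refine Int.ModEq.trans (Int.ModEq.symm ?_) (Int.ModEq.refl _)
    refine Int.ModEq.trans (Eq.subst ?_ (Int.ModEq.refl _)) this
    ring
  have := Int.le_of_dvd (by norm_num) hd
  have : (81 : ℤ) ≤ (q : ℤ) ^ 2 := by nlinarith
  have : (0 : ℤ) ≤ (q : ℤ) ^ 4 := by positivity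
  omega

theorem div_case_succ {q : ℕ} (hq : 9 ≤ q)
    (h : q ^ 2 * (q ^ 2 + 1) ∣ q ^ 6 * ((q ^ 2 - 1) * (q ^ 6 - 1))) : False := by
  obtain ⟨e, he⟩ := h
  have h1 : ((q : ℤ) ^ 2 + 1) * ((q : ℤ) ^ 2 * e) =
      (q : ℤ) ^ 6 * (((q : ℤ) ^ 2 - 1) * ((q : ℤ) ^ 6 - 1)) := by
    have := congrArg (Nat.cast : ℕ → ℤ) he
    push_cast [Nat.cast_sub (Nat.one_le_pow 2 q (by omega)),
      Nat.cast_sub (Nat.one_le_pow 6 q (by omega))] at this
    linear_combination -this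
  have hd : ((q : ℤ) ^ 2 + 1) ∣ 4 := by
    refine ⟨(q : ℤ) ^ 12 - 2 * q ^ 10 + 2 * q ^ 8 - 3 * q ^ 6 + 4 * q ^ 4 - 4 * q ^ 2 + 4 -
      (q : ℤ) ^ 2 * e, ?_⟩
    linear_combination h1
  have := Int.le_of_dvd (by norm_num) hd
  nlinarith

theorem poly_two (s : ℕ) : (s + 8 + 1) ^ 4 + (s + 8 + 1) ^ 2 + 1 ≤
    (s + 8) * ((s + 8 + 1) * (((s + 8) * (s + 8) + 2 * (s + 8)) * 2)) := by
  ring_nf
  omega

theorem poly_six (r : ℕ) : 6 * ((r + 9) ^ 4 + (r + 9) ^ 2 + 1) ≤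
    (r + 10) * ((r + 9) * (r + 8) ^ 2) + 6 * ((r + 8) * ((r + 9) * ((r + 8) * (r + 10)))) := by
  ring_nf
  omega

theorem poly_big (s : ℕ) : s + 11 ≤ (s + 8) * ((s + 9) * (s + 9) + (s + 9) + 1) ∧
    s + 11 ≤ (s + 10) * (s + 8) * (s + 9) := by
  constructor <;> ring_nf <;> omega

/-- The degrees which divide the order are large. -/
theorem degree_dvd_bound {q m k : ℕ} (hq : 9 ≤ q) (hk : k + q + 1 = q ^ 4 + q ^ 2 + m)
    (hm : m = 0 ∨ q - 1 ≤ m) (hdvd : k ∣ q ^ 6 * ((q ^ 2 - 1) * (q ^ 6 - 1))) :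
    q ^ 4 + q ^ 2 + 1 ≤ k := by
  by_contra hlt
  have h81 : 81 ≤ q ^ 2 := by nlinarith
  have h27 : q + 1 ≤ q ^ 4 := by
    have : q ≤ q ^ 4 := Nat.le_self_pow (by norm_num) q
    have : q < q ^ 4 := by
      calc q < q ^ 2 := by nlinarith
        _ ≤ q ^ 4 := Nat.pow_le_pow_right (by omega) (by norm_num)
    omega
  have hcases : m = 0 ∨ m = q - 1 ∨ m = q ∨ m = q + 1 := by omega
  rcases hcases with rfl | rfl | rfl | rfl
  · refine div_case_zero hq (dvd_trans (dvd_of_eq ?_) hdvd)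
    obtain ⟨r, rfl⟩ : ∃ r, q = r + 1 := ⟨q - 1, by omega⟩
    rw [show r + 1 - 1 = r from rfl]
    have e : ((r + 1) ^ 3 + (r + 1) ^ 2 + 2 * (r + 1) + 1) * r + (r + 1) + 1 =
        (r + 1) ^ 4 + (r + 1) ^ 2 := by ring
    omega
  · refine div_case_pred hq (dvd_trans (dvd_of_eq ?_) hdvd)
    obtain ⟨r, hr⟩ : ∃ r, q ^ 2 = r + 1 := ⟨q ^ 2 - 1, by omega⟩
    have e : q ^ 4 + q ^ 2 = r * (r + 3) + 2 := by
      rw [show q ^ 4 = q ^ 2 * q ^ 2 by ring, hr]; ring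
    rw [hr, show r + 1 - 1 = r from rfl, show r + 1 + 2 = r + 3 from rfl]
    omega
  · exact div_case_q hq (dvd_trans (dvd_of_eq (by omega)) hdvd)
  · refine div_case_succ hq (dvd_trans (dvd_of_eq ?_) hdvd)
    have e : q ^ 2 * (q ^ 2 + 1) = q ^ 4 + q ^ 2 := by ring
    omega

variable {F : Type u} [Field F] [Fintype F] [DecidableEq F]
  {V : Type v} [AddCommGroup V] [Module ℂ V] [FiniteDimensional ℂ V]
  (ρ : ↥(chevG2.group F) →* Module.End ℂ V) {ψ : AddChar F ℂ} (Φ : Frame ψ)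

namespace Frame

/-- The roots of the radical. -/
def rootsQ : List ℕ := [Φ.zz] ++ ([0, 1, 2, 3] : List (Fin 4)).map Φ.fQ

theorem nu_zero_eq (hψ : ψ ≠ 1) : Φ.nu ρ 0 = finrank ℂ (RF ρ Φ.rootsQ) := by
  rw [rootsQ, Φ.sum_nu_eq ρ hψ, Finset.sum_eq_single (0 : Fin 4 → F)]
  · intro a ha hne
    exact absurd (funext fun i => (Finset.mem_filter.1 ha).2 i (by fin_cases i <;> simp)) hne
  · intro hn
    exact absurd (Finset.mem_filter.2 ⟨Finset.mem_univ _, fun i _ => rfl⟩) hn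

/-- Either many vectors are fixed by the radical or they are fixed by `xa` too. -/
theorem xa_dichotomy (hψ : ψ ≠ 1) :
    Fintype.card F - 1 ≤ Φ.nu ρ 0 ∨ RF ρ Φ.rootsQ ≤ RF ρ [Φ.xa] := by
  classical
  have hst : ∀ s, ∀ w ∈ RF ρ Φ.rootsQ, ρ (el Φ.xa s) w ∈ RF ρ Φ.rootsQ := by
    intro s w hw
    have hf : ∀ r ∈ [Φ.zz, Φ.xb, Φ.x1, Φ.x2, Φ.x3], ∀ t, ρ (el r t) w = w := fun r hr t =>
      hw _ (el_mem_XS (by simpa [rootsQ, fQ] using hr) t)
    rintro _ ⟨r, hr, t, rfl⟩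
    simp only [rootsQ, fQ, List.map_cons, List.map_nil, List.singleton_append, List.mem_cons,
      List.not_mem_nil, or_false, Matrix.cons_val] at hr
    have hc : Commute (el r t) (el Φ.xa s) → ρ (el r t) (ρ (el Φ.xa s) w) = ρ (el Φ.xa s) w →
        ρ (el r t) (ρ (el Φ.xa s) w) = ρ (el Φ.xa s) w := fun _ h => h
    rcases hr with rfl | rfl | rfl | rfl | rfl
    · rw [← Module.End.mul_apply, ← map_mul, (Φ.c_az s t).eq, map_mul, Module.End.mul_apply,
        hf Φ.zz (by simp)]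
    · obtain ⟨e1, e2, e3, u, hsw, -⟩ := Φ.swapb s t
      rw [← Module.End.mul_apply, ← map_mul, hsw]
      simp only [map_mul, Module.End.mul_apply, hf Φ.zz (by simp), hf Φ.xb (by simp),
        hf Φ.x1 (by simp), hf Φ.x2 (by simp), hf Φ.x3 (by simp)]
    · rw [← Module.End.mul_apply, ← map_mul, Φ.swap1']
      simp only [map_mul, Module.End.mul_apply, hf Φ.x1 (by simp), hf Φ.x2 (by simp)]
    · rw [← Module.End.mul_apply, ← map_mul, (Φ.c_a2 s t).eq, map_mul, Module.End.mul_apply,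
        hf Φ.x2 (by simp)]
    · rw [← Module.End.mul_apply, ← map_mul, (Φ.c_a3 s t).eq, map_mul, Module.End.mul_apply,
        hf Φ.x3 (by simp)]
  have hfam : Fam ρ (RF ρ Φ.rootsQ) (fam (F := F) ![Φ.xa]) := by
    refine fam_isFam ρ (fun i t w hw => by fin_cases i; exact hst t w hw) fun i j s t w _ => ?_
    fin_cases i; fin_cases j
    exact comm_apply ρ (Or.inr rfl) t s w
  have htot : Φ.nu ρ 0 = ∑ a, mu ψ ρ (RF ρ Φ.rootsQ) (fam ![Φ.xa]) a := by
    rw [Φ.nu_zero_eq ρ hψ, finrank_fam ρ hψ hfam]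
  by_cases h : ∀ a : Fin 1 → F, a ≠ 0 → mu ψ ρ (RF ρ Φ.rootsQ) (fam ![Φ.xa]) a = 0
  · right
    have e : finrank ℂ (RF ρ (Φ.rootsQ ++ ([0] : List (Fin 1)).map ![Φ.xa])) =
        finrank ℂ (RF ρ Φ.rootsQ) := by
      rw [finrank_RF_eq ρ hψ hfam, finrank_fam ρ hψ hfam]
      refine Finset.sum_subset (Finset.subset_univ _) fun a _ ha => h a fun e => ha ?_
      exact Finset.mem_filter.2 ⟨Finset.mem_univ _, fun i _ => by rw [e]; rfl⟩
    have e2 := Submodule.eq_of_le_of_finrank_eq (RF_anti ρ (List.subset_append_left _ _)) e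
    rw [← e2]
    exact RF_anti ρ (by simp)
  · left
    push Not at h
    obtain ⟨a, ha, hna⟩ := h
    have ha0 : a 0 ≠ 0 := fun e => ha (funext fun i => by fin_cases i; exact e)
    rw [htot]
    refine le_trans ?_ (Finset.sum_le_sum_of_subset
      (Finset.subset_univ ((Finset.univ.erase (0 : F)).image fun c => fun _ : Fin 1 => c)))
    rw [Finset.sum_image (fun x _ y _ e => congrFun e 0)]
    refine le_trans ?_ (Finset.sum_le_sum (f := fun _ => 1) fun c hc => ?_)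
    · simp [Finset.card_erase_of_mem]
    obtain ⟨s, t, hst'⟩ := Φ.tor_a (Units.mk0 (c / a 0) (div_ne_zero (Finset.mem_erase.1 hc).1 ha0))
    have hL : ∀ i, (![Φ.xa] : Fin 1 → ℕ) i < 12 := fun i => by
      fin_cases i; exact Φ.lt _ (by simp)
    rw [show (fun _ : Fin 1 => c) = scal ![Φ.xa] s t a from funext fun i => by
      fin_cases i; simp [scal, hst', div_mul_cancel₀ _ ha0],
      mu_scal ρ hfam hL (fun s t w hw => RF_stable_tor ρ s t _ (fun r hr => Φ.lt r (by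
        simp [rootsQ, fQ] at hr ⊢; tauto)) hw) s t a]
    exact Nat.one_le_iff_ne_zero.2 hna

/-- The numerical consequences in one frame. -/
theorem frame_eqs (hψ : ψ ≠ 1) : ∃ X C K : ℕ,
    finrank ℂ V = Φ.nu ρ 0 + (Fintype.card F + 1) * X + (Fintype.card F + 1) * C +
      (Fintype.card F - 1) * (Fintype.card F * (Φ.mA ρ + (Fintype.card F ^ 2 - 1) * Φ.mB ρ)) ∧
    (Fintype.card F - 1) * (Φ.mA ρ + (Fintype.card F ^ 2 - 1) * Φ.mB ρ) = Fintype.card F * X + K +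
      (Fintype.card F - 1) * ((Fintype.card F ^ 2 - Fintype.card F) * Φ.mB ρ) ∧
    finrank ℂ (RF ρ [Φ.x2]) + Fintype.card F * C + (Fintype.card F - 1) *
      ((Fintype.card F * (Fintype.card F ^ 2 - Fintype.card F)) * Φ.mB ρ) = finrank ℂ V ∧
    finrank ℂ V + finrank ℂ (RF ρ [Φ.zz, Φ.x2]) = finrank ℂ (RF ρ [Φ.zz]) + finrank ℂ (RF ρ [Φ.x2]) +
      (Fintype.card F - 1) * ((Fintype.card F * (Fintype.card F ^ 2 - Fintype.card F)) * Φ.mB ρ) ∧
    K ≤ C ∧ (K ≠ 0 → Fintype.card F * (Fintype.card F - 1) ^ 2 ≤ 6 * K) := by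
  obtain ⟨X, C, K, hsum, h2, h3, hKC, hK⟩ := Φ.nu_shape ρ
  obtain ⟨d0, -, d3, d32, d2⟩ := Φ.nu_counts ρ hψ
  have sz := Φ.split_zz ρ hψ
  have s2 := Φ.split_x2 ρ hψ
  rw [d32] at h3
  rw [h2] at d2
  rw [d3] at h3
  set q := Fintype.card F
  obtain ⟨r, hr⟩ : ∃ r, q = r + 1 :=
    ⟨q - 1, by have := Fintype.card_pos (α := F); omega⟩
  have e1 : q ^ 2 - 1 = r * r + 2 * r := by
    rw [hr, show (r + 1) ^ 2 = r * r + 2 * r + 1 by ring]; rfl
  have e2 : q ^ 2 - q = r * r + r := by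
    rw [hr, show (r + 1) ^ 2 = r * r + r + (r + 1) by ring, Nat.add_sub_cancel]
  have e0 : q - 1 = r := by omega
  rw [e0, e1] at sz h3
  rw [e0] at s2
  rw [e2] at h3
  refine ⟨X, C, K, by rw [e0, e1]; omega, by rw [e0, e1, e2]; exact h3, ?_, ?_, hKC, hK⟩
  · rw [e0, e2]
    have e3 : r * (q * (Φ.mA ρ + (r * r + 2 * r) * Φ.mB ρ)) =
        r * (q * (Φ.mA ρ + r * Φ.mB ρ)) + r * (q * (r * r + r) * Φ.mB ρ) := by ring
    omega
  · rw [e0, e2]
    have e3 : r * (q * (Φ.mA ρ + (r * r + 2 * r) * Φ.mB ρ)) =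
        r * (q * (Φ.mA ρ + r * Φ.mB ρ)) + r * (q * (r * r + r) * Φ.mB ρ) := by ring
    omega

end Frame

/-- One frame when the second multiplicity is one: the bound, or the multiplicity `A` is one. -/
theorem frame_case {q k m X C K A A' : ℕ} (hq : 9 ≤ q)
    (hk : k = m + (q + 1) * X + (q + 1) * C + (q - 1) * (q * (A + (q ^ 2 - 1) * 1)))
    (h3 : (q - 1) * (A + (q ^ 2 - 1) * 1) = q * X + K + (q - 1) * ((q ^ 2 - q) * 1))
    (hC : C = (q - 1) * (A' + (q - 1))) (hKC : K ≤ C) (hK : K ≠ 0 → q * (q - 1) ^ 2 ≤ 6 * K) :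
    q ^ 4 + q ^ 2 + 1 ≤ k ∨ ∃ j, A = q * j + 1 ∧ X = (q - 1) * (j + 1) := by
  by_cases hK0 : K = 0
  · right
    have hz : ((q : ℤ) - 1) * (A + ((q : ℤ) ^ 2 - 1)) =
        q * X + ((q : ℤ) - 1) * ((q : ℤ) ^ 2 - q) := by
      have := congrArg (Nat.cast : ℕ → ℤ) h3
      rw [hK0, mul_one, mul_one] at this
      push_cast [Nat.cast_sub (by omega : 1 ≤ q), Nat.cast_sub (Nat.one_le_pow 2 q (by omega)),
        Nat.cast_sub (Nat.le_self_pow two_ne_zero q)] at this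
      linear_combination this
    set j : ℤ := (A : ℤ) - 1 + q - X - 1 with hj
    have hA : (A : ℤ) = q * j + 1 := by
      rw [hj]
      linear_combination hz * (-1)
    have hj0 : 0 ≤ j := by
      by_contra hneg
      have h1 : (q : ℤ) * j ≤ q * (-1) := mul_le_mul_of_nonneg_left (by omega) (by positivity)
      omega
    obtain ⟨i, hi⟩ := Int.eq_ofNat_of_zero_le hj0
    refine ⟨i, ?_, ?_⟩
    · have : ((A : ℕ) : ℤ) = ((q * i + 1 : ℕ) : ℤ) := by push_cast; rw [hA, hi]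
      exact_mod_cast this
    · have : ((X : ℕ) : ℤ) = (((q - 1) * (i + 1) : ℕ) : ℤ) := by
        push_cast [Nat.cast_sub (by omega : 1 ≤ q)]
        refine mul_left_cancel₀ (show (q : ℤ) ≠ 0 by omega) ?_
        rw [← hi]
        linear_combination -hz + ((q : ℤ) - 1) * hA
      exact_mod_cast this
  · left
    have h6 := hK hK0
    obtain ⟨r, rfl⟩ : ∃ r, q = r + 9 := ⟨q - 9, by omega⟩
    rw [show r + 9 - 1 = r + 8 by omega] at *
    have e1 : (r + 9) ^ 2 - 1 = (r + 8) * (r + 10) := by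
      rw [show (r + 9) ^ 2 = (r + 8) * (r + 10) + 1 by ring]; rfl
    rw [e1, mul_one] at hk
    have h7 : (r + 10) * ((r + 9) * (r + 8) ^ 2) ≤ 6 * ((r + 10) * C) := by
      refine (Nat.mul_le_mul_left _ (h6.trans (Nat.mul_le_mul_left 6 hKC))).trans (le_of_eq ?_)
      ring
    have h8 : (r + 8) * ((r + 9) * ((r + 8) * (r + 10))) ≤
        (r + 8) * ((r + 9) * (A + (r + 8) * (r + 10))) :=
      Nat.mul_le_mul_left _ (Nat.mul_le_mul_left _ (Nat.le_add_left _ _))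
    have h9 := poly_six r
    rw [show r + 9 + 1 = r + 10 from rfl] at hk
    omega

set_option maxHeartbeats 1600000 in
/-- The bound in characteristic three. -/
theorem char_three_bound (hψ : ψ ≠ 1) (hψ3 : ∀ x, ψ (x ^ 3) = ψ x) (h3 : (3 : F) = 0)
    (hq : 9 ≤ Fintype.card F) (hfaith : ∀ r < 12, RF ρ [r] ≠ ⊤)
    (hnofix : ∀ w : V, (∀ g, ρ g w = w) → w = 0)
    (hdvd : finrank ℂ V ∣ Nat.card ↥(chevG2.group F)) :
    Fintype.card F ^ 4 + Fintype.card F ^ 2 + 1 ≤ finrank ℂ V := by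
  classical
  set Φ := frameA ψ h3 with hΦ
  set Φ' := frameB ψ h3 hψ3 with hΦ'
  obtain ⟨X, C, K, hk, hN, hx2, hboth, hKC, hK⟩ := Φ.frame_eqs ρ hψ
  obtain ⟨X', C', K', hk', hN', hx2', hboth', hKC', hK'⟩ := Φ'.frame_eqs ρ hψ
  have sz : finrank ℂ V = finrank ℂ (RF ρ [11]) + (Fintype.card F - 1) *
      (Fintype.card F * (Φ.mA ρ + (Fintype.card F ^ 2 - 1) * Φ.mB ρ)) := Φ.split_zz ρ hψ
  have sz' : finrank ℂ V = finrank ℂ (RF ρ [9]) + (Fintype.card F - 1) *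
      (Fintype.card F * (Φ'.mA ρ + (Fintype.card F ^ 2 - 1) * Φ'.mB ρ)) := Φ'.split_zz ρ hψ
  change finrank ℂ (RF ρ [9]) + _ + _ = _ at hx2
  change finrank ℂ (RF ρ [11]) + _ + _ = _ at hx2'
  change _ + finrank ℂ (RF ρ [11, 9]) = finrank ℂ (RF ρ [11]) + finrank ℂ (RF ρ [9]) + _ at hboth
  change _ + finrank ℂ (RF ρ [9, 11]) = finrank ℂ (RF ρ [9]) + finrank ℂ (RF ρ [11]) + _ at hboth'
  rw [RF_congr ρ (L := [9, 11]) (M := [11, 9]) (fun r => by simp; tauto)] at hboth'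
  set q := Fintype.card F with hqdef
  set A := Φ.mA ρ
  set A' := Φ'.mA ρ
  set B := Φ.mB ρ
  set B' := Φ'.mB ρ
  have hqq : q < q ^ 2 := by nlinarith
  have hBB : B' = B := by
    have e : (q - 1) * (q * (q ^ 2 - q) * B') = (q - 1) * (q * (q ^ 2 - q) * B) := by omega
    exact Nat.eq_of_mul_eq_mul_left
      (Nat.mul_pos (show 0 < q by omega) (show 0 < q ^ 2 - q by omega))
      (Nat.eq_of_mul_eq_mul_left (show 0 < q - 1 by omega) e)
  rw [hBB] at hk' hN' hx2' sz'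
  obtain ⟨r, hr⟩ : ∃ r, q = r + 1 := ⟨q - 1, by omega⟩
  have e0 : q - 1 = r := by omega
  have e1 : q ^ 2 - 1 = r * r + 2 * r := by
    rw [hr, show (r + 1) ^ 2 = r * r + 2 * r + 1 by ring]; rfl
  have e2 : q ^ 2 - q = r * r + r := by
    rw [hr, show (r + 1) ^ 2 = r * r + r + (r + 1) by ring, Nat.add_sub_cancel]
  have hCeq : ∀ {d C a b : ℕ}, finrank ℂ V = d + (q - 1) * (q * (a + (q ^ 2 - 1) * b)) →
      d + q * C + (q - 1) * (q * (q ^ 2 - q) * b) = finrank ℂ V → C = (q - 1) * (a + (q - 1) * b) := by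
    intro d C a b h1 h2
    rw [e0, e1] at h1
    rw [e0, e2] at h2
    rw [e0]
    refine Nat.eq_of_mul_eq_mul_left (show 0 < q by omega) ?_
    have e3 : r * (q * (a + (r * r + 2 * r) * b)) =
        q * (r * (a + r * b)) + r * (q * (r * r + r) * b) := by ring
    omega
  have hC := hCeq sz' hx2
  have hC' := hCeq sz hx2'
  -- the second multiplicity is positive
  have hB0 : B ≠ 0 := by
    intro hB
    obtain ⟨R, hR0, hR⟩ := Φ.exists_rev ρ
    obtain ⟨-, -, -, h32, h2⟩ := Φ.nu_counts ρ hψ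
    rw [show Φ.mB ρ = 0 from hB, mul_zero, mul_zero] at h32
    have h23 : ∀ a, a 2 ≠ 0 → a 3 ≠ 0 → Φ.nu ρ a = 0 := fun a a2 a3 => by
      have := (Finset.sum_eq_zero_iff.1 h32) a (Finset.mem_univ _)
      rwa [if_pos ⟨a2, a3⟩] at this
    have h10 : ∀ a, a 1 ≠ 0 → a 0 ≠ 0 → Φ.nu ρ a = 0 := fun a a1 a0 => by
      rw [← hR a]
      exact h23 _ (fun e => a1 ((hR0 a 2).1 e)) (fun e => a0 ((hR0 a 3).1 e))
    have hzero : ∀ a, a 2 ≠ 0 → Φ.nu ρ a = 0 := by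
      intro a a2
      by_contra hna
      have a3 : a 3 = 0 := by
        by_contra e
        exact hna (h23 a a2 e)
      set T := (Finset.univ : Finset F).erase (-a 1 / (Φ.k1 * a 2))
      have hroot : ∀ s ∈ T, a 0 + (s * a 1 + s ^ 2 * a 2) = 0 := by
        intro s hs
        by_contra h0
        refine hna ?_
        rw [← Φ.nu_shift ρ s a]
        refine h10 _ (fun e => (Finset.mem_erase.1 hs).1 ?_) ?_
        · rw [Φ.shift_one_apply] at e
          rw [eq_div_iff (mul_ne_zero Φ.k1_ne a2)]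
          linear_combination e
        · show a 0 + (s * a 1 + s ^ 2 * a 2 - s ^ 3 * a 3) ≠ 0
          rwa [a3, mul_zero, sub_zero]
      have hcard : 2 < T.card := by
        rw [Finset.card_erase_of_mem (Finset.mem_univ _), Finset.card_univ]
        omega
      obtain ⟨x, hx, y, hy, z, hz, hxy, hxz, hyz⟩ := Finset.two_lt_card.1 hcard
      have exy : a 1 + (x + y) * a 2 = 0 := mul_left_cancel₀ (sub_ne_zero.2 hxy)
        (by linear_combination hroot x hx - hroot y hy)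
      have exz : a 1 + (x + z) * a 2 = 0 := mul_left_cancel₀ (sub_ne_zero.2 hxz)
        (by linear_combination hroot x hx - hroot z hz)
      exact mul_ne_zero (sub_ne_zero.2 hyz) a2 (by linear_combination exy - exz)
    have hC0 : C = 0 := by
      obtain ⟨X₀, C₀, K₀, -, hC₀, -⟩ := Φ.nu_shape ρ
      have hsum : (∑ a, if a 2 ≠ 0 then Φ.nu ρ a else 0) = 0 :=
        Finset.sum_eq_zero fun a _ => by
          by_cases h : a 2 = 0
          · simp [h]
          · rw [if_pos h, hzero a h]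
      change finrank ℂ (RF ρ [11, 9]) + _ = _ at h2
      rw [hsum, add_zero] at h2
      rw [hB, mul_zero, mul_zero, add_zero] at hboth
      have : q * C = 0 := by
        rw [hB, mul_zero, mul_zero, add_zero] at hx2
        have : finrank ℂ V = finrank ℂ (RF ρ [9]) := by
          change _ = finrank ℂ (RF ρ [11]) at h2
          omega
        omega
      exact (mul_eq_zero.1 this).resolve_left (by omega)
    rw [hB, hC0, mul_zero, add_zero] at hC
    have hA' : A' = 0 := (mul_eq_zero.1 hC.symm).resolve_left (by omega)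
    rw [hA', hB, mul_zero, add_zero, mul_zero, mul_zero, add_zero] at sz'
    exact hfaith 9 (by norm_num) (Submodule.eq_top_of_finrank_eq sz'.symm)
  by_cases hB2 : 2 ≤ B
  · have h1 : (q - 1) * (q * ((q ^ 2 - 1) * 2)) ≤ finrank ℂ V := by
      rw [sz]
      refine le_trans ?_ (Nat.le_add_left _ _)
      exact Nat.mul_le_mul_left _ (Nat.mul_le_mul_left _
        ((Nat.mul_le_mul_left _ hB2).trans (Nat.le_add_left _ _)))
    refine le_trans ?_ h1
    obtain ⟨s, hs⟩ : ∃ s, r = s + 8 := ⟨r - 8, by omega⟩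
    rw [e0, e1, hr, hs]
    exact poly_two s
  have hB1 : B = 1 := by omega
  rw [hB1] at hk hN hk' hN'
  rw [hB1, mul_one] at hC hC'
  rcases frame_case hq hk hN hC hKC hK with h | ⟨j, hj, hX⟩
  · exact h
  rcases frame_case hq hk' hN' hC' hKC' hK' with h | ⟨j', hj', hX'⟩
  · exact h
  have hform : ∀ {m A A' X C i i' : ℕ},
      finrank ℂ V = m + (q + 1) * X + (q + 1) * C + (q - 1) * (q * (A + (q ^ 2 - 1) * 1)) →
      A = q * i + 1 → A' = q * i' + 1 → X = (q - 1) * (i + 1) → C = (q - 1) * (A' + (q - 1)) →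
      finrank ℂ V + q + 1 =
        q ^ 4 + q ^ 2 + m + i * ((q - 1) * (q * q + q + 1)) + i' * ((q + 1) * (q - 1) * q) := by
    intro m A A' X C i i' h1 hA hA' hX hC
    rw [h1, hX, hC, hA, hA', e0, e1, hr]
    ring
  have f1 := hform hk hj hj' hX hC
  have f2 := hform hk' hj' hj hX' hC'
  have hbig : q + 2 ≤ (q - 1) * (q * q + q + 1) ∧ q + 2 ≤ (q + 1) * (q - 1) * q := by
    obtain ⟨s, hs⟩ : ∃ s, r = s + 8 := ⟨r - 8, by omega⟩
    rw [e0, hr, hs]
    exact poly_big s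
  rcases Nat.eq_zero_or_pos j with rfl | hjp
  swap
  · have := Nat.le_mul_of_pos_left ((q - 1) * (q * q + q + 1)) hjp
    omega
  rcases Nat.eq_zero_or_pos j' with rfl | hjp'
  swap
  · have := Nat.le_mul_of_pos_left ((q + 1) * (q - 1) * q) hjp'
    omega
  simp only [zero_mul, add_zero] at f1 f2
  refine degree_dvd_bound hq f1 ?_ ?_
  · by_contra hcon
    push Not at hcon
    obtain ⟨hm0, hmlt⟩ := hcon
    have hmm : Φ.nu ρ 0 = Φ'.nu ρ 0 := by omega
    have hsA : RF ρ [11, 6, 8, 9, 10] ≤ RF ρ [7] :=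
      (Φ.xa_dichotomy ρ hψ).resolve_left (by omega)
    have hsB : RF ρ [9, 7, 10, 11, 8] ≤ RF ρ [6] :=
      (Φ'.xa_dichotomy ρ hψ).resolve_left (by omega)
    refine hm0 ?_
    rw [Φ.nu_zero_eq ρ hψ]
    show finrank ℂ (RF ρ [11, 6, 8, 9, 10]) = 0
    rw [Submodule.finrank_eq_zero, Submodule.eq_bot_iff]
    intro v hv
    have h7 : ∀ t, el 7 t ∈ stabV ρ v := fun t => hsA hv _ (el_mem_XS (by simp) t)
    have hpos : ∀ r ∈ [6, 7, 8, 9, 10, 11], ∀ t, el r t ∈ stabV ρ v := by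
      intro r hr t
      simp only [List.mem_cons, List.not_mem_nil, or_false] at hr
      rcases hr with rfl | rfl | rfl | rfl | rfl | rfl
      all_goals first
        | exact h7 t
        | exact hv _ (el_mem_XS (by simp) t)
    have hv' : v ∈ RF ρ [9, 7, 10, 11, 8] := by
      rintro _ ⟨r, hr, t, rfl⟩
      exact hpos r (by simp at hr ⊢; tauto) t
    have key : ∀ (l : List (Fin chevG2.rank)) (L : List ℕ) (r : ℕ), r < 12 → (∀ x ∈ L, x < 12) →
        (∀ x ∈ L, ∃ y ∈ L, wAct l y = x) → RF ρ L ≤ RF ρ [wAct l r] → v ∈ RF ρ L →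
        ∀ t, el r t ∈ stabV ρ v := by
      intro l L r hr hL hperm hle hvL t
      obtain ⟨η, hη⟩ := wEl_conj (F := F) l
      have e := hle (RF_stable_weyl ρ l L hL hperm hvL) _ (el_mem_XS (List.mem_singleton_self _)
        ((η r : F) * t))
      rw [← hη r hr t] at e
      simp only [map_mul, Module.End.mul_apply, ρ_inv_apply] at e
      have := congrArg (ρ (wEl l)⁻¹) e
      rwa [ρ_inv_apply, ρ_inv_apply] at this
    have h4 : ∀ t, el 4 t ∈ stabV ρ v := key wa _ 4 (by norm_num) (by decide) (by decide +kernel)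
      (by rw [show wAct wa 4 = 7 from wAct_wa ⟨4, by decide⟩]; exact hsA) hv
    have h5 : ∀ t, el 5 t ∈ stabV ρ v := key wb _ 5 (by norm_num) (by decide) (by decide +kernel)
      (by rw [show wAct wb 5 = 6 from wAct_wb ⟨5, by decide⟩]; exact hsB) hv'
    have hna : wEl wa ∈ stabV ρ v := by
      rw [wEl_wa]
      exact mul_mem (mul_mem (h7 1) (h4 _)) (h7 1)
    have hnb : wEl wb ∈ stabV ρ v := by
      rw [wEl_wb]
      exact mul_mem (mul_mem (hpos 6 (by simp) 1) (h5 _)) (hpos 6 (by simp) 1)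
    have h3' : ∀ t, el 3 t ∈ stabV ρ v := fun t => by
      simpa [show wAct wb 4 = 3 from wAct_wb ⟨4, by decide⟩] using
        stabV_wAct ρ hnb (by decide : 4 < 12) h4 t
    have h2 : ∀ t, el 2 t ∈ stabV ρ v := fun t => by
      simpa [show wAct wa 3 = 2 from wAct_wa ⟨3, by decide⟩] using
        stabV_wAct ρ hna (by decide : 3 < 12) h3' t
    have h1 : ∀ t, el 1 t ∈ stabV ρ v := fun t => by
      simpa [show wAct wa 5 = 1 from wAct_wa ⟨5, by decide⟩] using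
        stabV_wAct ρ hna (by decide : 5 < 12) h5 t
    have h0 : ∀ t, el 0 t ∈ stabV ρ v := fun t => by
      simpa [show wAct wb 1 = 0 from wAct_wb ⟨1, by decide⟩] using
        stabV_wAct ρ hnb (by decide : 1 < 12) h1 t
    refine hnofix v fun g => ?_
    have hall : (⊤ : Subgroup ↥(chevG2.group F)) ≤ stabV ρ v := by
      rw [← closure_el, Subgroup.closure_le]
      rintro _ ⟨r, hr, t, rfl⟩
      interval_cases r
      all_goals first
        | exact h0 t | exact h1 t | exact h2 t | exact h3' t | exact h4 t | exact h5 t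
        | exact hpos _ (by simp) t
    exact hall (Subgroup.mem_top g)
  · have := cardG2 (F := F)
    rw [one_mul] at this
    rw [this] at hdvd
    simpa [show chevG2.nroots / 2 = 6 from rfl, ← hqdef] using hdvd

end CfsgLib.Chevalley.G2Degree
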