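import Cfsg.Agent.Lib.Chevalley.G2Degree.C3Spec

/-!
In characteristic three the two maximal parabolics look alike: the data shared by their radicals.
-/

set_option autoImplicit false
set_option linter.unusedSectionVars false
set_option linter.style.haveILetI false
set_option maxRecDepth 10000

open Cfsg.Lie Module

namespace CfsgLib.Chevalley.G2Degree

universe u v

variable {F : Type u} [Field F] [Fintype F] [DecidableEq F]

/-- The radical `⟨xb, x1, x2, x3, zz⟩` of a maximal parabolic with the root `xa` of its Levi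
factor. -/
structure Frame (ψ : AddChar F ℂ) where
  /-- first root of the natural module -/
  xb : ℕ
  /-- first central root -/
  x1 : ℕ
  /-- second central root -/
  x2 : ℕ
  /-- last root of the natural module -/
  x3 : ℕ
  /-- the centre of the Heisenberg pair -/
  zz : ℕ
  /-- the root of the Levi factor -/
  xa : ℕ
  /-- the reflection of the Levi factor -/
  wl : List (Fin chevG2.rank)
  /-- a word moving `zz` to `xb` -/
  vb : List (Fin chevG2.rank)
  /-- a word moving `zz` to `x3` and fixing `x2` -/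
  vz : List (Fin chevG2.rank)
  lt : ∀ r ∈ [xb, x1, x2, x3, zz, xa], r < 12
  comm : ∀ p ∈ [(xb, x1), (xb, x2), (xb, zz), (x1, x2), (x1, x3), (x1, zz), (x2, x3), (x2, zz),
    (x3, zz), (xa, x2), (xa, x3), (xa, zz)], commB p.1 p.2 = true ∨
      ∀ t u : F, Commute (el p.2 u) (el p.1 t)
  swap3 : ∃ κ : F, κ ≠ 0 ∧ ∀ t u : F,
    el x3 u * el xb t = el xb t * el x3 u * el zz (κ * (t * u))
  swap1 : ∃ κ : F, κ ≠ 0 ∧ ∀ s t : F,
    el x1 t * el xa s = el xa s * el x1 t * el x2 (κ * (s * t))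
  /-- the shift of the first coordinate of a character by `xa` -/
  D : F → F → F → F → F
  swapb : ∀ s t : F, ∃ e1 e2 e3 u : F,
    el xb t * el xa s = el xa s * el xb t * (el x1 e1 * el x2 e2 * el x3 e3 * el zz u) ∧
      ∀ a1 a2 a3 : F, ψ (a1 * e1 + a2 * e2 + a3 * e3) = ψ (D s a1 a2 a3 * t)
  D_add : ∀ s s' a1 a3, D (s + s') a1 0 a3 = D s a1 0 a3 + D s' a1 0 a3
  D_ker : ∀ a1 a3, a3 ≠ 0 → (Finset.univ.filter fun s => D s a1 0 a3 = 0).card ≤ 3
  D_ker0 : ∀ s a3, a3 ≠ 0 → D s 0 0 a3 = 0 → s = 0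
  wl_act : wAct wl zz = zz ∧ wAct wl xb = x3 ∧ wAct wl x1 = x2 ∧ wAct wl x2 = x1 ∧
    wAct wl x3 = xb
  vb_act : wAct vb zz = xb
  vz_act : wAct vz zz = x3 ∧ wAct vz x2 = x2
  tor_zx : ∀ c d : Fˣ, ∃ s t, rv s t zz = c ∧ rv s t x1 = d
  tor_a : ∀ c : Fˣ, ∃ s t, rv s t xa = c
  tor_fib : ∀ c d : Fˣ, (Finset.univ.filter
    fun p : Fˣ × Fˣ => rv p.1 p.2 x1 = c ∧ rv p.1 p.2 x3 = d).card ≤ 2

theorem cube_injective (h3 : (3 : F) = 0) : Function.Injective fun x : F => x ^ 3 := by
  intro x y h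
  simp only at h
  have : (x - y) ^ 3 = 0 := by linear_combination h - (x * x * y - x * y * y) * h3
  exact sub_eq_zero.1 (pow_eq_zero_iff three_ne_zero |>.1 this)

/-- Cube roots in characteristic three. -/
noncomputable def cbrt (h3 : (3 : F) = 0) : F ≃ F :=
  (Equiv.ofBijective _ (Finite.injective_iff_bijective.1 (cube_injective h3))).symm

theorem cbrt_cube (h3 : (3 : F) = 0) (y : F) : cbrt h3 y ^ 3 = y :=
  (Equiv.ofBijective _ (Finite.injective_iff_bijective.1 (cube_injective h3))).apply_symm_apply y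

theorem cbrt_add (h3 : (3 : F) = 0) (x y : F) : cbrt h3 (x + y) = cbrt h3 x + cbrt h3 y := by
  refine cube_injective h3 ?_
  simp only
  linear_combination cbrt_cube h3 (x + y) - cbrt_cube h3 x - cbrt_cube h3 y -
    (cbrt h3 x ^ 2 * cbrt h3 y + cbrt h3 x * cbrt h3 y ^ 2) * h3

theorem ker_card_le {D : F → F} (hD : ∀ s, D s = 0 → ∀ r, r ≠ 0 → D r = 0 → s = 0 ∨ s = r ∨ s = -r) :
    (Finset.univ.filter fun s => D s = 0).card ≤ 3 := by
  by_cases h : ∃ r, r ≠ 0 ∧ D r = 0
  · obtain ⟨r, hr0, hr⟩ := h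
    refine le_trans (Finset.card_le_card (t := {0, r, -r}) fun s hs => ?_) Finset.card_le_three
    simpa using hD s (Finset.mem_filter.1 hs).2 r hr0 hr
  · push Not at h
    refine le_trans (Finset.card_le_card (t := {0}) fun s hs => ?_) (by simp)
    rw [Finset.mem_singleton]
    by_contra hs0
    exact h s hs0 (Finset.mem_filter.1 hs).2

theorem fib_card_le (c d : Fˣ) :
    (Finset.univ.filter fun p : Fˣ × Fˣ => p.1 * p.2 = c ∧ p.1 ^ 3 * p.2 = d).card ≤ 2 := by
  rcases (Finset.univ.filter fun p : Fˣ × Fˣ => p.1 * p.2 = c ∧ p.1 ^ 3 * p.2 = d).eq_empty_or_nonempty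
    with h | ⟨⟨s₀, t₀⟩, h⟩
  · rw [h]; simp
  simp only [Finset.mem_filter, Finset.mem_univ, true_and] at h
  refine le_trans (Finset.card_le_card (t := {(s₀, t₀), (-s₀, -t₀)}) fun p hp => ?_) Finset.card_le_two
  simp only [Finset.mem_filter, Finset.mem_univ, true_and] at hp
  have e : p.1 ^ 2 = s₀ ^ 2 := by
    have e1 : p.1 ^ 2 * c = d := by rw [← hp.1, ← hp.2]; rw [← mul_assoc, ← pow_succ]
    have e2 : s₀ ^ 2 * c = d := by rw [← h.1, ← h.2]; rw [← mul_assoc, ← pow_succ]
    exact mul_right_cancel (e1.trans e2.symm)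
  have ev : (p.1 : F) = s₀ ∨ (p.1 : F) = -s₀ := by
    refine sq_eq_sq_iff_eq_or_eq_neg.1 ?_
    rw [← Units.val_pow_eq_pow_val, ← Units.val_pow_eq_pow_val, e]
  simp only [Finset.mem_insert, Finset.mem_singleton]
  rcases ev with ev | ev
  · refine Or.inl (Prod.ext (Units.ext ev) ?_)
    have := hp.1.trans h.1.symm
    rw [show p.1 = s₀ from Units.ext ev] at this
    exact mul_left_cancel this
  · refine Or.inr (Prod.ext (Units.ext (by simpa using ev)) ?_)
    have := hp.1.trans h.1.symm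
    rw [show p.1 = -s₀ from Units.ext (by simpa using ev), ← neg_mul_neg s₀ t₀] at this
    exact mul_left_cancel this

variable (ψ : AddChar F ℂ)

theorem swap_ab_2ab_three (h3 : (3 : F) = 0) (t u : F) : Commute (el 9 u) (el 8 t) := by
  have := swap_ab_2ab t u
  rwa [h3, zero_mul, neg_zero, el_zero, mul_one] at this

theorem swap_a_2ab_three (h3 : (3 : F) = 0) (s t : F) : Commute (el 9 t) (el 7 s) := by
  have := swap_a_2ab s t
  rwa [h3, zero_mul, neg_zero, el_zero, mul_one] at this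

theorem swap_a_ab_three (h3 : (3 : F) = 0) (s t : F) :
    el 8 t * el 7 s = el 7 s * el 8 t * el 9 (-1 * (s * t)) := by
  have := swap_a_ab s t
  rwa [h3, zero_mul, neg_zero, el_zero, mul_one, zero_mul, neg_zero, el_zero, mul_one,
    show (2 : F) = -1 by linear_combination h3] at this

/-- The radical of the long root parabolic. -/
noncomputable def frameA (h3 : (3 : F) = 0) : Frame ψ where
  xb := 6
  x1 := 8
  x2 := 9
  x3 := 10
  zz := 11
  xa := 7
  wl := wa
  vb := wa ++ wb
  vz := wb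
  lt := by decide
  comm := by
    intro p hp
    simp only [List.mem_cons, List.not_mem_nil, or_false] at hp
    rcases hp with rfl | rfl | rfl | rfl | rfl | rfl | rfl | rfl | rfl | rfl | rfl | rfl
    all_goals first
      | exact Or.inl (by decide +kernel)
      | exact Or.inr fun t u => swap_ab_2ab_three h3 t u
      | exact Or.inr fun t u => swap_a_2ab_three h3 t u
  swap3 := ⟨-1, neg_ne_zero.2 one_ne_zero, fun t u => by rw [swap_b_3ab, neg_one_mul]⟩
  swap1 := ⟨-1, neg_ne_zero.2 one_ne_zero, fun s t => swap_a_ab_three h3 s t⟩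
  D := fun s a1 a2 a3 => s * a1 + s ^ 2 * a2 - s ^ 3 * a3
  swapb := fun s t => ⟨s * t, s ^ 2 * t, -(s ^ 3 * t), -(s ^ 3 * t ^ 2), swap_a_b s t,
    fun a1 a2 a3 => congrArg ψ (by ring)⟩
  D_add := fun s s' a1 a3 => by linear_combination -(s * s * s' + s * s' * s') * a3 * h3
  D_ker := fun a1 a3 ha => ker_card_le fun s hs r hr0 hr => by
    by_cases hs0 : s = 0
    · exact Or.inl hs0
    refine Or.inr (sq_eq_sq_iff_eq_or_eq_neg.1 (mul_right_cancel₀ ha ?_))
    have e1 : a1 = s ^ 2 * a3 := mul_left_cancel₀ hs0 (by linear_combination hs)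
    have e2 : a1 = r ^ 2 * a3 := mul_left_cancel₀ hr0 (by linear_combination hr)
    exact e1.symm.trans e2
  D_ker0 := fun s a3 ha h => by
    have e : s ^ 3 * a3 = 0 := by linear_combination -h
    exact pow_eq_zero_iff three_ne_zero |>.1 ((mul_eq_zero.1 e).resolve_right ha)
  wl_act := by decide +kernel
  vb_act := by decide +kernel
  vz_act := by decide +kernel
  tor_zx := fun c d => ⟨c * (d ^ 2)⁻¹, d ^ 3 * c⁻¹, by
    constructor <;> apply Units.ext <;> simp [rv, ca, cb, zpow_ofNat] <;> field_simp⟩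
  tor_a := fun c => ⟨c, 1, by simp [rv, ca, cb]⟩
  tor_fib := fun c d => by
    simpa [rv, ca, cb, zpow_ofNat] using fib_card_le c d

/-- The radical of the short root parabolic. -/
noncomputable def frameB (h3 : (3 : F) = 0) (hψ3 : ∀ x, ψ (x ^ 3) = ψ x) : Frame ψ where
  xb := 7
  x1 := 10
  x2 := 11
  x3 := 8
  zz := 9
  xa := 6
  wl := wb
  vb := wb ++ wa
  vz := wa
  lt := by decide
  comm := by
    intro p hp
    simp only [List.mem_cons, List.not_mem_nil, or_false] at hp
    rcases hp with rfl | rfl | rfl | rfl | rfl | rfl | rfl | rfl | rfl | rfl | rfl | rfl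
    all_goals first
      | exact Or.inl (by decide +kernel)
      | exact Or.inr fun t u => (swap_ab_2ab_three h3 u t).symm
      | exact Or.inr fun t u => swap_ab_2ab_three h3 t u
      | exact Or.inr fun t u => swap_a_2ab_three h3 t u
      | exact Or.inr fun t u => (swap_a_2ab_three h3 u t).symm
  swap3 := ⟨-1, neg_ne_zero.2 one_ne_zero, fun t u => swap_a_ab_three h3 t u⟩
  swap1 := ⟨-1, neg_ne_zero.2 one_ne_zero, fun s t => by rw [swap_b_3ab, neg_one_mul]⟩
  D := fun s a1 a2 a3 => cbrt h3 (s * a1 + s ^ 2 * a2) - s * a3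
  swapb := fun s t => by
    refine ⟨s * t ^ 3, s ^ 2 * t ^ 3, -(s * t), -(s * t ^ 2), ?_, fun a1 a2 a3 => ?_⟩
    · rw [swap_b_a, show -(2 * (s ^ 2 * t ^ 3)) = s ^ 2 * t ^ 3 by linear_combination -(s ^ 2 * t ^ 3) * h3]
      congr 1
      have c8 : Commute (el 8 (-(s * t)) * el 9 (-(s * t ^ 2)))
          (el 10 (s * t ^ 3) * el 11 (s ^ 2 * t ^ 3)) :=
        Commute.mul_left
          (Commute.mul_right (el_comm (r := 10) (s := 8) (by decide +kernel) _ _)
            (el_comm (r := 11) (s := 8) (by decide +kernel) _ _))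
          (Commute.mul_right (el_comm (r := 10) (s := 9) (by decide +kernel) _ _)
            (el_comm (r := 11) (s := 9) (by decide +kernel) _ _))
      rw [mul_assoc (el 8 _ * el 9 _), c8.eq, ← mul_assoc]
    · rw [show (cbrt h3 (s * a1 + s ^ 2 * a2) - s * a3) * t =
        cbrt h3 (s * a1 + s ^ 2 * a2) * t + -(s * t) * a3 by ring,
        AddChar.map_add_eq_mul ψ (cbrt h3 _ * t), ← hψ3 (cbrt h3 _ * t), mul_pow, cbrt_cube,
        ← AddChar.map_add_eq_mul]
      congr 1
      ring
  D_add := fun s s' a1 a3 => by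
    simp only [mul_zero, add_zero]
    rw [add_mul, cbrt_add]
    ring
  D_ker := fun a1 a3 ha => ker_card_le fun s hs r hr0 hr => by
    simp only [mul_zero, add_zero, sub_eq_zero] at hs hr
    by_cases hs0 : s = 0
    · exact Or.inl hs0
    refine Or.inr (sq_eq_sq_iff_eq_or_eq_neg.1 (mul_right_cancel₀ (pow_ne_zero 3 ha) ?_))
    have e1 : a1 = s ^ 2 * a3 ^ 3 := mul_left_cancel₀ hs0 (by
      rw [← cbrt_cube h3 (s * a1), hs]; ring)
    have e2 : a1 = r ^ 2 * a3 ^ 3 := mul_left_cancel₀ hr0 (by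
      rw [← cbrt_cube h3 (r * a1), hr]; ring)
    exact e1.symm.trans e2
  D_ker0 := fun s a3 ha h => by
    simp only [mul_zero, add_zero, sub_eq_zero] at h
    have e := cbrt_cube h3 (0 : F)
    rw [h] at e
    exact (mul_eq_zero.1 (pow_eq_zero_iff three_ne_zero |>.1 e)).resolve_right ha
  wl_act := by decide +kernel
  vb_act := by decide +kernel
  vz_act := by decide +kernel
  tor_zx := fun c d => ⟨d * c⁻¹, c ^ 3 * (d ^ 2)⁻¹, by
    constructor <;> apply Units.ext <;> simp [rv, ca, cb, zpow_ofNat] <;> field_simp⟩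
  tor_a := fun c => ⟨1, c, by simp [rv, ca, cb]⟩
  tor_fib := fun c d => by
    simpa [rv, ca, cb, zpow_ofNat, and_comm] using fib_card_le d c

end CfsgLib.Chevalley.G2Degree
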