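import Cfsg.Agent.Lib.Chevalley.G2Degree.C3Counts

/-!
The invariance of the multiplicities on the fixed space of `zz` and the shape of its support.
-/

set_option autoImplicit false
set_option linter.unusedSectionVars false
set_option linter.style.haveILetI false
set_option maxRecDepth 10000

open Cfsg.Lie Module

namespace CfsgLib.Chevalley.G2Degree

universe u v

variable {F : Type u} [Field F] [Fintype F] [DecidableEq F]
  {V : Type v} [AddCommGroup V] [Module ℂ V] [FiniteDimensional ℂ V]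
  (ρ : ↥(chevG2.group F) →* Module.End ℂ V) {ψ : AddChar F ℂ} (Φ : Frame ψ)

namespace Frame

/-- The constant of the translation of the middle coordinates. -/
noncomputable def k1 : F := Φ.swap1.choose

theorem k1_ne : Φ.k1 ≠ 0 := Φ.swap1.choose_spec.1

theorem swap1' (s t : F) :
    el Φ.x1 t * el Φ.xa s = el Φ.xa s * el Φ.x1 t * el Φ.x2 (Φ.k1 * (s * t)) :=
  Φ.swap1.choose_spec.2 s t

/-- The translation of the characters by `xa`. -/
noncomputable def shift (s : F) : (Fin 4 → F) ≃ (Fin 4 → F) where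
  toFun a := ![a 0 + Φ.D s (a 1) (a 2) (a 3), a 1 + Φ.k1 * s * a 2, a 2, a 3]
  invFun b := ![b 0 - Φ.D s (b 1 - Φ.k1 * s * b 2) (b 2) (b 3), b 1 - Φ.k1 * s * b 2, b 2, b 3]
  left_inv a := by
    funext i
    fin_cases i <;> simp
  right_inv b := by
    funext i
    fin_cases i <;> simp

theorem shift_zero_apply (s : F) (a : Fin 4 → F) :
    Φ.shift s a 0 = a 0 + Φ.D s (a 1) (a 2) (a 3) := rfl

theorem shift_one_apply (s : F) (a : Fin 4 → F) : Φ.shift s a 1 = a 1 + Φ.k1 * s * a 2 := rfl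

theorem shift_two_apply (s : F) (a : Fin 4 → F) : Φ.shift s a 2 = a 2 := rfl

theorem shift_three_apply (s : F) (a : Fin 4 → F) : Φ.shift s a 3 = a 3 := rfl

theorem fQ_lt : ∀ i, Φ.fQ i < 12 := fun i => Φ.lt _ (by fin_cases i <;> simp [fQ])

theorem fam_fQ_eq (y : Fin 4 → F) :
    fam Φ.fQ y = el Φ.xb (y 0) * el Φ.x1 (y 1) * el Φ.x2 (y 2) * el Φ.x3 (y 3) := by
  simp [fam, List.ofFn_succ, fQ, mul_assoc]

theorem nu_shift (s : F) (a : Fin 4 → F) : Φ.nu ρ (Φ.shift s a) = Φ.nu ρ a := by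
  refine eq_of_le_perm (Φ.shift s) (fun a => ?_) a
  refine mu_le_single ρ (g := el Φ.xa s) (Φ.famQ ρ)
    (fun w hw => Φ.stable_zz ρ (by simp) s hw) fun i t => ?_
  fin_cases i
  · obtain ⟨e1, e2, e3, u, hsw, hψD⟩ := Φ.swapb s t
    refine ⟨![t, e1, e2, e3], fun w hw => ?_, ?_⟩
    · show ρ ((el Φ.xa s)⁻¹ * el Φ.xb t * el Φ.xa s) w = _
      rw [mul_assoc, hsw, fam_fQ_eq]
      simp only [mul_assoc, inv_mul_cancel_left, map_mul, Module.End.mul_apply, Matrix.cons_val,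
        show ρ (el Φ.zz u) w = w from hw _ (el_mem_XS (by simp) _)]
    · rw [pair, Fin.sum_univ_four]
      simp only [Matrix.cons_val, Fin.zero_eta, shift_zero_apply]
      rw [show a 0 * t + a 1 * e1 + a 2 * e2 + a 3 * e3 =
        a 0 * t + (a 1 * e1 + a 2 * e2 + a 3 * e3) by ring, AddChar.map_add_eq_mul, hψD, add_mul,
        AddChar.map_add_eq_mul]
  · refine ⟨Pi.single 1 t + Pi.single 2 (Φ.k1 * (s * t)), fun w hw => ?_, ?_⟩
    · rw [(Φ.famQ ρ).add _ _ w hw, fam_single, fam_single, ← Module.End.mul_apply, ← map_mul]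
      congr 2
      show (el Φ.xa s)⁻¹ * el Φ.x1 t * el Φ.xa s = el Φ.x1 t * el Φ.x2 _
      rw [mul_assoc, Φ.swap1', ← mul_assoc, ← mul_assoc, inv_mul_cancel, one_mul]
    · rw [pair_add_right, pair_single, pair_single, ← AddChar.map_add_eq_mul]
      congr 1
      show _ = Φ.shift s a 1 * t
      rw [shift_one_apply]
      ring
  · refine ⟨Pi.single 2 t, fun w _ => ?_, by rw [pair_single]; rfl⟩
    rw [fam_single]
    congr 2
    show (el Φ.xa s)⁻¹ * el Φ.x2 t * el Φ.xa s = el Φ.x2 t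
    rw [mul_assoc, (Φ.c_a2 s t).eq, inv_mul_cancel_left]
  · refine ⟨Pi.single 3 t, fun w _ => ?_, by rw [pair_single]; rfl⟩
    rw [fam_single]
    congr 2
    show (el Φ.xa s)⁻¹ * el Φ.x3 t * el Φ.xa s = el Φ.x3 t
    rw [mul_assoc, (Φ.c_a3 s t).eq, inv_mul_cancel_left]

/-- The reversal of the coordinates by the reflection. -/
theorem exists_rev : ∃ R : (Fin 4 → F) ≃ (Fin 4 → F),
    (∀ a i, R a i = 0 ↔ a (Fin.rev i) = 0) ∧ ∀ a, Φ.nu ρ (R a) = Φ.nu ρ a := by
  have hW : ∀ w ∈ RF ρ [Φ.zz], ρ (wEl Φ.wl) w ∈ RF ρ [Φ.zz] := fun w hw =>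
    RF_stable_weyl ρ Φ.wl _ (fun r hr => Φ.lt r (by simp at hr; simp [hr]))
      (fun r hr => ⟨r, hr, by rw [List.mem_singleton.1 hr]; exact Φ.wl_act.1⟩) hw
  obtain ⟨c, hc⟩ := mu_weyl ρ (ψ := ψ) (Φ.famQ ρ) Φ.wl Φ.fQ_lt hW Fin.revPerm (fun i => by
    fin_cases i <;>
      simp [fQ, Φ.wl_act.2.1, Φ.wl_act.2.2.1, Φ.wl_act.2.2.2.1, Φ.wl_act.2.2.2.2])
  refine ⟨(Equiv.arrowCongr Fin.revPerm (Equiv.refl F)).trans
    (Equiv.piCongrRight fun i => Units.mulLeft (c i)), fun a i => ?_, fun a => ?_⟩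
  · simp
  · show mu ψ ρ _ _ _ = mu ψ ρ _ _ _
    rw [← hc a]
    exact congrArg _ (funext fun i => by simp)

theorem nu_scal (s t : Fˣ) (a : Fin 4 → F) : Φ.nu ρ (scal Φ.fQ s t a) = Φ.nu ρ a :=
  mu_scal ρ (Φ.famQ ρ) Φ.fQ_lt (fun s t w hw => RF_stable_tor ρ s t _
    (fun r hr => Φ.lt r (by simp at hr; simp [hr])) hw) s t a

/-- Exactly one translation puts each character of a class into a slice. -/
theorem sum_fibre (P Q : (Fin 4 → F) → Prop) [DecidablePred P] [DecidablePred Q]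
    (hP : ∀ s a, P (Φ.shift s a) ↔ P a) (huniq : ∀ a, P a → ∃! s, Q (Φ.shift s a)) :
    (∑ a, if P a then Φ.nu ρ a else 0) =
      Fintype.card F * ∑ a, if P a ∧ Q a then Φ.nu ρ a else 0 := by
  have hs : ∀ s, (∑ a, if P a ∧ Q (Φ.shift s a) then Φ.nu ρ a else 0) =
      ∑ a, if P a ∧ Q a then Φ.nu ρ a else 0 := fun s =>
    Fintype.sum_equiv (Φ.shift s) _ _ fun a => by simp only [hP, Φ.nu_shift ρ]
  rw [← smul_eq_mul, ← Finset.card_univ, ← Finset.sum_const, ← Finset.sum_congr rfl fun s _ => hs s,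
    Finset.sum_comm]
  refine Finset.sum_congr rfl fun a _ => ?_
  by_cases h : P a
  · obtain ⟨s, hs1, hs2⟩ := huniq a h
    rw [if_pos h, Finset.sum_eq_single s (fun r _ hr => if_neg fun e => hr (hs2 r e.2))
      (by simp), if_pos ⟨h, hs1⟩]
  · simp [h]

theorem D_zero (a1 a3 : F) : Φ.D 0 a1 0 a3 = 0 := by
  have e := Φ.D_add 0 0 a1 a3
  rw [add_zero] at e
  linear_combination -e

/-- The shape of the support. -/
theorem nu_shape : ∃ X C K : ℕ,
    (∑ a, Φ.nu ρ a) = Φ.nu ρ 0 + (Fintype.card F + 1) * X + (Fintype.card F + 1) * C ∧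
    (∑ a, if a 2 ≠ 0 then Φ.nu ρ a else 0) = Fintype.card F * C ∧
    (∑ a, if a 3 ≠ 0 then Φ.nu ρ a else 0) = Fintype.card F * X + K +
      (∑ a, if a 2 ≠ 0 ∧ a 3 ≠ 0 then Φ.nu ρ a else 0) ∧
    K ≤ C ∧ (K ≠ 0 → Fintype.card F * (Fintype.card F - 1) ^ 2 ≤ 6 * K) := by
  set q := Fintype.card F
  obtain ⟨R, hR0, hR⟩ := Φ.exists_rev ρ
  set X := ∑ a, if (a 1 = 0 ∧ a 2 = 0 ∧ a 3 ≠ 0) ∧ a 0 = 0 then Φ.nu ρ a else 0 with hX
  set C := ∑ a, if a 2 ≠ 0 ∧ a 1 = 0 then Φ.nu ρ a else 0 with hC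
  set K := ∑ a, if a 2 = 0 ∧ a 1 ≠ 0 ∧ a 3 ≠ 0 then Φ.nu ρ a else 0 with hK
  have hQX : (∑ a, if a 1 = 0 ∧ a 2 = 0 ∧ a 3 ≠ 0 then Φ.nu ρ a else 0) = q * X := by
    refine Φ.sum_fibre ρ (fun a => a 1 = 0 ∧ a 2 = 0 ∧ a 3 ≠ 0) (fun a => a 0 = 0) (fun s a => ?_) ?_
    · simp only [shift_one_apply, shift_two_apply, shift_three_apply]
      exact ⟨fun h => ⟨by simpa [h.2.1] using h.1, h.2⟩, fun h => ⟨by simp [h.1, h.2.1], h.2⟩⟩
    intro a ha
    have hinj : Function.Injective fun s => Φ.D s 0 0 (a 3) := by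
      intro s r e
      simp only at e
      have e2 := Φ.D_add (s - r) r 0 (a 3)
      rw [sub_add_cancel, e] at e2
      exact sub_eq_zero.1 (Φ.D_ker0 _ _ ha.2.2 (by linear_combination -e2))
    obtain ⟨s, hs⟩ := (Finite.injective_iff_surjective.1 hinj) (-a 0)
    refine ⟨s, ?_, fun r hr => hinj ?_⟩
    · simp only [shift_zero_apply, ha.1, ha.2.1]
      linear_combination hs
    · simp only [shift_zero_apply, ha.1, ha.2.1] at hr ⊢
      linear_combination hr - hs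
  have hQC : (∑ a, if a 2 ≠ 0 then Φ.nu ρ a else 0) = q * C := by
    refine Φ.sum_fibre ρ (fun a => a 2 ≠ 0) (fun a => a 1 = 0) (fun s a => Iff.rfl) fun a ha => ?_
    refine ⟨-a 1 / (Φ.k1 * a 2), ?_, fun r hr => ?_⟩
    · show a 1 + Φ.k1 * _ * a 2 = 0
      field_simp [Φ.k1_ne]
      ring
    · have hr' : a 1 + Φ.k1 * r * a 2 = 0 := hr
      rw [eq_div_iff (mul_ne_zero Φ.k1_ne ha)]
      linear_combination hr'
  have hC' : (∑ a, if a 2 = 0 ∧ a 1 ≠ 0 then Φ.nu ρ a else 0) = C := by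
    rw [hC]
    refine Fintype.sum_equiv R _ _ fun a => ?_
    simp only [ne_eq, hR0, hR, show Fin.rev (1 : Fin 4) = 2 from rfl,
      show Fin.rev (2 : Fin 4) = 1 from rfl]
    split_ifs <;> tauto
  have hX' : (∑ a, if a 1 = 0 ∧ a 2 = 0 ∧ a 3 = 0 ∧ a 0 ≠ 0 then Φ.nu ρ a else 0) = X := by
    rw [hX]
    refine Fintype.sum_equiv R _ _ fun a => ?_
    simp only [ne_eq, hR0, hR, show Fin.rev (1 : Fin 4) = 2 from rfl,
      show Fin.rev (2 : Fin 4) = 1 from rfl, show Fin.rev (0 : Fin 4) = 3 from rfl,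
      show Fin.rev (3 : Fin 4) = 0 from rfl]
    split_ifs <;> tauto
  refine ⟨X, C, K, ?_, hQC, ?_, ?_, ?_⟩
  · rw [add_mul, add_mul, one_mul, one_mul, ← hQX, ← hQC]
    conv_rhs =>
      enter [1, 2, 2]
      rw [← hX']
    conv_rhs =>
      enter [2, 2]
      rw [← hC']
    rw [show Φ.nu ρ 0 = ∑ a, if a = 0 then Φ.nu ρ a else 0 by simp]
    simp only [← Finset.sum_add_distrib]
    refine Finset.sum_congr rfl fun a _ => ?_
    have hz : a = 0 ↔ a 0 = 0 ∧ a 1 = 0 ∧ a 2 = 0 ∧ a 3 = 0 := by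
      simp [funext_iff, Fin.forall_fin_succ]
    by_cases h0 : a 0 = 0 <;> by_cases h1 : a 1 = 0 <;> by_cases h2 : a 2 = 0 <;>
      by_cases h3 : a 3 = 0 <;> simp [hz, h0, h1, h2, h3]
  · rw [← hQX, hK]
    simp only [← Finset.sum_add_distrib]
    refine Finset.sum_congr rfl fun a _ => ?_
    by_cases h1 : a 1 = 0 <;> by_cases h2 : a 2 = 0 <;> by_cases h3 : a 3 = 0 <;> simp [h1, h2, h3]
  · rw [← hC', hK]
    refine Finset.sum_le_sum fun a _ => ?_
    split_ifs <;> first | omega | tauto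
  · intro hK0
    obtain ⟨a, -, ha⟩ := Finset.exists_ne_zero_of_sum_ne_zero hK0
    obtain ⟨⟨ha2, ha1, ha3⟩, hna⟩ := ite_ne_right_iff.1 ha
    let e : (Fˣ × Fˣ) × F → (Fin 4 → F) := fun x => Φ.shift x.2 (scal Φ.fQ x.1.1 x.1.2 a)
    have e1 : ∀ x, e x 1 = (rv x.1.1 x.1.2 Φ.x1 : F) * a 1 := fun x => by
      simp [e, shift_one_apply, scal, fQ, ha2]
    have e3 : ∀ x, e x 3 = (rv x.1.1 x.1.2 Φ.x3 : F) * a 3 := fun x => by
      simp [e, shift_three_apply, scal, fQ]
    have e2 : ∀ x, e x 2 = 0 := fun x => by simp [e, shift_two_apply, scal, ha2]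
    have hfib : ∀ b ∈ Finset.univ.image e,
        (Finset.univ.filter fun x => e x = b).card ≤ 6 := by
      intro b hb
      obtain ⟨x₀, -, rfl⟩ := Finset.mem_image.1 hb
      refine le_trans (Finset.card_le_mul_card_image (f := Prod.fst)
        (Finset.univ.filter fun x => e x = e x₀) 3 ?_) ?_
      · intro p hp
        obtain ⟨x₁, hx₁, rfl⟩ := Finset.mem_image.1 hp
        have hx₁' := (Finset.mem_filter.1 hx₁).2
        set a' := scal Φ.fQ x₁.1.1 x₁.1.2 a with ha'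
        have ha'2 : a' 2 = 0 := by simp [ha', scal, ha2]
        have ha'3 : a' 3 ≠ 0 := by simp [ha', scal, ha3]
        refine le_trans (Finset.card_le_card_of_injOn (fun x => x.2 - x₁.2) ?_ ?_)
          (Φ.D_ker (a' 1) (a' 3) ha'3)
        · intro x hx
          simp only [Finset.mem_coe, Finset.mem_filter, Finset.mem_univ, true_and] at hx ⊢
          have h := congrFun (hx.1.trans hx₁'.symm) 0
          simp only [e, shift_zero_apply, hx.2, ← ha', ha'2, add_right_inj] at h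
          have h2 := Φ.D_add (x.2 - x₁.2) x₁.2 (a' 1) (a' 3)
          rw [sub_add_cancel] at h2
          linear_combination h - h2
        · intro x hx y hy hxy
          simp only [Finset.mem_coe, Finset.mem_filter] at hx hy
          exact Prod.ext (hx.2.trans hy.2.symm) (sub_left_inj.1 hxy)
      · refine (Nat.mul_le_mul_left 3 ((Finset.card_le_card ?_).trans
          (Φ.tor_fib (rv x₀.1.1 x₀.1.2 Φ.x1) (rv x₀.1.1 x₀.1.2 Φ.x3)))).trans (le_refl 6)
        intro p hp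
        obtain ⟨x, hx, rfl⟩ := Finset.mem_image.1 hp
        have hx' := (Finset.mem_filter.1 hx).2
        refine Finset.mem_filter.2 ⟨Finset.mem_univ _, Units.ext ?_, Units.ext ?_⟩
        · have h := congrFun hx' 1
          rw [e1, e1] at h
          exact mul_right_cancel₀ ha1 h
        · have h := congrFun hx' 3
          rw [e3, e3] at h
          exact mul_right_cancel₀ ha3 h
    calc q * (q - 1) ^ 2 = (Finset.univ : Finset ((Fˣ × Fˣ) × F)).card := by
          rw [Finset.card_univ, Fintype.card_prod, Fintype.card_prod, Fintype.card_units]; ring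
      _ ≤ 6 * (Finset.univ.image e).card := Finset.card_le_mul_card_image _ 6 hfib
      _ ≤ 6 * K := by
          refine Nat.mul_le_mul_left 6 ?_
          rw [hK, ← Finset.sum_filter, Finset.card_eq_sum_ones]
          refine le_trans (Finset.sum_le_sum fun b hb => ?_) (Finset.sum_le_sum_of_subset ?_)
          · obtain ⟨x, -, rfl⟩ := Finset.mem_image.1 hb
            show 1 ≤ Φ.nu ρ (Φ.shift _ _)
            rw [Φ.nu_shift ρ, Φ.nu_scal ρ]
            exact Nat.one_le_iff_ne_zero.2 hna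
          · intro b hb
            obtain ⟨x, -, rfl⟩ := Finset.mem_image.1 hb
            refine Finset.mem_filter.2 ⟨Finset.mem_univ _, e2 x, ?_, ?_⟩
            · rw [e1]; exact mul_ne_zero (Units.ne_zero _) ha1
            · rw [e3]; exact mul_ne_zero (Units.ne_zero _) ha3

end Frame

end CfsgLib.Chevalley.G2Degree
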