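import Cfsg.Agent.Lib.Chevalley.G2Degree.Invariance

/-!
Marginals of spectral multiplicities and elementary sums used in characteristic three.
-/

set_option autoImplicit false
set_option linter.unusedSectionVars false
set_option linter.style.haveILetI false
set_option maxRecDepth 10000

open Cfsg.Lie Module

namespace CfsgLib.Chevalley.G2Degree

open InvCentralizers.AbelianEigen

universe u v

section General

variable {F : Type u} [Field F] [Fintype F] [DecidableEq F] {n : ℕ} {ψ : AddChar F ℂ}
  {G : Type*} [Group G] {V : Type v} [AddCommGroup V] [Module ℂ V] [FiniteDimensional ℂ V]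
  (ρ : G →* Module.End ℂ V)

/-- The vectors of `W` on which part of the family acts through the character `a`. -/
def part (ψ : AddChar F ℂ) (W : Submodule ℂ V) (α : (Fin n → F) → G) (J : Finset (Fin n))
    (a : Fin n → F) : Submodule ℂ V where
  carrier := {v | v ∈ W ∧ ∀ i ∈ J, ∀ t : F, ρ (α (Pi.single i t)) v = ψ (a i * t) • v}
  add_mem' {v w} hv hw := ⟨W.add_mem hv.1 hw.1, fun i hi t => by
    rw [map_add, hv.2 i hi, hw.2 i hi, smul_add]⟩
  zero_mem' := ⟨W.zero_mem, fun i _ t => by simp⟩
  smul_mem' c {v} hv := ⟨W.smul_mem c hv.1, fun i hi t => by rw [map_smul, hv.2 i hi, smul_comm]⟩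

/-- Marginals. -/
theorem finrank_part (hψ : ψ ≠ 1) {W : Submodule ℂ V} {α : (Fin n → F) → G} (h : Fam ρ W α)
    (J : Finset (Fin n)) (a₀ : Fin n → F) :
    finrank ℂ (part ρ ψ W α J a₀) =
      ∑ a ∈ Finset.univ.filter (fun a : Fin n → F => ∀ i ∈ J, a i = a₀ i), mu ψ ρ W α a := by
  classical
  have hS := setup_rest ρ hψ h
  set X : Submodule ℂ W := (part ρ ψ W α J a₀).comap W.subtype with hX
  have e1 : finrank ℂ (part ρ ψ W α J a₀) = finrank ℂ X := by
    rw [hX, (Submodule.equivMapOfInjective _ W.injective_subtype _).finrank_eq,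
      Submodule.map_comap_subtype, inf_eq_right.2 fun v hv => hv.1]
  set O := Finset.univ.filter (fun a : Fin n → F => ∀ i ∈ J, a i = a₀ i) with hO
  have hproj : LinearMap.IsProj X (∑ a ∈ O, eproj (pair ψ) (rest ρ h) a) := by
    constructor
    · intro w
      rw [LinearMap.sum_apply]
      refine Submodule.sum_mem _ fun a ha => ?_
      refine ⟨Subtype.coe_prop _, fun i hi t => ?_⟩
      have := congrArg Subtype.val (eproj_mem hS a w (Pi.single i t))
      rw [pair_single, (Finset.mem_filter.1 ha).2 i hi] at this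
      exact this
    · intro w hw
      have hzero : ∀ a, a ∉ O → eproj (pair ψ) (rest ρ h) a w = 0 := by
        intro a ha
        rw [hO, Finset.mem_filter] at ha
        push Not at ha
        obtain ⟨i, hi, hai⟩ := ha (Finset.mem_univ a)
        obtain ⟨t, ht⟩ : ∃ t, ψ (a i * t) ≠ ψ (a₀ i * t) := by
          by_contra hc
          push Not at hc
          exact hai (eq_of_forall_mul hψ hc)
        have hfix : rest ρ h (Pi.single i t) w = ψ (a₀ i * t) • w := Subtype.ext (hw.2 i hi t)
        have hcomm : eproj (pair ψ) (rest ρ h) a (rest ρ h (Pi.single i t) w) =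
            rest ρ h (Pi.single i t) (eproj (pair ψ) (rest ρ h) a w) := by
          simp only [eproj, proj, LinearMap.smul_apply, LinearMap.sum_apply, map_smul, map_sum]
          refine congrArg _ (Finset.sum_congr rfl fun x _ => congrArg _ ?_)
          rw [← Module.End.mul_apply, ← Module.End.mul_apply, ← hS.map_add, ← hS.map_add,
            add_comm]
        rw [hfix, map_smul, eproj_mem hS a w (Pi.single i t), pair_single] at hcomm
        have h0 : (ψ (a i * t) - ψ (a₀ i * t)) • eproj (pair ψ) (rest ρ h) a w = 0 := by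
          rw [sub_smul, ← hcomm, sub_self]
        exact (smul_eq_zero.1 h0).resolve_left (sub_ne_zero.2 ht)
      conv_rhs => rw [← Module.End.one_apply (R := ℂ) w, ← sum_eproj hS, LinearMap.sum_apply]
      rw [LinearMap.sum_apply]
      exact Finset.sum_subset (Finset.subset_univ _) fun a _ ha => hzero a ha
  have e2 : (finrank ℂ X : ℂ) = ∑ a ∈ O, (mu ψ ρ W α a : ℂ) := by
    rw [← hproj.trace, map_sum]
    refine Finset.sum_congr rfl fun a _ => ?_
    rw [trace_eproj hS, mu, ← map_eig ρ h a,
      (Submodule.equivMapOfInjective _ W.injective_subtype _).finrank_eq]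
  rw [e1]
  exact_mod_cast e2

/-- Eigenvectors of the single coordinates. -/
theorem mem_spec_of_single {W : Submodule ℂ V} {α : (Fin n → F) → G} (h : Fam ρ W α)
    {a : Fin n → F} {v : V} (hv : v ∈ W)
    (hs : ∀ i t, ρ (α (Pi.single i t)) v = ψ (a i * t) • v) : v ∈ spec ψ ρ W α a := by
  refine ⟨hv, fun x => ?_⟩
  rw [← Finset.univ_sum_single x]
  refine Finset.sum_induction _ (fun x => ρ (α x) v = pair ψ a x • v) ?_ ?_ fun i _ => ?_
  · intro p r hp hr
    rw [h.add p r v hv, hr, map_smul, hp, smul_smul, pair_add_right, mul_comm]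
  · rw [h.zero v hv, pair_comm, pair_zero_left, one_smul]
  · rw [hs, pair_single]

end General

section Sums

variable {F : Type u} [Field F] [Fintype F] [DecidableEq F]

theorem sum4 (g : (Fin 4 → F) → ℕ) :
    ∑ a, g a = ∑ c : F, ∑ x : F, ∑ y : F, ∑ z : F, g ![c, x, y, z] := by
  let e : F × F × F × F ≃ (Fin 4 → F) :=
    { toFun := fun p => ![p.1, p.2.1, p.2.2.1, p.2.2.2]
      invFun := fun a => (a 0, a 1, a 2, a 3)
      left_inv := fun p => by simp
      right_inv := fun a => by funext i; fin_cases i <;> rfl }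
  rw [← e.sum_comp]
  simp only [Fintype.sum_prod_type]
  rfl

theorem sum_ite_zero (a b : ℕ) :
    ∑ x : F, (if x = 0 then a else b) = a + (Fintype.card F - 1) * b := by
  rw [← Finset.add_sum_erase _ _ (Finset.mem_univ (0 : F)), if_pos rfl,
    Finset.sum_congr rfl fun x hx => if_neg (Finset.mem_erase.1 hx).1, Finset.sum_const,
    Finset.card_erase_of_mem (Finset.mem_univ _), Finset.card_univ, smul_eq_mul]

/-- The sum of the two values over a plane. -/
theorem sum_plane (a b : ℕ) :
    ∑ x : F, ∑ y : F, (if x = 0 ∧ y = 0 then a else b) = a + (Fintype.card F ^ 2 - 1) * b := by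
  have hq := Fintype.card_pos (α := F)
  obtain ⟨r, hr⟩ : ∃ r, Fintype.card F = r + 1 := ⟨Fintype.card F - 1, by omega⟩
  have e : ∀ x : F, ∑ y : F, (if x = 0 ∧ y = 0 then a else b) =
      if x = 0 then a + (Fintype.card F - 1) * b else Fintype.card F * b := by
    intro x
    by_cases hx : x = 0
    · simp only [hx, true_and, if_true, sum_ite_zero]
    · simp [hx]
  rw [Finset.sum_congr rfl fun x _ => e x, sum_ite_zero, hr,
    show (r + 1) ^ 2 - 1 = r + r * (r + 1) by
      rw [show (r + 1) ^ 2 = r + r * (r + 1) + 1 by ring]; rfl,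
    show r + 1 - 1 = r from rfl]
  ring

end Sums

end CfsgLib.Chevalley.G2Degree
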