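import Cfsg.Agent.Lib.Chevalley.G2Degree.Invariance

/-!
Counting the characters of the radical of the long root parabolic in a representation of `G₂(q)`,
`q` not divisible by three.
-/

set_option autoImplicit false
set_option linter.unusedSectionVars false
set_option linter.style.haveILetI false
set_option maxRecDepth 10000

open Cfsg.Lie Module

namespace CfsgLib.Chevalley.G2Degree

universe u v

variable {F : Type u} [Field F] [Fintype F] [DecidableEq F]
  {V : Type v} [AddCommGroup V] [Module ℂ V] [FiniteDimensional ℂ V]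
  (ρ : ↥(chevG2.group F) →* Module.End ℂ V) {ψ : AddChar F ℂ}

/-- The abelian group `Z X_b X_{a+b}`. -/
abbrev A3 : Fin 3 → ℕ := ![11, 6, 8]

/-- The multiplicities of the characters of `Q` on the fixed space of its centre. -/
noncomputable abbrev nu (ψ : AddChar F ℂ) (a : Fin 4 → F) : ℕ :=
  mu ψ ρ (RF ρ [11]) (fam Q4) a

theorem nu_tr (s : F) (a : Fin 4 → F) : nu ρ ψ (tr s a) = nu ρ ψ a := mu_tr ρ s a

theorem nu_wa : ∃ c : Fin 4 → Fˣ, ∀ a,
    nu ρ ψ (fun i => (c i : F) * a (Fin.rev i)) = nu ρ ψ a := mu_wa ρ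

theorem fam_A3 : Fam ρ ⊤ (fam (F := F) A3) := fam_top ρ (by decide +kernel)

theorem fam_A3_eq (y : Fin 3 → F) : fam A3 y = el 11 (y 0) * el 6 (y 1) * el 8 (y 2) := by
  simp [fam, List.ofFn_succ, A3, mul_assoc]

theorem shift_b_le (u : F) (a : Fin 3 → F) :
    mu ψ ρ ⊤ (fam A3) a ≤ mu ψ ρ ⊤ (fam A3) ![a 0, a 1 + u * a 0, a 2] := by
  refine mu_le_single ρ (g := el 10 u) (fam_A3 ρ) (fun _ _ => trivial) fun i t => ?_
  have conj : ∀ (i : ℕ) (z : Fin 3 → F), el i t * el 10 u = el 10 u * fam A3 z →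
      ∀ w ∈ (⊤ : Submodule ℂ V), ρ ((el 10 u)⁻¹ * el i t * el 10 u) w = ρ (fam A3 z) w := by
    intro i z e w _
    rw [mul_assoc, e, inv_mul_cancel_left]
  fin_cases i
  · refine ⟨![t, 0, 0], conj 11 _ ?_, by rw [pair, Fin.sum_univ_three]; simp⟩
    rw [fam_A3_eq]
    simpa using (el_comm (r := 10) (s := 11) (by decide +kernel) u t).eq
  · refine ⟨![t * u, t, 0], conj 6 _ ?_, ?_⟩
    · have h := swap_b_3ab (F := F) t u
      rw [fam_A3_eq]
      simp only [Matrix.cons_val_zero, Matrix.cons_val_one, Matrix.cons_val, el_zero, mul_one]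
      rw [(el_comm (r := 6) (s := 11) (by decide +kernel) t (t * u)).eq, ← mul_assoc, h,
        mul_assoc, ← el_add, neg_add_cancel, el_zero, mul_one]
    · rw [pair, Fin.sum_univ_three]; congr 1; simp; ring
  · refine ⟨![0, 0, t], conj 8 _ ?_, by rw [pair, Fin.sum_univ_three]; simp⟩
    rw [fam_A3_eq]
    simpa using (el_comm (r := 10) (s := 8) (by decide +kernel) u t).eq

theorem shift_ab_le (u : F) (a : Fin 3 → F) :
    mu ψ ρ ⊤ (fam A3) a ≤ mu ψ ρ ⊤ (fam A3) ![a 0, a 1, a 2 + 3 * u * a 0] := by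
  refine mu_le_single ρ (g := el 9 u) (fam_A3 ρ) (fun _ _ => trivial) fun i t => ?_
  have conj : ∀ (i : ℕ) (z : Fin 3 → F), el i t * el 9 u = el 9 u * fam A3 z →
      ∀ w ∈ (⊤ : Submodule ℂ V), ρ ((el 9 u)⁻¹ * el i t * el 9 u) w = ρ (fam A3 z) w := by
    intro i z e w _
    rw [mul_assoc, e, inv_mul_cancel_left]
  fin_cases i
  · refine ⟨![t, 0, 0], conj 11 _ ?_, by rw [pair, Fin.sum_univ_three]; simp⟩
    rw [fam_A3_eq]
    simpa using (el_comm (r := 9) (s := 11) (by decide +kernel) u t).eq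
  · refine ⟨![0, t, 0], conj 6 _ ?_, by rw [pair, Fin.sum_univ_three]; simp⟩
    rw [fam_A3_eq]
    simpa using (el_comm (r := 9) (s := 6) (by decide +kernel) u t).eq
  · refine ⟨![3 * (t * u), 0, t], conj 8 _ ?_, ?_⟩
    · have h := swap_ab_2ab (F := F) t u
      rw [fam_A3_eq]
      simp only [Matrix.cons_val_zero, Matrix.cons_val_one, Matrix.cons_val, el_zero, mul_one]
      rw [(el_comm (r := 8) (s := 11) (by decide +kernel) t (3 * (t * u))).eq, ← mul_assoc, h,
        mul_assoc, ← el_add, neg_add_cancel, el_zero, mul_one]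
    · rw [pair, Fin.sum_univ_three]; congr 1; simp; ring

/-- All characters of `A3` nontrivial on the centre have the same multiplicity. -/
theorem mu_A3_const (h3 : (3 : F) ≠ 0) {a : Fin 3 → F} (ha : a 0 ≠ 0) :
    mu ψ ρ ⊤ (fam A3) a = mu ψ ρ ⊤ (fam A3) ![1, 0, 0] := by
  have hshift : ∀ {b : Fin 3 → F}, b 0 ≠ 0 → ∀ u v,
      mu ψ ρ ⊤ (fam A3) b ≤ mu ψ ρ ⊤ (fam A3) ![b 0, u, v] := by
    intro b hb u v
    refine (shift_b_le ρ ((u - b 1) / b 0) b).trans
      ((shift_ab_le ρ ((v - b 2) / (3 * b 0)) _).trans_eq (congrArg _ ?_))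
    funext i
    fin_cases i <;> simp <;> field_simp <;> ring
  have hc : ∀ c : Fˣ, mu ψ ρ ⊤ (fam A3) (![(c : F), 0, 0]) = mu ψ ρ ⊤ (fam A3) ![1, 0, 0] := by
    intro c
    rw [← mu_scal ρ (fam_A3 ρ) (by decide) (fun _ _ _ _ => trivial) c c⁻¹ ![1, 0, 0]]
    congr 1
    funext i
    fin_cases i <;> simp [scal, rv, ca, cb]
    field_simp
  rw [← hc (Units.mk0 _ ha)]
  refine le_antisymm (hshift ha 0 0) ?_
  refine (hshift (b := ![a 0, 0, 0]) ha (a 1) (a 2)).trans_eq (congrArg _ ?_)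
  funext i
  fin_cases i <;> simp

theorem card_filter_ne_zero3 :
    (Finset.univ.filter fun a : Fin 3 → F => a 0 ≠ 0).card =
      (Fintype.card F - 1) * Fintype.card F * Fintype.card F := by
  have e : (Finset.univ.filter fun a : Fin 3 → F => a 0 ≠ 0) =
      Fintype.piFinset ![Finset.univ.erase (0 : F), Finset.univ, Finset.univ] := by
    ext a
    simp [Fintype.mem_piFinset, Fin.forall_fin_succ]
  rw [e, Fintype.card_piFinset, Fin.prod_univ_three]
  simp

theorem card_filter_ne_zero3' :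
    (Finset.univ.filter fun a : Fin 3 → F => a 0 ≠ 0 ∧ a 1 = 0).card =
      (Fintype.card F - 1) * Fintype.card F := by
  have e : (Finset.univ.filter fun a : Fin 3 → F => a 0 ≠ 0 ∧ a 1 = 0) =
      Fintype.piFinset ![Finset.univ.erase (0 : F), {0}, Finset.univ] := by
    ext a
    simp [Fintype.mem_piFinset, Fin.forall_fin_succ]
  rw [e, Fintype.card_piFinset, Fin.prod_univ_three]
  simp

/-- The part of the representation on which the centre acts nontrivially. -/
theorem centre_counts (hψ : ψ ≠ 1) (h3 : (3 : F) ≠ 0) (hne : RF ρ [11] ≠ ⊤) :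
    ∃ A : ℕ, 0 < A ∧
      finrank ℂ V = finrank ℂ (RF ρ [11]) + (Fintype.card F - 1) * Fintype.card F * Fintype.card F * A ∧
      ∑ a ∈ Finset.univ.filter (fun a : Fin 4 → F => a 0 ≠ 0), nu ρ ψ a =
        (Fintype.card F - 1) * Fintype.card F * A := by
  have hfam := fam_A3 ρ
  set q := Fintype.card F
  set m : (Fin 3 → F) → ℕ := fun a => mu ψ ρ ⊤ (fam A3) a with hm
  set A := m ![1, 0, 0] with hA
  have hk : finrank ℂ V = ∑ a, m a := by
    rw [← finrank_top (R := ℂ) (M := V), finrank_fam ρ hψ hfam]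
  have hZ : finrank ℂ (RF ρ [11]) = ∑ a ∈ Finset.univ.filter (fun a : Fin 3 → F => a 0 = 0), m a := by
    rw [show [11] = ([0] : List (Fin 3)).map A3 from rfl, finrank_top_eq ρ hψ hfam]
    simp [hm]
  have hB : finrank ℂ (RF ρ [6]) = ∑ a ∈ Finset.univ.filter (fun a : Fin 3 → F => a 1 = 0), m a := by
    rw [show [6] = ([1] : List (Fin 3)).map A3 from rfl, finrank_top_eq ρ hψ hfam]
    simp [hm]
  have hZB : finrank ℂ (RF ρ [11, 6]) =
      ∑ a ∈ Finset.univ.filter (fun a : Fin 3 → F => a 0 = 0 ∧ a 1 = 0), m a := by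
    rw [show [11, 6] = ([0, 1] : List (Fin 3)).map A3 from rfl, finrank_top_eq ρ hψ hfam]
    simp [hm]
  have hconst : ∀ (P : (Fin 3 → F) → Prop) [DecidablePred P], (∀ a, P a → a 0 ≠ 0) →
      ∑ a ∈ Finset.univ.filter P, m a = (Finset.univ.filter P).card * A := by
    intro P _ hP
    rw [Finset.sum_congr rfl fun a ha => mu_A3_const ρ h3 (hP a (Finset.mem_filter.1 ha).2),
      Finset.sum_const, smul_eq_mul]
  have hsplit : finrank ℂ V = finrank ℂ (RF ρ [11]) + (q - 1) * q * q * A := by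
    rw [hk, hZ, ← Finset.sum_filter_add_sum_filter_not Finset.univ (fun a : Fin 3 → F => a 0 = 0),
      hconst _ (fun a h => h), card_filter_ne_zero3]
  refine ⟨A, Nat.pos_of_ne_zero fun h0 => ?_, hsplit, ?_⟩
  · rw [h0, mul_zero, add_zero] at hsplit
    exact hne (Submodule.eq_top_of_finrank_eq hsplit.symm)
  have hconj : finrank ℂ (RF ρ [11]) = finrank ℂ (RF ρ [6]) :=
    (finrank_RF_weyl ρ wb [11] [10] (by decide) (by decide +kernel)).trans
      (finrank_RF_weyl ρ wa [10] [6] (by decide) (by decide +kernel))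
  have hB' : finrank ℂ (RF ρ [6]) = finrank ℂ (RF ρ [11, 6]) + (q - 1) * q * A := by
    rw [hB, hZB, ← Finset.sum_filter_add_sum_filter_not _ (fun a : Fin 3 → F => a 0 = 0),
      Finset.filter_filter, Finset.filter_filter]
    congr 1
    · exact Finset.sum_congr (Finset.filter_congr fun a _ => and_comm) fun _ _ => rfl
    · rw [hconst _ (fun a h => h.2), ← card_filter_ne_zero3']
      congr 2
      exact Finset.filter_congr fun a _ => and_comm
  have hW : finrank ℂ (RF ρ [11, 6]) =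
      ∑ a ∈ Finset.univ.filter (fun a : Fin 4 → F => a 0 = 0), nu ρ ψ a := by
    rw [show [11, 6] = [11] ++ ([0] : List (Fin 4)).map Q4 from rfl,
      finrank_RF_eq ρ hψ (fam_Q4 ρ)]
    simp
  have htot := finrank_fam ρ hψ (fam_Q4 ρ)
  rw [← Finset.sum_filter_add_sum_filter_not Finset.univ (fun a : Fin 4 → F => a 0 = 0), ← hW,
    hconj, hB'] at htot
  show _ = _
  simp only [nu, ne_eq] at htot ⊢
  omega

/-- The points of the projective line at which the form `a` vanishes. -/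
def nroot (a : Fin 4 → F) : ℕ :=
  (Finset.univ.filter fun s : F => tr s a 0 = 0).card + if a 3 = 0 then 1 else 0

theorem nroot_le (a : Fin 4 → F) : nroot a ≤ Fintype.card F + 1 := by
  rw [nroot]
  have := Finset.card_le_univ (Finset.univ.filter fun s : F => tr s a 0 = 0)
  split_ifs <;> omega

theorem tr_apply_three (s : F) (a : Fin 4 → F) : tr s a 3 = a 3 := by simp [tr]

theorem tr_zero_arg (s : F) : tr s (0 : Fin 4 → F) = 0 := by
  funext i
  fin_cases i <;> simp [tr]

/-- Averaging over the points. -/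
theorem average :
    ∑ a ∈ Finset.univ.filter (fun a : Fin 4 → F => a ≠ 0),
        nu ρ ψ a * (Fintype.card F + 1 - nroot a) =
      (Fintype.card F + 1) * ∑ a ∈ Finset.univ.filter (fun a : Fin 4 → F => a 0 ≠ 0), nu ρ ψ a := by
  set N1 := ∑ a ∈ Finset.univ.filter (fun a : Fin 4 → F => a 0 ≠ 0), nu ρ ψ a with hN1
  have hs : ∀ s : F, ∑ a, (if tr s a 0 = 0 then 0 else nu ρ ψ a) = N1 := by
    intro s
    rw [hN1, Finset.sum_filter]
    refine Fintype.sum_equiv (trE s) _ _ fun a => ?_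
    show _ = if tr s a 0 ≠ 0 then nu ρ ψ (tr s a) else 0
    rw [nu_tr ρ s a, ite_not]
  have hinf : ∑ a : Fin 4 → F, (if a 3 = 0 then 0 else nu ρ ψ a) = N1 := by
    obtain ⟨c, hc⟩ := nu_wa ρ (ψ := ψ)
    rw [hN1, Finset.sum_filter]
    refine Fintype.sum_equiv ((Equiv.arrowCongr Fin.revPerm (Equiv.refl F)).trans
      (Equiv.piCongrRight fun i => Units.mulLeft (c i))) _ _ fun a => ?_
    have e : ((Equiv.arrowCongr Fin.revPerm (Equiv.refl F)).trans
        (Equiv.piCongrRight fun i => Units.mulLeft (c i))) a = fun i => (c i : F) * a (Fin.rev i) :=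
      funext fun i => by simp
    rw [e, hc a]
    have h0 : ((c 0 : F) * a (Fin.rev 0) ≠ 0) ↔ a 3 ≠ 0 := by
      rw [mul_ne_zero_iff, show (Fin.rev 0 : Fin 4) = 3 from rfl]
      exact and_iff_right (c 0).ne_zero
    simp only [h0, ite_not]
  have key : ∀ a : Fin 4 → F, (∑ s : F, if tr s a 0 = 0 then 0 else nu ρ ψ a) +
      (if a 3 = 0 then 0 else nu ρ ψ a) = nu ρ ψ a * (Fintype.card F + 1 - nroot a) := by
    intro a
    rw [Finset.sum_ite, Finset.sum_const_zero, zero_add, Finset.sum_const, smul_eq_mul,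
      Finset.filter_not, Finset.card_sdiff_of_subset (Finset.filter_subset _ _), Finset.card_univ]
    have hle := Finset.card_le_univ (Finset.univ.filter fun s : F => tr s a 0 = 0)
    simp only [nroot]
    split_ifs with h
    · rw [add_zero, mul_comm]; congr 1; omega
    · rw [← Nat.succ_mul, mul_comm]; congr 1; omega
  rw [Finset.sum_filter, add_mul, one_mul]
  conv_rhs =>
    rw [show Fintype.card F * N1 = ∑ s : F, ∑ a, (if tr s a 0 = 0 then 0 else nu ρ ψ a) by
      rw [Finset.sum_congr rfl fun s _ => hs s, Finset.sum_const, Finset.card_univ, smul_eq_mul]]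
  rw [Finset.sum_comm, ← hinf, ← Finset.sum_add_distrib]
  refine Finset.sum_congr rfl fun a _ => ?_
  rw [key]
  split_ifs with h
  · rfl
  · rw [not_not] at h
    subst h
    simp [nroot, tr_zero_arg]

theorem tr_scal (s : F) (σ c : Fˣ) (a : Fin 4 → F) :
    tr s (scal Q4 σ c a) 0 = c * tr (s * σ) a 0 := by
  simp [tr, scal, rv, ca, cb, zpow_ofNat]
  ring

theorem scal_Q4 (σ c : Fˣ) (a : Fin 4 → F) (j : Fin 4) :
    scal Q4 σ c a j = (σ : F) ^ (j : ℕ) * c * a j := by
  fin_cases j <;> simp [scal, rv, ca, cb, zpow_ofNat]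

theorem nu_scal (σ c : Fˣ) (a : Fin 4 → F) : nu ρ ψ (scal Q4 σ c a) = nu ρ ψ a :=
  mu_scal ρ (fam_Q4 ρ) Q4_lt (RF11_tor ρ) σ c a

/-- A form without roots has a large orbit. -/
theorem rootless_bound (h3 : (3 : F) ≠ 0) (hq : 5 ≤ Fintype.card F) {a : Fin 4 → F}
    (ha : nu ρ ψ a ≠ 0) (hr : nroot a = 0) :
    2 * ((Fintype.card F - 1) * Fintype.card F) ≤
      ∑ a ∈ Finset.univ.filter (fun a : Fin 4 → F => a 0 ≠ 0), nu ρ ψ a := by
  rw [nroot, Nat.add_eq_zero_iff, Finset.card_eq_zero] at hr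
  obtain ⟨hroot, hinf⟩ := hr
  have hnr : ∀ s, tr s a 0 ≠ 0 := fun s h =>
    (Finset.eq_empty_iff_forall_notMem.1 hroot) s (Finset.mem_filter.2 ⟨Finset.mem_univ _, h⟩)
  have h3a : a 3 ≠ 0 := fun h => by rw [if_pos h] at hinf; exact one_ne_zero hinf
  set s₀ := a 2 / (3 * a 3) with hs0
  set b := tr s₀ a with hb
  have hb2 : b 2 = 0 := by
    simp [hb, tr, hs0]
    field_simp
    ring
  have hb3 : b 3 ≠ 0 := by rwa [hb, tr_apply_three]
  have hnrb : ∀ s, tr s b 0 ≠ 0 := fun s => by rw [hb, tr_tr]; exact hnr _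
  obtain ⟨σ₀, hσ₀⟩ : ∃ σ : Fˣ, σ ^ 3 ≠ 1 := by
    by_contra h
    push Not at h
    obtain ⟨g, hg⟩ := IsCyclic.exists_generator (α := Fˣ)
    have h1 := Nat.le_of_dvd (by norm_num) (orderOf_dvd_of_pow_eq_one (h g))
    rw [orderOf_eq_card_of_forall_mem_zpowers hg, Nat.card_units, Nat.card_eq_fintype_card] at h1
    omega
  let e : (Bool × Fˣ) × F → (Fin 4 → F) := fun x =>
    tr x.2 (scal Q4 (if x.1.1 then σ₀ else 1) x.1.2 b)
  have hinj : Function.Injective e := by
    rintro ⟨⟨x, c⟩, s⟩ ⟨⟨x', c'⟩, s'⟩ h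
    set σ : Fˣ := if x then σ₀ else 1 with hσ
    set σ' : Fˣ := if x' then σ₀ else 1 with hσ'
    have hK : (σ : F) ^ 3 * c = (σ' : F) ^ 3 * c' := by
      have := congrFun h 3
      simp only [e, tr_apply_three, scal_Q4] at this
      exact mul_right_cancel₀ hb3 this
    have hs : s = s' := by
      have := congrFun h 2
      simp only [e, tr, Matrix.cons_val, scal_Q4, hb2, mul_zero, zero_sub, neg_inj] at this
      rw [← hσ, ← hσ', show ((3 : Fin 4) : ℕ) = 3 from rfl, ← hK] at this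
      exact mul_left_cancel₀ h3 (mul_right_cancel₀
        (mul_ne_zero (mul_ne_zero (pow_ne_zero 3 σ.ne_zero) c.ne_zero) hb3) this)
    subst hs
    have h' := congrArg (tr (-s)) h
    simp only [e, tr_tr, neg_add_cancel, tr_zero] at h'
    have h0' := congrFun h' 0
    have hb0 : b 0 ≠ 0 := by have := hnrb 0; rwa [tr_zero] at this
    simp [scal_Q4, hb0] at h0'
    obtain rfl : c = c' := by
      first
      | exact h0'
      | exact Units.ext h0'
    have h4 := Units.ext (u := σ ^ 3) (v := σ' ^ 3) (by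
      push_cast; exact mul_right_cancel₀ c.ne_zero hK)
    rw [hσ, hσ'] at h4
    cases x <;> cases x' <;> simp [hσ₀, Ne.symm hσ₀] at h4 ⊢
  calc 2 * ((Fintype.card F - 1) * Fintype.card F)
      = (Finset.univ.image e).card := by
        rw [Finset.card_image_of_injective _ hinj, Finset.card_univ]
        simp [Fintype.card_units, mul_assoc]
    _ = ∑ _x ∈ Finset.univ.image e, 1 := Finset.card_eq_sum_ones _
    _ ≤ ∑ x ∈ Finset.univ.image e, nu ρ ψ x := Finset.sum_le_sum fun x hx => by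
        obtain ⟨y, -, rfl⟩ := Finset.mem_image.1 hx
        rw [nu_tr, nu_scal, hb, nu_tr]
        exact Nat.one_le_iff_ne_zero.2 ha
    _ ≤ _ := Finset.sum_le_sum_of_subset fun x hx => by
        obtain ⟨y, -, rfl⟩ := Finset.mem_image.1 hx
        refine Finset.mem_filter.2 ⟨Finset.mem_univ _, ?_⟩
        show tr y.2 (scal Q4 _ y.1.2 b) 0 ≠ 0
        rw [tr_scal]
        exact mul_ne_zero y.1.2.ne_zero (hnrb _)

/-- A scaling invariant sum over the forms with a nonzero coordinate. -/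
theorem dvd_sum_coord (i : Fin 4) (P : (Fin 4 → F) → Prop) [DecidablePred P]
    (hP : ∀ (c : Fˣ) a, P (scal Q4 1 c a) ↔ P a) (hi : ∀ a, P a → a i ≠ 0) :
    Fintype.card F - 1 ∣ ∑ a ∈ Finset.univ.filter P, nu ρ ψ a := by
  have hsc : ∀ (c : Fˣ) (a : Fin 4 → F) j, scal Q4 1 c a j = (c : F) * a j := by
    intro c a j
    fin_cases j <;> simp [scal, rv, ca, cb]
  let G : Fˣ → Finset (Fin 4 → F) := fun c => Finset.univ.filter fun a => P a ∧ a i = c
  have hu : Finset.univ.filter P = Finset.univ.biUnion G := by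
    ext a
    simp only [G, Finset.mem_biUnion, Finset.mem_filter, Finset.mem_univ, true_and]
    exact ⟨fun h => ⟨Units.mk0 _ (hi a h), h, rfl⟩, fun ⟨_, h, _⟩ => h⟩
  have hG : ∀ c : Fˣ, ∑ a ∈ G c, nu ρ ψ a = ∑ a ∈ G 1, nu ρ ψ a := by
    intro c
    refine Finset.sum_bij' (fun a _ => scal Q4 1 c⁻¹ a) (fun a _ => scal Q4 1 c a) ?_ ?_ ?_ ?_ ?_
    · intro a ha
      simp only [G, Finset.mem_filter, Finset.mem_univ, true_and] at ha ⊢
      exact ⟨(hP _ a).2 ha.1, by rw [hsc, ha.2]; simp⟩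
    · intro a ha
      simp only [G, Finset.mem_filter, Finset.mem_univ, true_and] at ha ⊢
      exact ⟨(hP _ a).2 ha.1, by rw [hsc, ha.2]; simp⟩
    · intro a _; funext j; rw [hsc, hsc]; simp
    · intro a _; funext j; rw [hsc, hsc]; simp
    · intro a _; rw [nu_scal]
  rw [hu, Finset.sum_biUnion fun c _ c' _ h => Finset.disjoint_left.2 fun a ha ha' => h (Units.ext
    ((Finset.mem_filter.1 ha).2.2.symm.trans (Finset.mem_filter.1 ha').2.2)),
    Finset.sum_congr rfl fun c _ => hG c, Finset.sum_const, Finset.card_univ, Fintype.card_units,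
    smul_eq_mul]
  exact dvd_mul_right _ _

end CfsgLib.Chevalley.G2Degree
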