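import Cfsg.Agent.Lib.Chevalley.G2Degree.GenericCase

/-!
A representation with only the obvious characters and no vector fixed by `Q` is too big when the
field has a primitive cube root of unity: the long root `SL₃` has translates of the vectors fixed
by `Z X_b` filling one eigenspace of its central element.
-/

set_option autoImplicit false
set_option linter.unusedSectionVars false
set_option linter.style.haveILetI false
set_option maxRecDepth 10000

open Cfsg.Lie Module

namespace CfsgLib.Chevalley.G2Degree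

universe u v

variable {F : Type u} [Field F] [Fintype F] [DecidableEq F]
  {V : Type v} [AddCommGroup V] [Module ℂ V] [FiniteDimensional ℂ V]
  (ρ : ↥(chevG2.group F) →* Module.End ℂ V) {ψ : AddChar F ℂ}

theorem data_0_6 : chevG2.commTerms 0 6 = [(1, -1, 1, 1)] ∨ chevG2.commTerms 0 6 = [(1, 1, 1, 1)] := by
  decide +kernel

theorem data_5_11 :
    chevG2.commTerms 5 11 = [(10, -1, 1, 1)] ∨ chevG2.commTerms 5 11 = [(10, 1, 1, 1)] := by
  decide +kernel

theorem data_1_5 : chevG2.commTerms 1 5 = [(0, -1, 1, 1)] ∨ chevG2.commTerms 1 5 = [(0, 1, 1, 1)] := by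
  decide +kernel

theorem data_1_11 :
    chevG2.commTerms 1 11 = [(6, -1, 1, 1)] ∨ chevG2.commTerms 1 11 = [(6, 1, 1, 1)] := by
  decide +kernel

theorem data_10_6' :
    chevG2.commTerms 10 6 = [(11, -1, 1, 1)] ∨ chevG2.commTerms 10 6 = [(11, 1, 1, 1)] := by
  decide +kernel

/-- Two roots with a single commutator term. -/
theorem el_swap_one {r s c : ℕ} (hr : r < 12) (hs : s < 12) (hsr : s ≠ r)
    (hneg : s ≠ chevG2.neg r)
    (h : chevG2.commTerms r s = [(c, -1, 1, 1)] ∨ chevG2.commTerms r s = [(c, 1, 1, 1)]) :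
    ∃ κ : F, κ ≠ 0 ∧ ∀ t u : F, el s u * el r t = el r t * el s u * el c (κ * (t * u)) := by
  rcases h with h | h
  · exact ⟨1, one_ne_zero, fun t u => by rw [el_swap hr hs hsr hneg, h]; simp⟩
  · exact ⟨-1, neg_ne_zero.2 one_ne_zero, fun t u => by rw [el_swap hr hs hsr hneg, h]; simp⟩

/-- The double sum over `Z X_b`. -/
noncomputable def sumA : Module.End ℂ V := ∑ x : F × F, ρ (el 11 x.1 * el 6 x.2)

theorem sumA_fix {v : V} (hv : v ∈ RF ρ [11, 6]) :
    sumA ρ v = ((Fintype.card (F × F) : ℕ) : ℂ) • v := by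
  rw [sumA, LinearMap.sum_apply, Finset.sum_congr rfl fun x _ => by
    rw [map_mul, Module.End.mul_apply, hv _ (el_mem_XS (by simp) _), hv _ (el_mem_XS (by simp) _)],
    Finset.sum_const, Finset.card_univ, Nat.cast_smul_eq_nsmul]

/-- A sum over one root subgroup of a vector fixed by `Z X_b` vanishes if there is no common fixed
vector. -/
theorem sum_el_eq_zero {r : ℕ} {v : V} (hr : ∀ t, ∀ w ∈ RF ρ [11, 6], ρ (el r t) w ∈ RF ρ [11, 6])
    (h0 : RF ρ [11, 6, r] = ⊥) (hv : v ∈ RF ρ [11, 6]) : ∑ u : F, ρ (el r u) v = 0 := by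
  have hmem : ∑ u : F, ρ (el r u) v ∈ RF ρ [11, 6, r] := by
    rw [show [11, 6, r] = [11, 6] ++ [r] from rfl, RF_append]
    refine ⟨Submodule.sum_mem _ fun u _ => hr u v hv, ?_⟩
    rintro _ ⟨r', hr', s, rfl⟩
    rw [List.mem_singleton] at hr'
    subst hr'
    rw [map_sum]
    refine Fintype.sum_equiv (Equiv.addLeft s) _ _ fun u => ?_
    rw [Equiv.coe_addLeft, el_add, map_mul, Module.End.mul_apply]
  rwa [h0, Submodule.mem_bot] at hmem

theorem el10_stable (t : F) {w : V} (hw : w ∈ RF ρ [11, 6]) :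
    ρ (el 10 t) w ∈ RF ρ [11, 6] := by
  obtain ⟨κ, -, h⟩ := el_swap_one (F := F) (r := 10) (s := 6) (by decide) (by decide) (by decide)
    (by decide +kernel) data_10_6'
  rintro _ ⟨r, hr, u, rfl⟩
  simp only [List.mem_cons, List.not_mem_nil, or_false] at hr
  rcases hr with rfl | rfl
  · exact (comm_apply ρ (Or.inl (by decide +kernel)) t u w).trans
      (by rw [hw _ (el_mem_XS (by simp) _)])
  · rw [← Module.End.mul_apply, ← map_mul, h, map_mul, map_mul, Module.End.mul_apply,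
      Module.End.mul_apply, hw _ (el_mem_XS (by simp) _), hw _ (el_mem_XS (by simp) _)]

theorem el1_stable (t : F) {w : V} (hw : w ∈ RF ρ [11, 6]) :
    ρ (el 1 t) w ∈ RF ρ [11, 6] := by
  obtain ⟨κ, -, h⟩ := el_swap_one (F := F) (r := 1) (s := 11) (by decide) (by decide) (by decide)
    (by decide +kernel) data_1_11
  rintro _ ⟨r, hr, u, rfl⟩
  simp only [List.mem_cons, List.not_mem_nil, or_false] at hr
  rcases hr with rfl | rfl
  · rw [← Module.End.mul_apply, ← map_mul, h, map_mul, map_mul, Module.End.mul_apply,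
      Module.End.mul_apply, hw _ (el_mem_XS (by simp) _), hw _ (el_mem_XS (by simp) _)]
  · exact (comm_apply ρ (Or.inl (by decide +kernel)) t u w).trans
      (by rw [hw _ (el_mem_XS (by simp) _)])

/-- The sum over `Z X_b` kills the translates by the opposite elements. -/
theorem sumA_translate (h10 : RF ρ [11, 6, 10] = ⊥) (h1 : RF ρ [11, 6, 1] = ⊥) {t s : F}
    (hts : t ≠ 0 ∨ s ≠ 0) {v : V} (hv : v ∈ RF ρ [11, 6]) :
    sumA ρ (ρ (el 5 t * el 0 s) v) = 0 := by
  obtain ⟨κ, hκ, h06⟩ := el_swap_one (F := F) (r := 0) (s := 6) (by decide) (by decide) (by decide)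
    (by decide +kernel) data_0_6
  obtain ⟨μ, hμ, h511⟩ := el_swap_one (F := F) (r := 5) (s := 11) (by decide) (by decide) (by decide)
    (by decide +kernel) data_5_11
  obtain ⟨ν, hν, h15⟩ := el_swap_one (F := F) (r := 1) (s := 5) (by decide) (by decide) (by decide)
    (by decide +kernel) data_1_5
  obtain ⟨ξ, -, h111⟩ := el_swap_one (F := F) (r := 1) (s := 11) (by decide) (by decide) (by decide)
    (by decide +kernel) data_1_11
  by_cases ht : t = 0
  · have hs : s ≠ 0 := hts.resolve_left (fun h => h ht)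
    rw [sumA, LinearMap.sum_apply, Fintype.sum_prod_type]
    refine Finset.sum_eq_zero fun u _ => ?_
    have e : ∀ w : F, ρ (el 11 u * el 6 w) (ρ (el 5 t * el 0 s) v) =
        ρ (el 11 u * el 0 s) (ρ (el 1 (κ * (s * w))) v) := by
      intro w
      have hw : ρ (el 6 w) (ρ (el 1 (κ * (s * w))) v) = ρ (el 1 (κ * (s * w))) v :=
        el1_stable ρ _ hv _ (el_mem_XS (by simp) _)
      conv_rhs => rw [← hw]
      simp only [← Module.End.mul_apply, ← map_mul, ht, el_zero, one_mul, mul_assoc]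
      congr 3
      rw [h06]
      simp only [mul_assoc]
    rw [Finset.sum_congr rfl fun w _ => e w, ← map_sum,
      Fintype.sum_equiv (Equiv.mulLeft₀ (κ * s) (mul_ne_zero hκ hs))
        (fun w => ρ (el 1 (κ * (s * w))) v) (fun x => ρ (el 1 x) v) (fun w => by simp [mul_assoc]),
      sum_el_eq_zero ρ (fun t _ hw => el1_stable ρ t hw) h1 hv, map_zero]
  · set r := s / (ν * t) with hr
    have hw := el1_stable ρ r hv
    have e1 : el 5 t * el 0 s = (el 1 r)⁻¹ * el 5 t * el 1 r := by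
      rw [mul_assoc, h15, ← mul_assoc, ← mul_assoc, inv_mul_cancel, one_mul, hr]
      congr 2
      field_simp
    have e5 : ∀ u : F, ∀ x ∈ RF ρ [11, 6], ∑ a : F, ρ (el 6 u * el 11 a) (ρ (el 5 t) x) = 0 := by
      intro u x hx
      have e : ∀ a : F, ρ (el 6 u * el 11 a) (ρ (el 5 t) x) =
          ρ (el 6 u * el 5 t) (ρ (el 10 (μ * (t * a))) x) := by
        intro a
        have hx' : ρ (el 11 a) (ρ (el 10 (μ * (t * a))) x) = ρ (el 10 (μ * (t * a))) x :=
          el10_stable ρ _ hx _ (el_mem_XS (by simp) _)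
        conv_rhs => rw [← hx']
        simp only [← Module.End.mul_apply, ← map_mul, mul_assoc]
        congr 3
        rw [h511, mul_assoc]
      rw [Finset.sum_congr rfl fun a _ => e a, ← map_sum,
        Fintype.sum_equiv (Equiv.mulLeft₀ (μ * t) (mul_ne_zero hμ ht))
          (fun a => ρ (el 10 (μ * (t * a))) x) (fun y => ρ (el 10 y) x) (fun a => by simp [mul_assoc]),
        sum_el_eq_zero ρ (fun t _ hw => el10_stable ρ t hw) h10 hx, map_zero]
    have hzero : sumA ρ (ρ (el 5 t) (ρ (el 1 r) v)) = 0 := by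
      rw [sumA, LinearMap.sum_apply, Fintype.sum_prod_type, Finset.sum_comm]
      refine Finset.sum_eq_zero fun u _ => ?_
      rw [Finset.sum_congr rfl fun a _ => by
        rw [← (el_comm (r := 11) (s := 6) (by decide +kernel) a u).eq]]
      exact e5 u _ hw
    rw [e1, mul_assoc, map_mul, map_mul, Module.End.mul_apply, Module.End.mul_apply]
    set y := ρ (el 5 t) (ρ (el 1 r) v)
    have hcomm : sumA ρ (ρ (el 1 r)⁻¹ y) = ρ (el 1 r)⁻¹ (sumA ρ y) := by
      simp only [sumA, LinearMap.sum_apply, map_sum]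
      refine Fintype.sum_equiv (Equiv.prodShear (Equiv.refl F)
        fun u => Equiv.addRight (ξ * (-r * u))) _ _ fun x => ?_
      show ρ (el 11 x.1 * el 6 x.2) (ρ (el 1 r)⁻¹ y) =
        ρ (el 1 r)⁻¹ (ρ (el 11 x.1 * el 6 (x.2 + ξ * (-r * x.1))) y)
      simp only [← Module.End.mul_apply, ← map_mul]
      congr 2
      rw [el_inv, mul_assoc, (el_comm (r := 1) (s := 6) (by decide +kernel) (-r) x.2).eq, ← mul_assoc,
        h111, mul_assoc, mul_assoc, ← el_add, add_comm x.2]
    rw [hcomm, hzero, map_zero]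

variable {ρ} in
theorem Small.RF_11_6_10 (hψ : ψ ≠ 1) (h : Small ρ ψ) :
    finrank ℂ (RF ρ [11, 6, 10]) = nu ρ ψ 0 := by
  rw [show [11, 6, 10] = [11] ++ ([0, 3] : List (Fin 4)).map Q4 from rfl,
    finrank_RF_eq ρ hψ (fam_Q4 ρ), Finset.sum_eq_single (0 : Fin 4 → F)]
  · intro a ha hne
    by_contra hn
    have h' := (Finset.mem_filter.1 ha).2
    exact (h.support a hne hn (h' 0 (by simp))).2.2 (h' 3 (by simp))
  · intro hn
    exact absurd (Finset.mem_filter.2 ⟨Finset.mem_univ _, fun i _ => rfl⟩) hn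

theorem RF_11_6_1 (h : RF ρ [11, 6, 10] = ⊥) : RF ρ [11, 6, 1] = ⊥ := by
  have e := finrank_RF_weyl ρ (wa ++ wb ++ wa) [11, 6, 10] [6, 11, 1] (by decide) (by decide +kernel)
  rw [h, finrank_bot, RF_congr ρ (L := [6, 11, 1]) (M := [11, 6, 1])
    (fun r => by simp; tauto)] at e
  exact Submodule.finrank_eq_zero.1 e.symm

/-- The central element of the long root `SL₃` fixes the long root elements. -/
theorem omega_long (ζ : Fˣ) (hζ : ζ ^ 3 = 1) {r : ℕ} (hr : r ∈ [11, 10, 6, 5, 1, 0]) (u : F) :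
    Commute (tor ζ 1) (el r u) := by
  have hlt : ∀ r ∈ [11, 10, 6, 5, 1, 0], r < 12 ∧ (ca r = 3 ∨ ca r = 0 ∨ ca r = -3) := by decide
  obtain ⟨h12, hca⟩ := hlt r hr
  have e := tor_conj ζ 1 h12 u
  have : rv ζ 1 r = 1 := by
    rcases hca with h | h | h <;> simp [rv, h, hζ, zpow_ofNat, _root_.zpow_neg]
  rw [this, Units.val_one, one_mul, mul_inv_eq_iff_eq_mul] at e
  exact e

theorem spec_A2_shift {W : Submodule ℂ V} (hW : Fam ρ W (fam ![11, 6]))
    (h10 : ∀ u, ∀ w ∈ W, ρ (el 10 u) w ∈ W) (h1 : ∀ u, ∀ w ∈ W, ρ (el 1 u) w ∈ W)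
    (a b : Fin 2 → F) (ha : a ≠ 0) (hb : b ≠ 0) :
    mu ψ ρ W (fam ![11, 6]) a ≤ mu ψ ρ W (fam ![11, 6]) b := by
  obtain ⟨κ, hκ, h610⟩ := el_swap_one (F := F) (r := 10) (s := 6) (by decide) (by decide) (by decide)
    (by decide +kernel) data_10_6'
  obtain ⟨ξ, hξ, h111⟩ := el_swap_one (F := F) (r := 1) (s := 11) (by decide) (by decide) (by decide)
    (by decide +kernel) data_1_11
  have feq : ∀ y : Fin 2 → F, fam ![11, 6] y = el 11 (y 0) * el 6 (y 1) := fun y => by
    simp [fam, List.ofFn_succ]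
  have s10 : ∀ (u : F) (a : Fin 2 → F),
      mu ψ ρ W (fam ![11, 6]) a ≤ mu ψ ρ W (fam ![11, 6]) ![a 0, a 1 + κ * u * a 0] := by
    intro u a
    refine mu_le_single ρ (g := el 10 u) hW (h10 u) fun i t => ?_
    fin_cases i
    · refine ⟨![t, 0], fun w _ => ?_, by rw [pair, Fin.sum_univ_two]; simp⟩
      congr 2
      show (el 10 u)⁻¹ * el 11 t * el 10 u = _
      rw [feq, mul_assoc, (el_comm (r := 10) (s := 11) (by decide +kernel) u t).eq]
      simp
    · refine ⟨![κ * (u * t), t], fun w _ => ?_, ?_⟩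
      · congr 2
        show (el 10 u)⁻¹ * el 6 t * el 10 u = _
        rw [feq, mul_assoc, h610, ← mul_assoc, ← mul_assoc, inv_mul_cancel, one_mul]
        exact (el_comm (r := 6) (s := 11) (by decide +kernel) t (κ * (u * t))).eq.symm
      · rw [pair, Fin.sum_univ_two]; congr 1; simp; ring
  have s1 : ∀ (u : F) (a : Fin 2 → F),
      mu ψ ρ W (fam ![11, 6]) a ≤ mu ψ ρ W (fam ![11, 6]) ![a 0 + ξ * u * a 1, a 1] := by
    intro u a
    refine mu_le_single ρ (g := el 1 u) hW (h1 u) fun i t => ?_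
    fin_cases i
    · refine ⟨![t, ξ * (u * t)], fun w _ => ?_, ?_⟩
      · congr 2
        show (el 1 u)⁻¹ * el 11 t * el 1 u = _
        rw [feq, mul_assoc, h111, ← mul_assoc, ← mul_assoc, inv_mul_cancel, one_mul]
        rfl
      · rw [pair, Fin.sum_univ_two]; congr 1; simp; ring
    · refine ⟨![0, t], fun w _ => ?_, by rw [pair, Fin.sum_univ_two]; simp⟩
      congr 2
      show (el 1 u)⁻¹ * el 6 t * el 1 u = _
      rw [feq, mul_assoc, (el_comm (r := 1) (s := 6) (by decide +kernel) u t).eq]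
      simp
  -- everything goes to `(1, 0)` and back
  have toOne : ∀ a : Fin 2 → F, a ≠ 0 → ∀ b : Fin 2 → F, b 0 ≠ 0 →
      mu ψ ρ W (fam ![11, 6]) a ≤ mu ψ ρ W (fam ![11, 6]) b := by
    intro a ha b hb0
    have via : ∀ a : Fin 2 → F, a 1 ≠ 0 →
        mu ψ ρ W (fam ![11, 6]) a ≤ mu ψ ρ W (fam ![11, 6]) b := by
      intro a ha1
      refine (s1 ((b 0 - a 0) / (ξ * a 1)) a).trans ((s10 ((b 1 - a 1) / (κ * b 0)) _).trans_eq
        (congrArg _ ?_))
      funext i
      fin_cases i <;> simp <;> field_simp <;> ring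
    by_cases h : a 1 = 0
    · have ha0 : a 0 ≠ 0 := fun h0 => ha (by funext i; fin_cases i <;> assumption)
      refine (s10 (κ * a 0)⁻¹ a).trans (via _ ?_)
      simp [h, ha0, hκ]
    · exact via a h
  by_cases h0 : b 0 = 0
  · have hb1 : b 1 ≠ 0 := fun h => hb (by funext i; fin_cases i <;> assumption)
    refine (toOne a ha ![1, b 1] (by simp)).trans ((s1 (-1 / (ξ * b 1)) _).trans_eq (congrArg _ ?_))
    funext i
    fin_cases i <;> simp [h0]
    field_simp
    ring
  · exact toOne a ha b h0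

/-- The small case without vectors fixed by `Q` does not occur. -/
theorem Small.not_cuspidal (hψ : ψ ≠ 1) (h : Small ρ ψ) (h0 : nu ρ ψ 0 = 0)
    (hq : 2 ≤ Fintype.card F) (ζ : Fˣ) (hζ : ζ ^ 3 = 1) (hζ1 : ζ ≠ 1) :
    Fintype.card F ^ 3 < finrank ℂ V := by
  classical
  have h10 : RF ρ [11, 6, 10] = ⊥ := Submodule.finrank_eq_zero.1 ((h.RF_11_6_10 hψ).trans h0)
  have h1 := RF_11_6_1 ρ h10
  set ω : Module.End ℂ V := ρ (tor ζ 1) with hω
  have hωc : ∀ r ∈ [11, 10, 6, 5, 1, 0], ∀ (u : F) (x : V), ω (ρ (el r u) x) = ρ (el r u) (ω x) := by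
    intro r hr u x
    rw [hω, ← Module.End.mul_apply, ← Module.End.mul_apply, ← map_mul, ← map_mul,
      (omega_long ζ hζ hr u).eq]
  have hω3 : ∀ x, ω (ω (ω x)) = x := by
    intro x
    rw [hω, ← Module.End.mul_apply, ← Module.End.mul_apply, ← map_mul, ← map_mul, tor_mul, tor_mul]
    rw [show ζ * ζ * ζ = ζ ^ 3 by rw [pow_three, mul_assoc], hζ, mul_one, mul_one,
      show (tor (1 : Fˣ) 1) = 1 from by
        have e := tor_mul (1 : Fˣ) 1 1 1
        rw [mul_one] at e
        exact mul_eq_left.1 e,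
      map_one, Module.End.one_apply]
  -- the eigenvalue on the fixed space of `Z X_b`
  let sp : F → Submodule ℂ V := fun c => spec ψ ρ (RF ρ [11]) (fam Q4) ![0, 0, 0, c]
  have hsp1 : finrank ℂ (sp 1) = 1 := h.one 1 one_ne_zero
  have hωsp : ∀ x ∈ sp 1, ω x ∈ sp 1 := by
    intro x hx
    refine ⟨RF11_tor ρ ζ 1 x hx.1, fun y => ?_⟩
    have hfix : scal Q4 ζ 1 (![0, 0, 0, (1 : F)]) = ![0, 0, 0, 1] := by
      funext i
      fin_cases i <;> simp [scal_Q4, ← Units.val_pow_eq_pow_val, hζ]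
    have hle : (spec ψ ρ (RF ρ [11]) (fam Q4) ![0, 0, 0, (1 : F)]).map (ρEquiv ρ (tor ζ 1) : V →ₗ[ℂ] V)
        ≤ spec ψ ρ (RF ρ [11]) (fam Q4) ![0, 0, 0, (1 : F)] := by
      have hd : ∀ z ∈ spec ψ ρ (RF ρ [11]) (fam Q4) ![0, 0, 0, (1 : F)], ∀ i t,
          ρ (el (Q4 i) t) (ρ (tor ζ 1) z) =
            pair ψ ![0, 0, 0, (1 : F)] (Pi.single i t) • ρ (tor ζ 1) z := by
        intro z hz i t
        have e : ρ (el (Q4 i) t) (ρ (tor ζ 1) z) = ρ (tor ζ 1) (ρ ((tor ζ 1)⁻¹ * el (Q4 i) t * tor ζ 1) z) := by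
          rw [conj_apply, ρ_apply_inv]
        rw [e, tor_inv_conj ζ 1 (Q4_lt i), ← fam_single Q4, hz.2, map_smul, pair_single, pair_single]
        congr 2
        fin_cases i <;> simp [rv, ca, cb, zpow_ofNat, hζ]
      rintro _ ⟨z, hz, rfl⟩
      refine ⟨RF11_tor ρ ζ 1 z hz.1, fun y => ?_⟩
      have hP : ∀ y : Fin 4 → F, ρ (fam Q4 y) (ρ (tor ζ 1) z) =
          pair ψ ![0, 0, 0, (1 : F)] y • ρ (tor ζ 1) z := by
        intro y
        rw [← Finset.univ_sum_single y]
        refine Finset.sum_induction _ (fun y => ρ (fam Q4 y) (ρ (tor ζ 1) z) =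
          pair ψ ![0, 0, 0, (1 : F)] y • ρ (tor ζ 1) z) ?_ ?_ ?_
        · intro a b ha hb
          rw [(fam_Q4 ρ).add a b _ (RF11_tor ρ ζ 1 z hz.1), hb, map_smul, ha, smul_smul,
            pair_add_right, mul_comm]
        · rw [fam_zero, map_one, Module.End.one_apply, pair_comm, pair_zero_left, one_smul]
        · intro i _
          rw [fam_single]
          exact hd z hz i _
      exact hP y
    exact (hle ⟨x, hx, rfl⟩).2 y
  obtain ⟨v₁, hv₁, hv₁0, θ, hθ⟩ : ∃ v₁ ∈ sp 1, v₁ ≠ 0 ∧ ∃ θ : ℂ, ω v₁ = θ • v₁ := by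
    obtain ⟨v, hv0, hspan⟩ := finrank_eq_one_iff'.1 hsp1
    obtain ⟨θ, hθ⟩ := hspan ⟨ω v, hωsp v v.2⟩
    exact ⟨v, v.2, fun e => hv0 (Subtype.ext e), θ, (congrArg Subtype.val hθ).symm⟩
  set E := Module.End.eigenspace ω θ with hE
  have hθ3 : θ ^ 3 = 1 := by
    have e := hω3 v₁
    rw [hθ, map_smul, map_smul, hθ, map_smul, hθ, smul_smul, smul_smul] at e
    have e' : (θ * θ * θ - 1) • v₁ = 0 := by rw [sub_smul, one_smul, e, sub_self]
    rw [pow_three', ← sub_eq_zero]
    exact (smul_eq_zero.1 e').resolve_right hv₁0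
  have hAE : RF ρ [11, 6] ≤ E := by
    intro x hx
    rw [show [11, 6] = [11] ++ [6] from rfl, RF_append] at hx
    refine mem_of_spec ρ hψ (fam_Q4 ρ) {0} (X := E) (fun a ha => ?_) hx.1 ?_
    · intro z hz
      by_cases hz0 : z = 0
      · subst hz0; exact Submodule.zero_mem _
      by_cases hna : nu ρ ψ a = 0
      · exact absurd ((Submodule.mem_bot ℂ).1
          ((Submodule.finrank_eq_zero.1 hna) ▸ hz)) hz0
      have hne : a ≠ 0 := fun e => hna (e ▸ h0)
      obtain ⟨ha1, ha2, ha3⟩ := h.support a hne hna (ha 0 (by simp))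
      -- move to the character `(0,0,0,1)`
      set c : Fˣ := (Units.mk0 _ ha3)⁻¹ with hc
      have hy : ρ (tor 1 c)⁻¹ z = ρ (tor 1 c⁻¹) z := by
        rw [inv_eq_of_mul_eq_one_right (a := tor (1 : Fˣ) c) (b := tor 1 c⁻¹)]
        rw [tor_mul, mul_one, mul_inv_cancel]
        have e := tor_mul (1 : Fˣ) 1 1 1
        rw [mul_one] at e
        exact mul_eq_left.1 e
      have hy1 : ρ (tor 1 c⁻¹) z ∈ sp 1 := by
        refine ⟨RF11_tor ρ 1 c⁻¹ z hz.1, fun x => ?_⟩
        have e : ρ (fam Q4 x) (ρ (tor 1 c⁻¹) z) =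
            ρ (tor 1 c⁻¹) (ρ ((tor 1 c⁻¹)⁻¹ * fam Q4 x * tor 1 c⁻¹) z) := by
          rw [conj_apply, ρ_apply_inv]
        have hfam : (tor 1 c⁻¹)⁻¹ * fam Q4 x * tor 1 c⁻¹ = fam Q4 fun i => (c : F) * x i := by
          have h' : ∀ i, (tor 1 c⁻¹)⁻¹ * el (Q4 i) (x i) * tor 1 c⁻¹ = el (Q4 i) ((c : F) * x i) := by
            intro i
            rw [tor_inv_conj _ _ (Q4_lt i)]
            fin_cases i <;> simp [rv, ca, cb]
          have e0 := h' 0
          have e1 := h' 1
          have e2 := h' 2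
          have e3 := h' 3
          simp only [Q4, Matrix.cons_val] at e0 e1 e2 e3
          rw [fam_Q4_eq, fam_Q4_eq, ← e0, ← e1, ← e2, ← e3]
          group
        rw [e, hfam, hz.2, map_smul]
        congr 1
        simp [pair, Fin.sum_univ_four, ha 0 (by simp), ha1, ha2, hc, mul_inv_cancel_left₀ ha3]
      obtain ⟨d, hd⟩ := (finrank_eq_one_iff_of_nonzero' (⟨v₁, hv₁⟩ : sp 1)
        (fun e => hv₁0 (congrArg Subtype.val e))).1 hsp1 ⟨_, hy1⟩
      have hd' : d • v₁ = ρ (tor 1 c⁻¹) z := congrArg Subtype.val hd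
      have hz' : z = d • ρ (tor 1 c) v₁ := by
        rw [← map_smul, hd', ← hy, ρ_apply_inv]
      rw [hz']
      refine Submodule.smul_mem _ _ (Module.End.mem_eigenspace_iff.2 ?_)
      rw [hω, ← Module.End.mul_apply, ← map_mul, tor_mul, mul_comm ζ, mul_comm (1 : Fˣ) c,
        ← tor_mul, map_mul, Module.End.mul_apply, ← hω, hθ, map_smul]
    · intro i hi t
      rw [Finset.mem_singleton.1 hi, fam_single]
      exact hx.2 _ (el_mem_XS (by simp [Q4]) _)
  -- translates
  have hEst : ∀ r ∈ [11, 10, 6, 5, 1, 0], ∀ (u : F), ∀ x ∈ E, ρ (el r u) x ∈ E := by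
    intro r hr u x hx
    rw [hE, Module.End.mem_eigenspace_iff] at hx ⊢
    rw [hωc r hr u x, hx, map_smul]
  let Φ : ((F × F) → RF ρ [11, 6]) →ₗ[ℂ] E :=
    { toFun := fun f => ⟨∑ g : F × F, ρ (el 5 g.1 * el 0 g.2) (f g), Submodule.sum_mem _ fun g _ => by
        rw [map_mul, Module.End.mul_apply]
        exact hEst 5 (by simp) _ _ (hEst 0 (by simp) _ _ (hAE (f g).2))⟩
      map_add' := fun f f' => Subtype.ext (by simp [Finset.sum_add_distrib])
      map_smul' := fun d f => Subtype.ext (by simp [Finset.smul_sum]) }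
  have hΦ : Function.Injective Φ := by
    rw [← LinearMap.ker_eq_bot, LinearMap.ker_eq_bot']
    intro f hf
    funext g₀
    have hsum : ∑ g : F × F, ρ (el 5 g.1 * el 0 g.2) (f g : V) = 0 := congrArg Subtype.val hf
    have e := congrArg (fun x => sumA ρ (ρ (el 5 g₀.1 * el 0 g₀.2)⁻¹ x)) hsum
    simp only [map_sum, map_zero] at e
    rw [Finset.sum_eq_single g₀] at e
    · rw [ρ_inv_apply, sumA_fix ρ (f g₀).2] at e
      exact Subtype.ext ((smul_eq_zero.1 e).resolve_left (Nat.cast_ne_zero.2 Fintype.card_ne_zero))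
    · intro g _ hg
      have hmul : (el 5 g₀.1 * el 0 g₀.2)⁻¹ * (el 5 g.1 * el 0 g.2) =
          el 5 (g.1 - g₀.1) * el 0 (g.2 - g₀.2) := by
        have hc50 : Commute (el 5 (g.1 - g₀.1)) (el 0 g₀.2) :=
          el_comm (r := 0) (s := 5) (by decide +kernel) _ _
        rw [inv_mul_eq_iff_eq_mul, mul_assoc, ← mul_assoc (el 0 g₀.2), ← hc50.eq, mul_assoc,
          ← el_add, ← mul_assoc, ← el_add, add_sub_cancel, add_sub_cancel]
      rw [← Module.End.mul_apply (ρ _) (ρ _), ← map_mul, hmul]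
      refine sumA_translate ρ h10 h1 ?_ (f g).2
      by_contra hcon
      push Not at hcon
      exact hg (Prod.ext (sub_eq_zero.1 hcon.1) (sub_eq_zero.1 hcon.2))
    · simp
  have hdimA : finrank ℂ (RF ρ [11, 6]) = Fintype.card F - 1 := by
    have hset : ∑ a ∈ Finset.univ.filter (fun a : Fin 4 → F => ∀ i ∈ ([0] : List (Fin 4)), a i = 0),
        nu ρ ψ a = ∑ a ∈ (Finset.univ.erase (0 : F)).image (fun c => ![0, 0, 0, c]), nu ρ ψ a := by
      refine (Finset.sum_subset (fun a ha => ?_) fun a ha hna => ?_).symm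
      · obtain ⟨c, hc, rfl⟩ := Finset.mem_image.1 ha
        simp
      · by_contra hne
        have hne0 : a ≠ 0 := fun e => hne (e ▸ h0)
        obtain ⟨a1, a2, a3⟩ := h.support a hne0 hne ((Finset.mem_filter.1 ha).2 0 (by simp))
        refine hna (Finset.mem_image.2 ⟨a 3, Finset.mem_erase.2 ⟨a3, Finset.mem_univ _⟩, ?_⟩)
        have a0 := (Finset.mem_filter.1 ha).2 0 (by simp)
        funext i
        fin_cases i <;> simp [a0, a1, a2]
    rw [show [11, 6] = [11] ++ ([0] : List (Fin 4)).map Q4 from rfl,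
      finrank_RF_eq ρ hψ (fam_Q4 ρ), hset,
      Finset.sum_image (fun x _ y _ e => by simpa using congrFun e 3),
      Finset.sum_congr rfl fun c hc => h.one c (Finset.mem_erase.1 hc).1, Finset.sum_const,
      Finset.card_erase_of_mem (Finset.mem_univ _), Finset.card_univ, smul_eq_mul, mul_one]
  have hEdim : Fintype.card F ^ 2 * (Fintype.card F - 1) ≤ finrank ℂ E := by
    have := LinearMap.finrank_le_finrank_of_injective hΦ
    rwa [Module.finrank_pi_fintype, Finset.sum_const, Finset.card_univ, Fintype.card_prod, hdimA,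
      smul_eq_mul, ← sq] at this
  -- the other eigenvalues
  obtain ⟨η, hη⟩ : ∃ η : ℂ, IsPrimitiveRoot η 3 :=
    ⟨_, Complex.isPrimitiveRoot_exp 3 (by norm_num)⟩
  have hη1 : η ≠ 1 := hη.ne_one (by norm_num)
  have hη3 : η ^ 3 = 1 := hη.pow_eq_one
  have hη2 : η ^ 2 ≠ 1 := hη.pow_ne_one_of_pos_of_lt two_ne_zero (by norm_num)
  have hθ0 : θ ≠ 0 := fun e => by rw [e] at hθ3; simp at hθ3
  have hother : ∀ μ : ℂ, μ ^ 3 = 1 → μ ≠ θ →
      Fintype.card F ^ 2 - 1 ≤ finrank ℂ (Module.End.eigenspace ω μ) := by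
    intro μ hμ3 hμθ
    set X := Module.End.eigenspace ω μ with hX
    have hXst : ∀ r ∈ [11, 10, 6, 5, 1, 0], ∀ (u : F), ∀ x ∈ X, ρ (el r u) x ∈ X := by
      intro r hr u x hx
      rw [hX, Module.End.mem_eigenspace_iff] at hx ⊢
      rw [hωc r hr u x, hx, map_smul]
    have hfam : Fam ρ X (fam (F := F) ![11, 6]) := by
      refine fam_isFam ρ (fun i t => hXst _ (by fin_cases i <;> simp) t) fun i j s t w _ => ?_
      fin_cases i <;> fin_cases j <;> exact comm_apply ρ (by decide +kernel) t s w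
    have hz : mu ψ ρ X (fam ![11, 6]) (0 : Fin 2 → F) = 0 := by
      rw [mu, Submodule.finrank_eq_zero, Submodule.eq_bot_iff]
      intro z hz
      have hzA : z ∈ RF ρ [11, 6] := by
        rintro _ ⟨r, hr, u, rfl⟩
        simp only [List.mem_cons, List.not_mem_nil, or_false] at hr
        rcases hr with rfl | rfl
        · simpa [fam_single, pair_single] using hz.2 (Pi.single 0 u)
        · simpa [fam_single, pair_single] using hz.2 (Pi.single 1 u)
      have e1 := Module.End.mem_eigenspace_iff.1 (hAE hzA)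
      rw [Module.End.mem_eigenspace_iff.1 hz.1] at e1
      have : (μ - θ) • z = 0 := by rw [sub_smul, e1, sub_self]
      exact (smul_eq_zero.1 this).resolve_left (sub_ne_zero.2 hμθ)
    have hX0 : X ≠ ⊥ := by
      obtain ⟨a, ha, ha2⟩ := h.other
      obtain ⟨w, hw, hw0⟩ := Submodule.exists_mem_ne_zero_of_ne_bot
        (fun e => ha (Submodule.finrank_eq_zero.2 e) : spec ψ ρ (RF ρ [11]) (fam Q4) a ≠ ⊥)
      set z := w + μ⁻¹ • ω w + (μ⁻¹ * μ⁻¹) • ω (ω w) with hzdef
      have hμ0 : μ ≠ 0 := fun e => by rw [e] at hμ3; simp at hμ3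
      have hzX : z ∈ X := by
        rw [hX, Module.End.mem_eigenspace_iff, hzdef]
        simp only [map_add, map_smul, hω3, smul_add, smul_smul]
        have e1 : μ⁻¹ * μ⁻¹ = μ := by
          field_simp
          linear_combination -hμ3
        rw [mul_inv_cancel₀ hμ0, one_smul, ← mul_assoc, mul_inv_cancel₀ hμ0, one_mul, e1]
        abel
      refine fun e => ?_
      rw [e, Submodule.mem_bot] at hzX
      -- three distinct characters
      let sc : (Fin 4 → F) → Fin 4 → F := fun b i =>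
        (((rv ζ 1 (Q4 i))⁻¹ : Fˣ) : F) * b i
      have hmove : ∀ (b : Fin 4 → F) (x : V), x ∈ spec ψ ρ (RF ρ [11]) (fam Q4) b →
          ω x ∈ spec ψ ρ (RF ρ [11]) (fam Q4) (sc b) := by
        intro b x hx
        have hP : ∀ y : Fin 4 → F, ρ (fam Q4 y) (ω x) = pair ψ (sc b) y • ω x := by
          intro y
          rw [← Finset.univ_sum_single y]
          refine Finset.sum_induction _ (fun y => ρ (fam Q4 y) (ω x) = pair ψ (sc b) y • ω x) ?_ ?_ ?_
          · intro p r hp hr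
            rw [(fam_Q4 ρ).add p r _ (RF11_tor ρ ζ 1 x hx.1), hr, map_smul, hp, smul_smul,
              pair_add_right, mul_comm]
          · rw [fam_zero, map_one, Module.End.one_apply, pair_comm, pair_zero_left, one_smul]
          · intro i _
            rw [fam_single]
            have e : ρ (el (Q4 i) (y i)) (ρ (tor ζ 1) x) =
                ρ (tor ζ 1) (ρ ((tor ζ 1)⁻¹ * el (Q4 i) (y i) * tor ζ 1) x) := by
              rw [conj_apply, ρ_apply_inv]
            rw [hω, e, tor_inv_conj ζ 1 (Q4_lt i), ← fam_single Q4, hx.2, map_smul, pair_single,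
              pair_single]
            congr 2
            simp only [sc]
            ring
        exact ⟨RF11_tor ρ ζ 1 x hx.1, hP⟩
      let A3f : Fin 3 → Fin 4 → F := ![a, sc a, sc (sc a)]
      have hinjA : Function.Injective A3f := by
        set z2 : F := ((((ζ ^ 2)⁻¹ : Fˣ)) : F) with hz2
        have hs2 : ∀ b : Fin 4 → F, sc b 2 = z2 * b 2 := fun b => by
          simp [sc, hz2, rv, ca, cb, zpow_ofNat]
        have hz2ne : z2 ≠ 1 := fun e => by
          rw [hz2, Units.val_eq_one, inv_eq_one] at e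
          exact hζ1 (by rw [← hζ, pow_succ', e, mul_one])
        have hz22 : z2 * z2 ≠ 1 := fun e => by
          rw [hz2, ← Units.val_mul, Units.val_eq_one, ← mul_inv, inv_eq_one, ← pow_add] at e
          exact hζ1 (by rw [← e, show 2 + 2 = 3 + 1 by rfl, pow_add, hζ, one_mul, pow_one])
        have hz20 : z2 ≠ 0 := Units.ne_zero _
        have k1 : z2 * a 2 ≠ a 2 := fun h =>
          hz2ne ((mul_left_eq_self₀.1 h).resolve_right ha2)
        have k2 : z2 * (z2 * a 2) ≠ a 2 := fun h =>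
          hz22 ((mul_left_eq_self₀.1 ((mul_assoc _ _ _).trans h)).resolve_right ha2)
        have k3 : z2 * (z2 * a 2) ≠ z2 * a 2 := fun h => k1 (mul_left_cancel₀ hz20 h)
        intro i j hij
        have e := congrFun hij 2
        fin_cases i <;> fin_cases j <;> try rfl
        all_goals
          simp only [A3f, Matrix.cons_val, Fin.zero_eta, Fin.mk_one, Fin.reduceFinMk, hs2] at e
          first
            | exact absurd e k1
            | exact absurd e.symm k1
            | exact absurd e k2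
            | exact absurd e.symm k2
            | exact absurd e k3
            | exact absurd e.symm k3
      let vs : Fin 3 → V := ![w, μ⁻¹ • ω w, (μ⁻¹ * μ⁻¹) • ω (ω w)]
      refine hw0 (spec_indep ρ hψ (fam_Q4 ρ) A3f hinjA vs (fun i => ?_) ?_ 0)
      · fin_cases i
        · exact hw
        · exact Submodule.smul_mem _ _ (hmove a w hw)
        · exact Submodule.smul_mem _ _ (hmove _ _ (hmove a w hw))
      · rw [Fin.sum_univ_three]
        exact hzX
    have htot := finrank_fam ρ hψ hfam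
    obtain ⟨a, -, ha⟩ : ∃ a ∈ Finset.univ, mu ψ ρ X (fam ![11, 6]) a ≠ 0 := by
      refine Finset.exists_ne_zero_of_sum_ne_zero (htot ▸ fun e => hX0 (Submodule.finrank_eq_zero.1 e))
    have ha0 : a ≠ 0 := fun e => ha (e ▸ hz)
    rw [htot]
    calc Fintype.card F ^ 2 - 1 = (Finset.univ.erase (0 : Fin 2 → F)).card := by
          simp [Finset.card_erase_of_mem]
      _ = ∑ _b ∈ Finset.univ.erase (0 : Fin 2 → F), 1 := Finset.card_eq_sum_ones _
      _ ≤ ∑ b ∈ Finset.univ.erase (0 : Fin 2 → F), mu ψ ρ X (fam ![11, 6]) b :=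
          Finset.sum_le_sum fun b hb => le_trans (Nat.one_le_iff_ne_zero.2 ha)
            (spec_A2_shift ρ hfam (hXst 10 (by simp)) (hXst 1 (by simp)) a b ha0
              (Finset.mem_erase.1 hb).1)
      _ ≤ _ := Finset.sum_le_sum_of_subset (Finset.subset_univ _)
  set μ₁ := θ * η with hμ₁
  set μ₂ := θ * η ^ 2 with hμ₂
  have d1 : μ₁ ≠ θ := fun e => hη1 (mul_left_cancel₀ hθ0 (e.trans (mul_one θ).symm))
  have d2 : μ₂ ≠ θ := fun e => hη2 (mul_left_cancel₀ hθ0 (e.trans (mul_one θ).symm))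
  have d3 : μ₂ ≠ μ₁ := fun e => by
    have e' := mul_left_cancel₀ hθ0 e
    rw [sq] at e'
    exact hη1 (mul_left_cancel₀ (hη.ne_zero (by norm_num)) (e'.trans (mul_one η).symm))
  have b1 := hother μ₁ (by rw [hμ₁, mul_pow, hθ3, hη3, one_mul]) d1
  have b2 := hother μ₂ (by rw [hμ₂, mul_pow, hθ3, ← pow_mul, show 2 * 3 = 3 * 2 by rfl, pow_mul,
    hη3, one_pow, one_mul]) d2
  have i1 : E ⊓ Module.End.eigenspace ω μ₁ = ⊥ := by
    rw [Submodule.eq_bot_iff]
    intro x hx
    rw [hE] at hx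
    have e1 := Module.End.mem_eigenspace_iff.1 hx.1
    rw [Module.End.mem_eigenspace_iff.1 hx.2] at e1
    have : (μ₁ - θ) • x = 0 := by rw [sub_smul, e1, sub_self]
    exact (smul_eq_zero.1 this).resolve_left (sub_ne_zero.2 d1)
  have i2 : (E ⊔ Module.End.eigenspace ω μ₁) ⊓ Module.End.eigenspace ω μ₂ = ⊥ := by
    rw [Submodule.eq_bot_iff]
    rintro x ⟨hx1, hx2⟩
    obtain ⟨a, ha, b, hb, rfl⟩ := Submodule.mem_sup.1 hx1
    have e := Module.End.mem_eigenspace_iff.1 hx2
    rw [map_add, Module.End.mem_eigenspace_iff.1 hb,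
      Module.End.mem_eigenspace_iff.1 (hE ▸ ha), smul_add] at e
    have hab : (θ - μ₂) • a = (μ₂ - μ₁) • b := by
      rw [sub_smul, sub_smul, sub_eq_sub_iff_add_eq_add, e, add_comm]
    have hmem : (θ - μ₂) • a ∈ E ⊓ Module.End.eigenspace ω μ₁ :=
      ⟨Submodule.smul_mem _ _ ha, hab ▸ Submodule.smul_mem _ _ hb⟩
    rw [i1, Submodule.mem_bot] at hmem
    rw [(smul_eq_zero.1 hmem).resolve_left (sub_ne_zero.2 d2.symm),
      (smul_eq_zero.1 (hab.symm.trans hmem)).resolve_left (sub_ne_zero.2 d3), add_zero]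
  have t1 := Submodule.finrank_sup_add_finrank_inf_eq E (Module.End.eigenspace ω μ₁)
  have t2 := Submodule.finrank_sup_add_finrank_inf_eq (E ⊔ Module.End.eigenspace ω μ₁)
    (Module.End.eigenspace ω μ₂)
  rw [i1, finrank_bot, add_zero] at t1
  rw [i2, finrank_bot, add_zero] at t2
  have t3 := Submodule.finrank_le (E ⊔ Module.End.eigenspace ω μ₁ ⊔ Module.End.eigenspace ω μ₂)
  set q := Fintype.card F
  obtain ⟨r, hr⟩ : ∃ r, q = r + 2 := ⟨q - 2, by omega⟩
  have e1 : q ^ 2 * (q - 1) + (q ^ 2 - 1) + (q ^ 2 - 1) > q ^ 3 := by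
    rw [hr, show r + 2 - 1 = r + 1 by omega]
    obtain ⟨s, hs⟩ : ∃ s, (r + 2) ^ 2 = s + 4 := ⟨r * r + 4 * r, by ring⟩
    rw [show (r + 2) ^ 3 = (r + 2) ^ 2 * (r + 1) + (r + 2) ^ 2 by ring, hs,
      show s + 4 - 1 = s + 3 by omega]
    omega
  omega

end CfsgLib.Chevalley.G2Degree
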