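import Cfsg.Agent.Lib.Chevalley.G2Degree.Counts

/-!
The bound `q³ - 1` for `q` not divisible by three and the shape of a representation of degree at
most `q³`.
-/

set_option autoImplicit false
set_option linter.unusedSectionVars false
set_option linter.style.haveILetI false
set_option maxRecDepth 10000

open Cfsg.Lie Module

namespace CfsgLib.Chevalley.G2Degree

universe u v

variable {F : Type u} [Field F] [Fintype F] [DecidableEq F]
  {V : Type v} [AddCommGroup V] [Module ℂ V] [FiniteDimensional ℂ V]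
  (ρ : ↥(chevG2.group F) →* Module.End ℂ V) {ψ : AddChar F ℂ}

/-- The vectors fixed by `Z X_b` have only the obvious characters on `Q`. -/
structure Small (ψ : AddChar F ℂ) : Prop where
  degree : finrank ℂ V + 1 = Fintype.card F ^ 3 + nu ρ ψ 0
  zero_le : nu ρ ψ 0 ≤ 1
  support : ∀ a : Fin 4 → F, a ≠ 0 → nu ρ ψ a ≠ 0 → a 0 = 0 → a 1 = 0 ∧ a 2 = 0 ∧ a 3 ≠ 0
  one : ∀ c : F, c ≠ 0 → nu ρ ψ ![0, 0, 0, c] = 1
  other : ∃ a : Fin 4 → F, nu ρ ψ a ≠ 0 ∧ a 2 ≠ 0
  centre : RF ρ [11] ≠ ⊤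

theorem nu_sum_nonzero (hψ : ψ ≠ 1) :
    finrank ℂ (RF ρ [11]) =
      nu ρ ψ 0 + ∑ a ∈ Finset.univ.filter (fun a : Fin 4 → F => a ≠ 0), nu ρ ψ a := by
  rw [finrank_fam ρ hψ (fam_Q4 ρ), ← Finset.add_sum_erase _ _ (Finset.mem_univ (0 : Fin 4 → F))]
  congr 1
  exact Finset.sum_congr (by ext a; simp) fun _ _ => rfl

theorem dvd_nonzero : Fintype.card F - 1 ∣
    ∑ a ∈ Finset.univ.filter (fun a : Fin 4 → F => a ≠ 0), nu ρ ψ a := by
  let P : Fin 4 → (Fin 4 → F) → Prop := fun i a => a i ≠ 0 ∧ ∀ j < i, a j = 0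
  have e : ∑ a ∈ Finset.univ.filter (fun a : Fin 4 → F => a ≠ 0), nu ρ ψ a =
      ∑ i : Fin 4, ∑ a ∈ Finset.univ.filter (P i), nu ρ ψ a := by
    simp only [Finset.sum_filter]
    rw [Finset.sum_comm]
    refine Finset.sum_congr rfl fun a _ => ?_
    rw [Fin.sum_univ_four]
    have hz : a = 0 ↔ a 0 = 0 ∧ a 1 = 0 ∧ a 2 = 0 ∧ a 3 = 0 := by
      simp [funext_iff, Fin.forall_fin_succ]
    by_cases h0 : a 0 = 0 <;> by_cases h1 : a 1 = 0 <;> by_cases h2 : a 2 = 0 <;>
      by_cases h3 : a 3 = 0 <;> simp [P, hz, h0, h1, h2, h3, Fin.forall_fin_succ]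
  rw [e]
  refine Finset.dvd_sum fun i _ => dvd_sum_coord ρ i (P i) (fun c a => ?_) fun a h => h.1
  have hsc : ∀ j, scal Q4 1 c a j = (c : F) * a j := fun j => by simp [scal_Q4]
  simp only [P, hsc, mul_eq_zero, c.ne_zero, ne_eq, false_or]

/-- The bound and the equality case. -/
theorem generic_case (hψ : ψ ≠ 1) (h3 : (3 : F) ≠ 0) (hq : 5 ≤ Fintype.card F)
    (hne : RF ρ [11] ≠ ⊤) :
    Fintype.card F ^ 3 - 1 ≤ finrank ℂ V ∧
      (finrank ℂ V ≤ Fintype.card F ^ 3 → Small ρ ψ) := by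
  obtain ⟨A, hA, hk, hN⟩ := centre_counts ρ hψ h3 hne
  have havg := average ρ (ψ := ψ)
  rw [hN] at havg
  set q := Fintype.card F with hqdef
  have hm := nu_sum_nonzero ρ hψ
  set ν₀ := nu ρ ψ 0 with hν₀
  set S := ∑ a ∈ Finset.univ.filter (fun a : Fin 4 → F => a ≠ 0), nu ρ ψ a with hS
  obtain ⟨r, hr⟩ : ∃ r, q = r + 5 := ⟨q - 5, by omega⟩
  have hq1 : q - 1 = r + 4 := by omega
  by_cases hA2 : 2 ≤ A
  · have hbig : q ^ 3 + 1 ≤ finrank ℂ V := by
      rw [hk, hq1, hr]
      have : (r + 4) * (r + 5) * (r + 5) * 2 ≤ (r + 4) * (r + 5) * (r + 5) * A :=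
        Nat.mul_le_mul_left _ hA2
      have e : (r + 5) ^ 3 + ((r + 5) * (r + 5) * (r + 3)) = (r + 4) * (r + 5) * (r + 5) * 2 := by ring
      have : 1 ≤ (r + 5) * (r + 5) * (r + 3) := Nat.mul_pos (Nat.mul_pos (by omega) (by omega)) (by omega)
      omega
    exact ⟨by omega, fun h => by omega⟩
  obtain rfl : A = 1 := by omega
  rw [mul_one] at hk hN
  rw [mul_one] at havg
  have hroot : ∀ a : Fin 4 → F, a ≠ 0 → nu ρ ψ a ≠ 0 → 1 ≤ nroot a := by
    intro a _ ha
    by_contra h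
    have := rootless_bound ρ h3 hq ha (by omega)
    rw [hN, ← hqdef] at this
    have : 0 < (q - 1) * q := Nat.mul_pos (by omega) (by omega)
    omega
  have hE : (q + 1) * ((q - 1) * q) +
      ∑ a ∈ Finset.univ.filter (fun a : Fin 4 → F => a ≠ 0), nu ρ ψ a * (nroot a - 1) = q * S := by
    rw [← havg, ← Finset.sum_add_distrib, hS, Finset.mul_sum]
    refine Finset.sum_congr rfl fun a ha => ?_
    rw [← mul_add, mul_comm q]
    by_cases h0 : nu ρ ψ a = 0
    · rw [h0, zero_mul, zero_mul]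
    · have := hroot a (Finset.mem_filter.1 ha).2 h0
      have := nroot_le a
      congr 1
      omega
  set E := ∑ a ∈ Finset.univ.filter (fun a : Fin 4 → F => a ≠ 0), nu ρ ψ a * (nroot a - 1) with hEdef
  have hSlow : (q - 1) * (q + 1) ≤ S := by
    refine Nat.le_of_mul_le_mul_left (?_ : q * _ ≤ q * _) (show 0 < q by omega)
    rw [← hE]
    refine le_trans (le_of_eq ?_) (Nat.le_add_right _ _)
    ring
  have hk' : finrank ℂ V = ν₀ + S + (q - 1) * q * q := by rw [hk, hm]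
  have hlow : q ^ 3 - 1 ≤ finrank ℂ V := by
    have : q ^ 3 = (q - 1) * (q + 1) + (q - 1) * q * q + 1 := by rw [hq1, hr]; ring
    omega
  refine ⟨hlow, fun hle => ?_⟩
  obtain ⟨t, ht⟩ := dvd_nonzero ρ (ψ := ψ)
  rw [← hS, ← hqdef] at ht
  have hcube : q ^ 3 = (q - 1) * (q + 1) + (q - 1) * q * q + 1 := by rw [hq1, hr]; ring
  have hSeq : S = (q - 1) * (q + 1) := by
    have h1 : S ≤ (q - 1) * (q + 1) + 1 := by omega
    rcases Nat.lt_or_ge (q + 1) t with h | h
    · have h2 := Nat.mul_le_mul_left (q - 1) (show q + 2 ≤ t by omega)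
      rw [← ht, mul_add] at h2
      rw [mul_add] at h1
      omega
    · exact le_antisymm (ht ▸ Nat.mul_le_mul_left _ h) hSlow
  have hν₀1 : ν₀ ≤ 1 := by omega
  have hR : ∀ a : Fin 4 → F, a ≠ 0 → nu ρ ψ a ≠ 0 → nroot a = 1 := by
    have hE0 : E = 0 := by
      rw [hSeq] at hE
      have : (q + 1) * ((q - 1) * q) = q * ((q - 1) * (q + 1)) := by ring
      omega
    intro a ha0 ha
    have := Finset.sum_eq_zero_iff.1 hE0 a (Finset.mem_filter.2 ⟨Finset.mem_univ _, ha0⟩)
    rcases mul_eq_zero.1 this with h | h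
    · exact absurd h ha
    · have := hroot a ha0 ha
      omega
  -- characters vanishing at the first coordinate
  set T := Finset.univ.filter (fun a : Fin 4 → F => a ≠ 0 ∧ a 0 = 0) with hT
  have hTsum : ∑ a ∈ T, nu ρ ψ a = q - 1 := by
    have h1 := Finset.sum_filter_add_sum_filter_not
      (Finset.univ.filter fun a : Fin 4 → F => a ≠ 0) (fun a => a 0 = 0) (fun a => nu ρ ψ a)
    rw [Finset.filter_filter, Finset.filter_filter, ← hT, ← hS,
      Finset.filter_congr (q := fun a : Fin 4 → F => a 0 ≠ 0) (fun a _ =>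
        ⟨fun h => h.2, fun h => ⟨fun h0 => h (by rw [h0]; rfl), h⟩⟩), hN, hSeq] at h1
    rw [mul_add, mul_one] at h1
    omega
  have hsupp : ∀ a : Fin 4 → F, a ≠ 0 → nu ρ ψ a ≠ 0 → a 0 = 0 → a 1 = 0 ∧ a 2 = 0 ∧ a 3 ≠ 0 := by
    intro a ha0 ha h0
    have h3a : a 3 ≠ 0 := by
      intro h3a
      have := hR a ha0 ha
      rw [nroot, if_pos h3a] at this
      have hmem : (0 : F) ∈ Finset.univ.filter fun s : F => tr s a 0 = 0 :=
        Finset.mem_filter.2 ⟨Finset.mem_univ _, by rw [tr_zero]; exact h0⟩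
      have := Finset.card_pos.2 ⟨_, hmem⟩
      omega
    by_contra hcon
    have hj : ∃ j : Fin 4, (j = 1 ∨ j = 2) ∧ a j ≠ 0 := by
      by_contra h
      push Not at h
      exact hcon ⟨h 1 (Or.inl rfl), h 2 (Or.inr rfl), h3a⟩
    obtain ⟨j, hj, haj⟩ := hj
    obtain ⟨g, hg⟩ := IsCyclic.exists_generator (α := Fˣ)
    have hord : orderOf g = q - 1 := by
      rw [orderOf_eq_card_of_forall_mem_zpowers hg, Nat.card_units, Nat.card_eq_fintype_card]
    have hg2 : g ^ 2 ≠ 1 := fun h => by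
      have := Nat.le_of_dvd two_pos (orderOf_dvd_of_pow_eq_one h)
      omega
    have hg1 : g ≠ 1 := fun h => hg2 (by rw [h, one_pow])
    let e : Bool × Fˣ → (Fin 4 → F) := fun x => scal Q4 (if x.1 then g else 1) x.2 a
    have hinj : Function.Injective e := by
      rintro ⟨x, c⟩ ⟨x', c'⟩ h
      have hK := congrFun h 3
      have hJ := congrFun h j
      simp only [e, scal_Q4] at hK hJ
      have hK' : (if x then g else 1 : Fˣ) ^ 3 * c = (if x' then g else 1 : Fˣ) ^ 3 * c' :=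
        Units.ext (by push_cast; exact mul_right_cancel₀ h3a hK)
      have hJ' : (if x then g else 1 : Fˣ) ^ (j : ℕ) * c = (if x' then g else 1 : Fˣ) ^ (j : ℕ) * c' :=
        Units.ext (by push_cast; exact mul_right_cancel₀ haj hJ)
      have hx : x = x' := by
        have key : ∀ σ σ' : Fˣ, σ ^ 3 * c = σ' ^ 3 * c' → σ ^ (j : ℕ) * c = σ' ^ (j : ℕ) * c' →
            σ ^ (3 - (j : ℕ)) = σ' ^ (3 - (j : ℕ)) := by
          intro σ σ' hK hJ
          have hlt := j.isLt
          rw [show 3 = (3 - (j : ℕ)) + (j : ℕ) by omega, pow_add, pow_add, mul_assoc, mul_assoc,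
            hJ] at hK
          exact mul_right_cancel hK
        have h5 := key _ _ hK' hJ'
        rcases hj with rfl | rfl <;> cases x <;> cases x' <;>
          simp [hg1, Ne.symm hg1, hg2, Ne.symm hg2] at h5 ⊢
      subst hx
      exact Prod.ext rfl (mul_left_cancel hK')
    have h2 : (Finset.univ.image e).card ≤ ∑ b ∈ T, nu ρ ψ b :=
      calc (Finset.univ.image e).card = ∑ _b ∈ Finset.univ.image e, 1 := Finset.card_eq_sum_ones _
        _ ≤ ∑ b ∈ Finset.univ.image e, nu ρ ψ b := Finset.sum_le_sum fun b hb => by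
          obtain ⟨x, -, rfl⟩ := Finset.mem_image.1 hb
          rw [nu_scal]
          exact Nat.one_le_iff_ne_zero.2 ha
        _ ≤ _ := Finset.sum_le_sum_of_subset fun b hb => by
          obtain ⟨x, -, rfl⟩ := Finset.mem_image.1 hb
          refine Finset.mem_filter.2 ⟨Finset.mem_univ _, fun h => h3a ?_, ?_⟩
          · have := congrFun h 3
            simpa [e, scal_Q4] using this
          · simp [e, scal_Q4, h0]
    rw [Finset.card_image_of_injective _ hinj, hTsum, Finset.card_univ] at h2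
    simp [Fintype.card_units] at h2
    omega
  have hcst : ∀ c : F, c ≠ 0 → nu ρ ψ ![0, 0, 0, c] = nu ρ ψ ![0, 0, 0, 1] := by
    intro c hc
    rw [← nu_scal ρ 1 (Units.mk0 c hc) ![0, 0, 0, 1]]
    congr 1
    funext i
    fin_cases i <;> simp [scal_Q4]
  have hone : nu ρ ψ ![0, 0, 0, 1] = 1 := by
    have hTeq : ∑ a ∈ T, nu ρ ψ a =
        ∑ a ∈ (Finset.univ.erase (0 : F)).image (fun c => ![0, 0, 0, c]), nu ρ ψ a := by
      refine (Finset.sum_subset (fun a ha => ?_) fun a ha hna => ?_).symm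
      · obtain ⟨c, hc, rfl⟩ := Finset.mem_image.1 ha
        exact Finset.mem_filter.2 ⟨Finset.mem_univ _,
          fun h => (Finset.mem_erase.1 hc).1 (by simpa using congrFun h 3), by simp⟩
      · by_contra hne
        obtain ⟨ha0, h0⟩ := (Finset.mem_filter.1 ha).2
        obtain ⟨h1, h2, h3'⟩ := hsupp a ha0 hne h0
        refine hna (Finset.mem_image.2 ⟨a 3, Finset.mem_erase.2 ⟨h3', Finset.mem_univ _⟩, ?_⟩)
        funext i
        fin_cases i <;> simp [h0, h1, h2]
    rw [hTsum, Finset.sum_image (fun x _ y _ h => by simpa using congrFun h 3),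
      Finset.sum_congr rfl fun c hc => hcst c (Finset.mem_erase.1 hc).1, Finset.sum_const,
      Finset.card_erase_of_mem (Finset.mem_univ _), Finset.card_univ, smul_eq_mul] at hTeq
    exact (Nat.eq_of_mul_eq_mul_left (by omega : 0 < q - 1) (by rw [mul_one]; exact hTeq)).symm
  refine ⟨(by rw [← hqdef, ← hν₀]; omega), hν₀1, hsupp, fun c hc => (hcst c hc).trans hone, ?_, hne⟩
  refine ⟨tr 1 ![0, 0, 0, 1], ?_, ?_⟩
  · rw [nu_tr, hone]
    exact one_ne_zero
  · simpa [tr] using h3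

end CfsgLib.Chevalley.G2Degree
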