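import Cfsg.Agent.Lib.Chevalley.G2Degree.Hecke

/-!
The spherical function of the Borel fixed vector and the contradiction from the Schur relation.
-/

set_option autoImplicit false
set_option linter.unusedSectionVars false
set_option linter.style.haveILetI false
set_option maxRecDepth 10000

open Cfsg.Lie Module

namespace CfsgLib.Chevalley.G2Degree

universe u v

variable {F : Type u} [Field F]

/-- The reduced words of the Weyl group; the last two represent the longest element. -/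
def word' : Fin 13 → List (Fin chevG2.rank) :=
  let a : Fin chevG2.rank := (0 : Fin 2)
  let b : Fin chevG2.rank := (1 : Fin 2)
  ![[], [a], [b], [a, b], [b, a], [a, b, a], [b, a, b], [a, b, a, b], [b, a, b, a],
    [a, b, a, b, a], [b, a, b, a, b], [a, b, a, b, a, b], [b, a, b, a, b, a]]

/-- One reduced word for each element. -/
def word (i : Fin 12) : List (Fin chevG2.rank) := word' i.castSucc

/-- The number of reflections in `b` in each word. -/
def cntb' : Fin 13 → ℕ := ![0, 0, 1, 1, 1, 1, 2, 2, 2, 2, 3, 3, 3]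

/-- The number of reflections in `b` in the chosen words. -/
def cntb (i : Fin 12) : ℕ := cntb' i.castSucc

theorem word_rev : ∀ i : Fin 12, ∃ j : Fin 13, word' j = (word i).reverse ∧ cntb' j = cntb i := by
  decide +kernel

theorem word_grow : ∀ i : Fin 13, i = 0 ∨ ∃ j : Fin 13, j < i ∧
    ((word' i = word' j ++ wa ∧ cntb' i = cntb' j) ∨
      (word' i = word' j ++ wb ∧ cntb' i = cntb' j + 1 ∧ 6 ≤ wAct (word' j) 6)) := by
  decide +kernel

theorem wAct_lt (l : List (Fin chevG2.rank)) {r : ℕ} (hr : r < 12) : wAct l r < 12 := by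
  unfold wAct
  rw [dif_pos (show r < chevG2.nroots from hr)]
  exact (wPerm cert_G2 l ⟨r, hr⟩).isLt

theorem word_closed : ∀ i : Fin 12, ∀ a : Fin 2, ∃ j : Fin 12, ∀ r : Fin 12,
    wAct (@List.cons (Fin chevG2.rank) a (word i)) r = wAct (word j) r := by
  decide +kernel

theorem exists_word : ∀ l : List (Fin chevG2.rank), ∃ i : Fin 12,
    wPerm cert_G2 (word i) = wPerm cert_G2 l := by
  intro l
  induction l with
  | nil => exact ⟨0, rfl⟩
  | cons a l ih =>
    obtain ⟨i, hi⟩ := ih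
    obtain ⟨j, hj⟩ := word_closed i a
    refine ⟨j, Equiv.ext fun r => Fin.ext ?_⟩
    have h := hj r
    simp only [wAct, dif_pos (show (r : ℕ) < chevG2.nroots from r.isLt), Fin.eta] at h
    rw [wPerm_cons, hi, ← wPerm_cons] at h
    exact h.symm

theorem word_inv : ∀ i : Fin 12, (invs (wPerm cert_G2 (word i))).card =
    ([0, 1, 1, 2, 2, 3, 3, 4, 4, 5, 5, 6] : List ℕ).getD i 0 := by
  decide +kernel

theorem isPos_iff : ∀ r : Fin 12, chevG2.IsPosRoot r ↔ 6 ≤ (r : ℕ) := by decide +kernel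

theorem nW_mul_reverse (l : List (Fin chevG2.rank)) :
    nW full.cert F l * nW full.cert F l.reverse ∈ chevG2.diagonalSubgroup F := by
  induction l with
  | nil => simp [one_mem]
  | cons i l ih =>
    have h1 : nW full.cert F [i] = nG full.cert (chevG2.simple i) (1 : F) := nW_one i
    rw [List.reverse_cons, nW_append, nW_cons, h1]
    have h2 := nW_conj_diagonal full [i] ih
    rw [h1] at h2
    have h3 := mul_mem h2 (nG_simple_sq (F := F) full i)
    convert h3 using 1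
    group

variable [Fintype F] [DecidableEq F] {V : Type v} [AddCommGroup V] [Module ℂ V]
  [FiniteDimensional ℂ V] (ρ : ↥(chevG2.group F) →* Module.End ℂ V) {ψ : AddChar F ℂ}

theorem rootsU_le_stab {v : V} {S : Set ℕ} (hS : ∀ r ∈ S, ∀ t, el r t ∈ stabV ρ v)
    {g : GL chevG2.Idx F} (hg : g ∈ rootsU chevG2 F S) (hg' : g ∈ chevG2.group F) :
    (⟨g, hg'⟩ : ↥(chevG2.group F)) ∈ stabV ρ v := by
  have h : rootsU chevG2 F S ≤ (stabV ρ v).map (chevG2.group F).subtype :=
    (rootsU_le_iff cert_G2).2 fun r hr t => ⟨el r t, hS r hr t, rfl⟩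
  obtain ⟨x, hx, rfl⟩ := h hg
  exact hx

/-- Such a representation does not have degree `q³`. -/
theorem Small.false_of_nu_one (hψ : ψ ≠ 1) (h : Small ρ ψ) (h1 : nu ρ ψ 0 = 1)
    (hq : 3 ≤ Fintype.card F)
    (hirr : Representation.IsIrreducible (ρ : Representation ℂ ↥(chevG2.group F) V)) : False := by
  classical
  let ρR : Representation ℂ ↥(chevG2.group F) V := ρ
  haveI : ρR.IsIrreducible := hirr
  have hnofix : ∀ w : V, (∀ g, ρ g w = w) → w = 0 := by
    intro w hw
    let S : Subrepresentation ρR :=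
      { toSubmodule := Fix ρ Set.univ
        apply_mem_toSubmodule := fun g x hx => by
          show ρ g x ∈ Fix ρ Set.univ
          rw [hx g trivial]
          exact hx }
    rcases IsSimpleOrder.eq_bot_or_eq_top S with hS | hS
    · have hw' : w ∈ S.toSubmodule := fun g _ => hw g
      rw [hS] at hw'
      exact (Submodule.mem_bot ℂ).1 hw'
    · refine absurd (eq_top_iff.2 fun x _ => ?_) h.centre
      have hx : x ∈ S.toSubmodule := by rw [hS]; exact Submodule.mem_top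
      exact fun g _ => hx g trivial
  obtain ⟨v, hv0, hvU, hvT, hva, hvb⟩ := h.exists_sign_vector ρ hψ h1 hq hnofix
  set q := Fintype.card F with hqdef
  have hq0 : (q : ℂ) ≠ 0 := Nat.cast_ne_zero.2 (by omega)
  have hdeg : finrank ℂ V = q ^ 3 := by
    have := h.degree
    rw [h1, ← hqdef] at this
    omega
  -- the Borel subgroup fixes `v`
  have hUmem : ∀ {S : Set ℕ}, (∀ r ∈ S, chevG2.IsPosRoot r) → ∀ r ∈ S, ∀ t, el r t ∈ stabV ρ v := by
    intro S hS r hr t
    have h12 : r < 12 := (hS r hr).1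
    exact hvU r ((isPos_iff ⟨r, h12⟩).1 (hS r hr)) h12 t
  have hdiag : ∀ g : ↥(chevG2.group F), (g : GL chevG2.Idx F) ∈ chevG2.diagonalSubgroup F →
      g ∈ stabV ρ v := by
    intro g hg
    obtain ⟨s, t, rfl⟩ := exists_tor hg
    exact hvT s t
  let Bg : Subgroup ↥(chevG2.group F) := (chevG2.borelSubgroup F).subgroupOf (chevG2.group F)
  have hB : Bg ≤ stabV ρ v := by
    intro g hg
    obtain ⟨u, hu, t, ht, e⟩ := (mem_borel_iff full).1 (Subgroup.mem_subgroupOf.1 hg)
    have hu' : u ∈ chevG2.group F := rootsU_le_group cert_G2 {r | chevG2.IsPosRoot r} hu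
    have ht' : t ∈ chevG2.group F := diagonal_le_group cert_G2 ht
    rw [show g = (⟨u, hu'⟩ : ↥(chevG2.group F)) * ⟨t, ht'⟩ from Subtype.ext e]
    exact mul_mem (rootsU_le_stab ρ (hUmem fun r hr => hr) hu hu') (hdiag _ ht)
  haveI : Finite ↥(chevG2.group F) := Subtype.finite
  haveI := Fintype.ofFinite ↥(chevG2.group F)
  haveI := Fintype.ofFinite ↥Bg
  -- the invariant functional
  obtain ⟨φ, hφv, hφB⟩ : ∃ φ : V →ₗ[ℂ] ℂ, φ v = 1 ∧ ∀ b ∈ Bg, ∀ x, φ (ρ b x) = φ x := by
    obtain ⟨φ₀, hφ₀⟩ := LinearMap.exists_leftInverse_of_injective (LinearMap.toSpanSingleton ℂ V v)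
      (LinearMap.ker_eq_bot.2 fun a b e => smul_left_injective ℂ hv0 (by simpa using e))
    have e0 : φ₀ v = 1 := by simpa using LinearMap.congr_fun hφ₀ 1
    refine ⟨(Fintype.card ↥Bg : ℂ)⁻¹ • ∑ b : ↥Bg, φ₀ ∘ₗ (ρ b : V →ₗ[ℂ] V), ?_, fun b hb x => ?_⟩
    · simp only [LinearMap.smul_apply, LinearMap.sum_apply, LinearMap.comp_apply,
        fun b : ↥Bg => show ρ b v = v from hB b.2, e0]
      simp
    · simp only [LinearMap.smul_apply, LinearMap.sum_apply, LinearMap.comp_apply]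
      congr 1
      refine Fintype.sum_equiv (Equiv.mulRight (⟨b, hb⟩ : ↥Bg)) _ _ fun c => ?_
      simp only [Equiv.coe_mulRight, Subgroup.coe_mul, map_mul, Module.End.mul_apply]
  let f : ↥(chevG2.group F) → ℂ := fun g => φ (ρ g v)
  -- the Schur relation
  have hschur : (∑ g, f g * f g⁻¹) * (finrank ℂ V : ℂ) = (Nat.card ↥(chevG2.group F) : ℂ) := by
    set X : V →ₗ[ℂ] V := LinearMap.toSpanSingleton ℂ V v ∘ₗ φ with hX
    set T : V →ₗ[ℂ] V := ∑ g, ρR g ∘ₗ X ∘ₗ ρR g⁻¹ with hT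
    obtain ⟨c, hc⟩ := CfsgLib.CharTheory.exists_smul_of_commute ρR T fun a => by
      refine LinearMap.ext fun x => ?_
      simp only [hT, LinearMap.comp_apply, LinearMap.sum_apply, map_sum]
      refine Fintype.sum_equiv (Equiv.mulLeft a⁻¹) _ _ fun g => ?_
      simp only [Equiv.coe_mulLeft, mul_inv_rev, inv_inv, map_mul, Module.End.mul_apply]
      rw [show ρR a (ρR a⁻¹ _) = _ from ρ_apply_inv ρ a _]
    have htrX : LinearMap.trace ℂ V X = 1 := by
      rw [hX, LinearMap.trace_comp_comm',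
        show φ ∘ₗ LinearMap.toSpanSingleton ℂ V v = LinearMap.id from
          LinearMap.ext_ring (by simpa using hφv),
        LinearMap.trace_id, Module.finrank_self, Nat.cast_one]
    have htr : LinearMap.trace ℂ V T = (Nat.card ↥(chevG2.group F) : ℂ) := by
      rw [hT, map_sum, Finset.sum_congr rfl fun g _ => ?_]
      · rw [Finset.sum_const, Finset.card_univ, Nat.card_eq_fintype_card, nsmul_one]
      · rw [LinearMap.trace_comp_comm', LinearMap.comp_assoc,
          show ρR g⁻¹ ∘ₗ ρR g = LinearMap.id from LinearMap.ext (ρ_inv_apply ρ g),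
          LinearMap.comp_id, htrX]
    have hc' : c = ∑ g, f g * f g⁻¹ := by
      have e := congrArg φ (LinearMap.congr_fun hc v)
      rw [LinearMap.smul_apply, LinearMap.id_apply, map_smul, hφv, smul_eq_mul, mul_one] at e
      rw [← e, hT, LinearMap.sum_apply, map_sum]
      refine Finset.sum_congr rfl fun g _ => ?_
      simp [hX, f, ρR, mul_comm]
    rw [← hc', ← htr, hc, map_smul, LinearMap.trace_id, smul_eq_mul]
  -- the values
  have hstepU : ∀ r, 6 ≤ r → r < 12 → ∀ t x, φ (ρ (el r t) x) = φ x := by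
    intro r h6 h12 t x
    refine hφB _ (Subgroup.mem_subgroupOf.2 (Subgroup.mem_sup_left ?_)) x
    exact xG_mem_rootsU (S := {r | chevG2.IsPosRoot r}) cert_G2
      ((isPos_iff ⟨r, h12⟩).2 h6 : chevG2.IsPosRoot r) t
  have hval : ∀ i, f (wEl (word' i)) = (-(q : ℂ)⁻¹) ^ cntb' i := by
    intro i
    induction i using WellFoundedLT.induction with
    | _ i ih =>
    rcases word_grow i with rfl | ⟨j, hj, ⟨hw, hc⟩ | ⟨hw, hc, hp⟩⟩
    · simp only [f, word', cntb', Matrix.cons_val_zero, pow_zero]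
      rw [show (wEl [] : ↥(chevG2.group F)) = 1 from Subtype.ext (nW_nil cert_G2), map_one,
        Module.End.one_apply, hφv]
    · rw [hc, ← ih j hj]
      simp only [f, hw, wEl_append, map_mul, Module.End.mul_apply]
      rw [hva]
    · rw [hc, pow_succ, ← ih j hj]
      have e := congrArg (fun x => φ (ρ (wEl (word' j)) x)) hvb
      simp only [map_sum, map_neg] at e
      obtain ⟨θ, hθ⟩ := wEl_conj (F := F) (word' j)
      have hterm : ∀ t : F, φ (ρ (wEl (word' j)) (ρ (el 6 t) (ρ (wEl wb) v))) = f (wEl (word' i)) := by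
        intro t
        have e' := hθ 6 (by decide) t
        rw [mul_inv_eq_iff_eq_mul] at e'
        rw [← Module.End.mul_apply, ← map_mul, e', map_mul, Module.End.mul_apply,
          hstepU _ hp (wAct_lt _ (by decide))]
        simp only [f, hw, wEl_append, map_mul, Module.End.mul_apply]
      rw [Finset.sum_congr rfl fun t _ => hterm t, Finset.sum_const, Finset.card_univ,
        nsmul_eq_mul] at e
      field_simp
      linear_combination e
  -- the cells
  let D : Fin 12 → Type u := fun i => (↥(chevG2.posUnipotent F) × ↥(chevG2.diagonalSubgroup F)) ×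
    ↥(rootsU chevG2 F (invSet chevG2 (wPerm cert_G2 (word i))))
  haveI : ∀ i, Fintype (D i) := fun i => Fintype.ofFinite _
  let γ : (Σ i, D i) → ↥(chevG2.group F) := fun x =>
    (⟨(x.2.1.1 : GL chevG2.Idx F), rootsU_le_group cert_G2 {r | chevG2.IsPosRoot r} x.2.1.1.2⟩ :
      ↥(chevG2.group F)) *
    (wEl (word x.1) * ⟨(x.2.1.2 : GL chevG2.Idx F), diagonal_le_group cert_G2 x.2.1.2.2⟩) *
    ⟨(x.2.2 : GL chevG2.Idx F), rootsU_le_group cert_G2 _ x.2.2.2⟩
  have hFval : ∀ x, f (γ x) * f (γ x)⁻¹ = ((((q : ℝ) ^ 2)⁻¹ ^ cntb x.1 : ℝ) : ℂ) := by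
    rintro ⟨i, ⟨⟨u, hu⟩, ⟨t, ht⟩⟩, ⟨w, hw⟩⟩
    have hu' : u ∈ chevG2.group F := rootsU_le_group cert_G2 {r | chevG2.IsPosRoot r} hu
    have ht' : t ∈ chevG2.group F := diagonal_le_group cert_G2 ht
    have hw' : w ∈ chevG2.group F := rootsU_le_group cert_G2 _ hw
    have sU : (⟨u, hu'⟩ : ↥(chevG2.group F)) ∈ Bg :=
      Subgroup.mem_subgroupOf.2 (Subgroup.mem_sup_left hu)
    have sW : (⟨w, hw'⟩ : ↥(chevG2.group F)) ∈ Bg :=
      Subgroup.mem_subgroupOf.2 (Subgroup.mem_sup_left (rootsU_mono (fun r hr => hr.1) hw))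
    have sT : (⟨t, ht'⟩ : ↥(chevG2.group F)) ∈ Bg :=
      Subgroup.mem_subgroupOf.2 (Subgroup.mem_sup_right ht)
    obtain ⟨j, hj, hcj⟩ := word_rev i
    have hrev : (wEl (word i) * wEl (word' j) : ↥(chevG2.group F)) ∈ Bg := by
      refine Subgroup.mem_subgroupOf.2 (Subgroup.mem_sup_right ?_)
      rw [hj]
      exact nW_mul_reverse _
    set m : ↥(chevG2.group F) := wEl (word i)
    have f1 : f (⟨u, hu'⟩ * (m * ⟨t, ht'⟩) * ⟨w, hw'⟩) = f m := by
      simp only [f, map_mul, Module.End.mul_apply, hφB _ sU]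
      rw [show ρ ⟨w, hw'⟩ v = v from hB sW, show ρ ⟨t, ht'⟩ v = v from hB sT]
    have f2 : f (⟨u, hu'⟩ * (m * ⟨t, ht'⟩) * ⟨w, hw'⟩)⁻¹ = f (wEl (word' j)) := by
      rw [show (⟨u, hu'⟩ * (m * ⟨t, ht'⟩) * ⟨w, hw'⟩ : ↥(chevG2.group F))⁻¹ =
        ⟨w, hw'⟩⁻¹ * ⟨t, ht'⟩⁻¹ * wEl (word' j) * ((m * wEl (word' j))⁻¹ * ⟨u, hu'⟩⁻¹) by group]
      simp only [f]
      rw [map_mul, Module.End.mul_apply,
        show ρ ((m * wEl (word' j))⁻¹ * ⟨u, hu'⟩⁻¹) v = v from
          hB (mul_mem (inv_mem hrev) (inv_mem sU)),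
        map_mul, Module.End.mul_apply, hφB _ (mul_mem (inv_mem sW) (inv_mem sT))]
    show f (⟨u, hu'⟩ * (m * ⟨t, ht'⟩) * ⟨w, hw'⟩) * f (⟨u, hu'⟩ * (m * ⟨t, ht'⟩) * ⟨w, hw'⟩)⁻¹ = _
    rw [f1, f2, hval, show f m = f (wEl (word' i.castSucc)) from rfl, hval, hcj, cntb, ← mul_pow, neg_mul_neg, ← mul_inv, ← sq]
    push_cast
    rfl
  have hsurj : Function.Surjective γ := by
    rintro ⟨g, hg⟩
    obtain ⟨u, hu, n, hn, σ, η, hA, w, hw, rfl⟩ := exists_canonical full hg
    obtain ⟨l₀, t₀, ht₀, rfl⟩ := (mem_monomial_iff full).1 hn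
    obtain ⟨c, rfl⟩ : ∃ c, torusHom chevG2 F c = t₀ := by rwa [diagonalSubgroup_eq_range full] at ht₀
    obtain ⟨η₀, hη₀⟩ := acts_nW (F := F) full l₀
    have hσ := hA.perm_eq (hη₀.mul (acts_torus full.cert c))
    rw [mul_one] at hσ
    subst hσ
    obtain ⟨i, hi⟩ := exists_word l₀
    set m := nW full.cert F (word i)
    have hm : m⁻¹ * (nW full.cert F l₀ * torusHom chevG2 F c) ∈ chevG2.diagonalSubgroup F := by
      have hmem : m⁻¹ * (nW full.cert F l₀ * torusHom chevG2 F c) ∈ chevG2.monomialSubgroup F :=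
        Subgroup.mul_mem _ (Subgroup.inv_mem _ (nW_mem_monomial full _)) hn
      obtain ⟨τ, θ, hτ⟩ := exists_acts full hmem
      refine mem_diagonal_of_perm full hmem hτ fun a => ?_
      obtain ⟨η₁, hη₁⟩ := acts_nW (F := F) full (word i)
      have e1 := hη₁.mul hτ
      rw [mul_inv_cancel_left] at e1
      have e2 := e1.perm_eq hA
      rw [hi] at e2
      rw [show τ = 1 from mul_left_cancel (a := wPerm full.cert l₀) (e2.trans (mul_one _).symm)]
      exact full.simple_pos a.isLt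
    refine ⟨⟨i, (⟨u, hu⟩, ⟨_, hm⟩), ⟨w, by rw [hi]; exact hw⟩⟩, Subtype.ext ?_⟩
    show u * (m * (m⁻¹ * (nW full.cert F l₀ * torusHom chevG2 F c))) * w = _
    rw [mul_inv_cancel_left]
  -- the estimate
  obtain ⟨sec, hsec⟩ := hsurj.hasRightInverse
  have hle : ∑ g, (f g * f g⁻¹).re ≤ ∑ x, (f (γ x) * f (γ x)⁻¹).re := by
    calc ∑ g, (f g * f g⁻¹).re = ∑ g, (f (γ (sec g)) * f (γ (sec g))⁻¹).re :=
          Finset.sum_congr rfl fun g _ => by rw [hsec g]
      _ = ∑ x ∈ Finset.univ.image sec, (f (γ x) * f (γ x)⁻¹).re :=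
          (Finset.sum_image (f := fun x => (f (γ x) * f (γ x)⁻¹).re) (hsec.injective.injOn)).symm
      _ ≤ _ := Finset.sum_le_sum_of_subset_of_nonneg (Finset.subset_univ _) fun x _ _ => by
          rw [hFval, Complex.ofReal_re]
          positivity
  have hT1 : Nat.card ↥(chevG2.diagonalSubgroup F) = (q - 1) ^ 2 := by
    rw [← card_diagonalG2, one_mul]
  have hU1 : Nat.card ↥(chevG2.posUnipotent F) = q ^ 6 := card_posUnipotent full
  have hR1 : ∀ i, Nat.card ↥(rootsU chevG2 F (invSet chevG2 (wPerm cert_G2 (word i)))) =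
      q ^ ([0, 1, 1, 2, 2, 3, 3, 4, 4, 5, 5, 6] : List ℕ).getD i 0 := by
    intro i
    obtain ⟨η, hη⟩ := acts_nW (F := F) full (word i)
    rw [card_rootsU_invSet full hη, word_inv]
  have hsum : ∑ x, (f (γ x) * f (γ x)⁻¹).re =
      (q : ℝ) ^ 6 * ((q - 1 : ℕ) : ℝ) ^ 2 * (3 * q + 6 + 3 / q) := by
    rw [Finset.sum_congr rfl fun x _ => by rw [hFval, Complex.ofReal_re], Fintype.sum_sigma]
    simp only [Finset.sum_const, Finset.card_univ, ← Nat.card_eq_fintype_card, D, Nat.card_prod,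
      hT1, hU1, hR1, nsmul_eq_mul, Nat.cast_mul, Nat.cast_pow]
    simp only [Fin.sum_univ_succ, Fin.sum_univ_zero, cntb, cntb']
    simp
    have : (q : ℝ) ≠ 0 := Nat.cast_ne_zero.2 (by omega)
    field_simp
    ring
  have hG : (Nat.card ↥(chevG2.group F) : ℝ) = (∑ g, (f g * f g⁻¹).re) * (q : ℝ) ^ 3 := by
    have e := congrArg Complex.re hschur
    rw [Complex.natCast_re, hdeg] at e
    rw [← e, Complex.mul_re, Complex.natCast_im, mul_zero, sub_zero, Complex.natCast_re,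
      Complex.re_sum, Nat.cast_pow]
  have hord : Nat.card ↥(chevG2.group F) = q ^ 6 * ((q ^ 2 - 1) * (q ^ 6 - 1)) := by
    have := cardG2 (F := F)
    rw [one_mul] at this
    rw [this]
    simp [show chevG2.nroots / 2 = 6 from rfl, ← hqdef]
  have hb : (Nat.card ↥(chevG2.group F) : ℝ) ≤
      (q : ℝ) ^ 6 * ((q - 1 : ℕ) : ℝ) ^ 2 * (3 * q + 6 + 3 / q) * (q : ℝ) ^ 3 := by
    rw [hG, ← hsum]
    exact mul_le_mul_of_nonneg_right hle (by positivity)
  rw [hord, Nat.cast_mul, Nat.cast_mul, Nat.cast_sub (Nat.one_le_pow _ _ (by omega)),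
    Nat.cast_sub (Nat.one_le_pow _ _ (by omega)), Nat.cast_sub (by omega : 1 ≤ q)] at hb
  push_cast at hb
  set x : ℝ := (q : ℝ)
  have hx : (3 : ℝ) ≤ x := by simp only [x]; exact_mod_cast hq
  have e : x ^ 6 * (x - 1) ^ 2 * (3 * x + 6 + 3 / x) * x ^ 3 =
      x ^ 6 * (3 * x ^ 2 * (x ^ 2 - 1) ^ 2) := by
    field_simp
    ring
  rw [e] at hb
  have hx1 : (0 : ℝ) < x ^ 2 - 1 := by nlinarith
  have key : x ^ 6 * ((x ^ 2 - 1) * (x ^ 6 - 1)) - x ^ 6 * (3 * x ^ 2 * (x ^ 2 - 1) ^ 2) =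
      x ^ 6 * (x ^ 2 - 1) ^ 4 := by ring
  have : 0 < x ^ 6 * (x ^ 2 - 1) ^ 4 := mul_pos (by positivity) (pow_pos hx1 4)
  linarith

end CfsgLib.Chevalley.G2Degree
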