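import Cfsg.Agent.Lib.Chevalley.G2Degree.Rep

/-!
Invariance of the spectral multiplicities on root subgroups under torus, Weyl and root elements.
-/

set_option autoImplicit false
set_option linter.unusedSectionVars false
set_option linter.style.haveILetI false
set_option maxRecDepth 10000

open Cfsg.Lie Module

namespace CfsgLib.Chevalley.G2Degree

universe u v

variable {F : Type u} [Field F] [Fintype F] [DecidableEq F]
  {V : Type v} [AddCommGroup V] [Module ℂ V] [FiniteDimensional ℂ V]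
  (ρ : ↥(chevG2.group F) →* Module.End ℂ V) {ψ : AddChar F ℂ}
  {n : ℕ} {L : Fin n → ℕ} {W : Submodule ℂ V}

theorem conj_apply {G : Type*} [Group G] (σ : G →* Module.End ℂ V) (g x : G) (w : V) :
    σ (g⁻¹ * x * g) w = σ g⁻¹ (σ x (σ g w)) := by
  rw [map_mul, map_mul, Module.End.mul_apply, Module.End.mul_apply]

/-- It suffices to know the conjugates of single root elements. -/
theorem mu_le_single {g : ↥(chevG2.group F)} (h : Fam ρ W (fam L)) (hg : ∀ w ∈ W, ρ g w ∈ W)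
    {a a' : Fin n → F}
    (hs : ∀ i t, ∃ y, (∀ w ∈ W, ρ (g⁻¹ * el (L i) t * g) w = ρ (fam L y) w) ∧
      pair ψ a y = ψ (a' i * t)) :
    mu ψ ρ W (fam L) a ≤ mu ψ ρ W (fam L) a' := by
  refine mu_le ρ hg fun x => ?_
  let P : (Fin n → F) → Prop := fun x => ∃ y,
    (∀ w ∈ W, ρ (g⁻¹ * fam L x * g) w = ρ (fam L y) w) ∧ pair ψ a y = pair ψ a' x
  have h0 : P 0 := ⟨0, fun w _ => by rw [fam_zero, mul_one, inv_mul_cancel],
    by rw [pair_comm, pair_zero_left, pair_comm, pair_zero_left]⟩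
  have hadd : ∀ x x', P x → P x' → P (x + x') := by
    rintro x x' ⟨y, hy, hp⟩ ⟨y', hy', hp'⟩
    refine ⟨y + y', fun w hw => ?_, by rw [pair_add_right, pair_add_right, hp, hp']⟩
    rw [conj_apply, h.add x x' _ (hg w hw), h.add y y' w hw,
      ← hy' w hw, ← hy _ (by rw [hy' w hw]; exact h.mem _ w hw), conj_apply, conj_apply,
      ρ_apply_inv]
  show P x
  rw [← Finset.univ_sum_single x]
  refine Finset.sum_induction _ P hadd h0 fun i _ => ?_
  obtain ⟨y, hy, hp⟩ := hs i (x i)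
  exact ⟨y, fun w hw => by rw [fam_single]; exact hy w hw, by rw [hp, pair_single]⟩

theorem tor_inv_conj (s t : Fˣ) {r : ℕ} (hr : r < 12) (u : F) :
    (tor s t)⁻¹ * el r u * tor s t = el r (((rv s t r)⁻¹ : Fˣ) * u) := by
  have := tor_conj s t hr (((rv s t r)⁻¹ : Fˣ) * u)
  rw [← mul_assoc, ← Units.val_mul, mul_inv_cancel, Units.val_one, one_mul] at this
  rw [← this]
  group

theorem rv_inv (s t : Fˣ) (r : ℕ) : rv s⁻¹ t⁻¹ r = (rv s t r)⁻¹ := by
  simp only [rv, _root_.inv_zpow, mul_inv]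

/-- Scaling a character by the values of a torus element. -/
noncomputable def scal (L : Fin n → ℕ) (s t : Fˣ) (a : Fin n → F) (i : Fin n) : F := (rv s t (L i) : F) * a i

theorem mu_scal_le (h : Fam ρ W (fam L)) (hL : ∀ i, L i < 12)
    (hW : ∀ s t : Fˣ, ∀ w ∈ W, ρ (tor s t) w ∈ W) (s t : Fˣ) (a : Fin n → F) :
    mu ψ ρ W (fam L) a ≤ mu ψ ρ W (fam L) (scal L s t a) := by
  refine mu_le_single ρ h (hW s⁻¹ t⁻¹) fun i u => ⟨Pi.single i ((rv s t (L i) : F) * u), fun w _ => ?_, ?_⟩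
  · rw [tor_inv_conj _ _ (hL i), fam_single, ← rv_inv, inv_inv, inv_inv]
  · rw [pair_single, scal, mul_left_comm, mul_assoc]

theorem mu_scal (h : Fam ρ W (fam L)) (hL : ∀ i, L i < 12)
    (hW : ∀ s t : Fˣ, ∀ w ∈ W, ρ (tor s t) w ∈ W) (s t : Fˣ) (a : Fin n → F) :
    mu ψ ρ W (fam L) (scal L s t a) = mu ψ ρ W (fam L) a := by
  refine le_antisymm ?_ (mu_scal_le ρ h hL hW s t a)
  have e := mu_scal_le ρ (ψ := ψ) h hL hW s⁻¹ t⁻¹ (scal L s t a)
  rwa [show scal L s⁻¹ t⁻¹ (scal L s t a) = a from funext fun i => by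
    rw [scal, scal, ← mul_assoc, rv_inv, ← Units.val_mul, inv_mul_cancel, Units.val_one, one_mul]] at e

/-- A Weyl element permuting the family. -/
theorem mu_weyl (h : Fam ρ W (fam L)) (l : List (Fin chevG2.rank)) (hL : ∀ i, L i < 12)
    (hW : ∀ w ∈ W, ρ (wEl l) w ∈ W) (π : Equiv.Perm (Fin n))
    (hπ : ∀ i, wAct l (L i) = L (π i)) :
    ∃ c : Fin n → Fˣ, ∀ a, mu ψ ρ W (fam L) (fun i => (c i : F) * a (π.symm i)) =
      mu ψ ρ W (fam L) a := by
  obtain ⟨η, hη⟩ := wEl_conj (F := F) l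
  refine ⟨fun i => (η (L (π.symm i)))⁻¹, fun a => ?_⟩
  let e : (Fin n → F) ≃ (Fin n → F) :=
    (Equiv.arrowCongr π (Equiv.refl F)).trans
      (Equiv.piCongrRight fun i => Units.mulLeft (η (L (π.symm i)))⁻¹)
  refine eq_of_le_perm e (fun a => ?_) a
  refine mu_le_single ρ h hW fun i t =>
    ⟨Pi.single (π.symm i) (((η (L (π.symm i)))⁻¹ : Fˣ) * t), fun w _ => ?_, ?_⟩
  · have := hη (L (π.symm i)) (hL _) (((η (L (π.symm i)))⁻¹ : Fˣ) * t)
    rw [hπ, Equiv.apply_symm_apply, ← mul_assoc, ← Units.val_mul, mul_inv_cancel, Units.val_one,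
      one_mul] at this
    rw [← this, fam_single]
    group
  · rw [pair_single]
    congr 1
    show a (π.symm i) * (((η (L (π.symm i)))⁻¹ : Fˣ) * t) =
      ((η (L (π.symm i)))⁻¹ : Fˣ) * a (π.symm i) * t
    ring

/-- The four roots of `Q` above the centre. -/
abbrev Q4 : Fin 4 → ℕ := ![6, 8, 9, 10]

theorem Q4_lt : ∀ i, Q4 i < 12 := by decide

theorem fam_Q4 : Fam ρ (RF ρ [11]) (fam (F := F) Q4) := by
  refine fam_of_commB ρ (by decide +kernel) ?_
  have c610 : ∀ s t, ∀ w ∈ RF ρ [11],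
      ρ (el 10 s) (ρ (el 6 t) w) = ρ (el 6 t) (ρ (el 10 s) w) := by
    intro s t w hw
    rw [← Module.End.mul_apply, ← map_mul, swap_b_3ab, map_mul, map_mul, Module.End.mul_apply,
      Module.End.mul_apply, hw _ (el_mem_XS (by simp) _)]
  have c89 : ∀ s t, ∀ w ∈ RF ρ [11],
      ρ (el 9 s) (ρ (el 8 t) w) = ρ (el 8 t) (ρ (el 9 s) w) := by
    intro s t w hw
    rw [← Module.End.mul_apply, ← map_mul, swap_ab_2ab, map_mul, map_mul, Module.End.mul_apply,
      Module.End.mul_apply, hw _ (el_mem_XS (by simp) _)]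
  intro i j s t w hw
  fin_cases i <;> fin_cases j <;>
    first
    | exact c610 s t w hw
    | exact (c610 t s w hw).symm
    | exact c89 s t w hw
    | exact (c89 t s w hw).symm
    | exact comm_apply ρ (by decide +kernel) t s w

theorem RF11_tor (s t : Fˣ) (w : V) (hw : w ∈ RF ρ [11]) : ρ (tor s t) w ∈ RF ρ [11] :=
  RF_stable_tor ρ s t _ (by decide) hw

theorem RF11_wa (w : V) (hw : w ∈ RF ρ [11]) : ρ (wEl wa) w ∈ RF ρ [11] :=
  RF_stable_weyl ρ wa _ (by decide) (by decide +kernel) hw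

/-- The translation by `x_a(s)` on the characters of `Q`. -/
def tr (s : F) (a : Fin 4 → F) : Fin 4 → F :=
  ![a 0 + s * a 1 + s ^ 2 * a 2 - s ^ 3 * a 3, a 1 + 2 * s * a 2 - 3 * s ^ 2 * a 3,
    a 2 - 3 * s * a 3, a 3]

theorem fam_Q4_eq (y : Fin 4 → F) :
    fam Q4 y = el 6 (y 0) * el 8 (y 1) * el 9 (y 2) * el 10 (y 3) := by
  simp [fam, List.ofFn_succ, Q4, mul_assoc]

theorem mu_tr_le (s : F) (a : Fin 4 → F) :
    mu ψ ρ (RF ρ [11]) (fam Q4) a ≤ mu ψ ρ (RF ρ [11]) (fam Q4) (tr s a) := by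
  have key : ∀ (i : ℕ) (t : F) (z : Fin 4 → F) (u : F),
      el i t * el 7 s = el 7 s * (fam Q4 z * el 11 u) →
      ∀ w ∈ RF ρ [11], ρ ((el 7 s)⁻¹ * el i t * el 7 s) w = ρ (fam Q4 z) w := by
    intro i t z u e w hw
    rw [mul_assoc, e, inv_mul_cancel_left, map_mul, Module.End.mul_apply,
      hw _ (el_mem_XS (by simp) _)]
  refine mu_le_single ρ (fam_Q4 ρ) (fun w hw => RF_stable_el ρ 7 [11] (by decide +kernel) s hw) fun i t => ?_
  fin_cases i
  · refine ⟨![t, s * t, s ^ 2 * t, -(s ^ 3 * t)], key 6 t _ (-(s ^ 3 * t ^ 2)) ?_, ?_⟩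
    · rw [swap_a_b, fam_Q4_eq]; simp [mul_assoc]
    · rw [pair, Fin.sum_univ_four]; congr 1; simp [tr]; ring
  · refine ⟨![0, t, 2 * (s * t), -(3 * (s ^ 2 * t))], key 8 t _ (-(3 * (s * t ^ 2))) ?_, ?_⟩
    · rw [swap_a_ab, fam_Q4_eq]; simp [mul_assoc]
    · rw [pair, Fin.sum_univ_four]; congr 1; simp [tr]; ring
  · refine ⟨![0, 0, t, -(3 * (s * t))], key 9 t _ 0 ?_, ?_⟩
    · rw [swap_a_2ab, fam_Q4_eq]; simp [mul_assoc]
    · rw [pair, Fin.sum_univ_four]; congr 1; simp [tr]; ring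
  · refine ⟨![0, 0, 0, t], key 10 t _ 0 ?_, ?_⟩
    · rw [fam_Q4_eq]
      simpa using (el_comm (r := 7) (s := 10) (by decide +kernel) s t).eq
    · rw [pair, Fin.sum_univ_four]; congr 1; simp [tr]

theorem tr_tr (s s' : F) (a : Fin 4 → F) : tr s (tr s' a) = tr (s + s') a := by
  funext i
  fin_cases i <;> simp [tr] <;> ring

theorem tr_zero (a : Fin 4 → F) : tr 0 a = a := by
  funext i
  fin_cases i <;> simp [tr]

theorem mu_tr (s : F) (a : Fin 4 → F) :
    mu ψ ρ (RF ρ [11]) (fam Q4) (tr s a) = mu ψ ρ (RF ρ [11]) (fam Q4) a := by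
  refine le_antisymm ?_ (mu_tr_le ρ s a)
  have e := mu_tr_le ρ (ψ := ψ) (-s) (tr s a)
  rwa [tr_tr, neg_add_cancel, tr_zero] at e

/-- The translation as a permutation. -/
def trE (s : F) : (Fin 4 → F) ≃ (Fin 4 → F) where
  toFun := tr s
  invFun := tr (-s)
  left_inv a := by rw [tr_tr, neg_add_cancel, tr_zero]
  right_inv a := by rw [tr_tr, add_neg_cancel, tr_zero]

/-- The multiplicity and the reversal by `w_a`. -/
theorem mu_wa : ∃ c : Fin 4 → Fˣ, ∀ a,
    mu ψ ρ (RF ρ [11]) (fam Q4) (fun i => (c i : F) * a (Fin.rev i)) =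
      mu ψ ρ (RF ρ [11]) (fam Q4) a := by
  obtain ⟨c, hc⟩ := mu_weyl ρ (ψ := ψ) (fam_Q4 ρ) wa Q4_lt (RF11_wa ρ) Fin.revPerm
    (by decide +kernel)
  exact ⟨c, fun a => by simpa using hc a⟩

end CfsgLib.Chevalley.G2Degree
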