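import Cfsg.Agent.Lib.Chevalley.G2Degree.HeckeSum
import Cfsg.Agent.Lib.Chevalley.G2Degree.C3Final

/-!
The lower bounds for the degree of a faithful irreducible representation of `G₂(q)`.
-/

set_option autoImplicit false
set_option linter.unusedSectionVars false
set_option linter.style.haveILetI false

open Cfsg.Lie Module

namespace CfsgLib.Chevalley.G2Degree

universe u v

variable {F : Type u} [Field F] [Fintype F]

theorem exists_addChar_ne_one : ∃ ψ : AddChar F ℂ, ψ ≠ 1 := by
  classical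
  exact Fintype.exists_ne_of_one_lt_card (by rw [AddChar.card_eq]; exact Fintype.one_lt_card) 1

theorem three_ne_zero_of_mod (h : Fintype.card F % 3 ≠ 0) : (3 : F) ≠ 0 := fun h3 => h (by
  have h1 : addOrderOf (1 : F) = 3 := addOrderOf_eq_prime (hp := ⟨by norm_num⟩)
    (by rw [nsmul_one]; exact_mod_cast h3) one_ne_zero
  have := addOrderOf_dvd_card (x := (1 : F))
  rw [h1] at this
  omega)

theorem exists_cube_root (h : Fintype.card F % 3 = 1) : ∃ ζ : Fˣ, ζ ^ 3 = 1 ∧ ζ ≠ 1 := by
  classical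
  haveI : Fact (Nat.Prime 3) := ⟨by norm_num⟩
  obtain ⟨ζ, hζ⟩ := exists_prime_orderOf_dvd_card (G := Fˣ) 3 (by rw [Fintype.card_units]; omega)
  refine ⟨ζ, by rw [← hζ]; exact pow_orderOf_eq_one ζ, fun e => ?_⟩
  rw [e, orderOf_one] at hζ
  omega

theorem exists_card_three (h : Fintype.card F % 3 = 0) :
    ∃ f : ℕ, 0 < f ∧ Fintype.card F = 3 ^ f ∧ CharP F 3 := by
  obtain ⟨p, hp⟩ := CharP.exists F
  haveI := hp
  obtain ⟨n, hprime, hcard⟩ := FiniteField.card F p
  have h3 : 3 ∣ p := (by norm_num : Nat.Prime 3).dvd_of_dvd_pow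
    (hcard ▸ Nat.dvd_of_mod_eq_zero h : 3 ∣ p ^ (n : ℕ))
  obtain rfl : p = 3 := ((Nat.prime_dvd_prime_iff_eq (by norm_num) hprime).1 h3).symm
  exact ⟨n, n.pos, hcard, hp⟩

/-- A nontrivial additive character invariant under cubing. -/
theorem exists_frobenius_addChar {f : ℕ} (hf : 0 < f) (hcard : Fintype.card F = 3 ^ f) [CharP F 3] :
    ∃ ψ : AddChar F ℂ, ψ ≠ 1 ∧ ∀ x, ψ (x ^ 3) = ψ x := by
  classical
  haveI : Fact (Nat.Prime 3) := ⟨by norm_num⟩
  let T : F →+ F := ∑ i ∈ Finset.range f, (iterateFrobenius F 3 i).toAddMonoidHom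
  have hT : ∀ x, T x = ∑ i ∈ Finset.range f, x ^ 3 ^ i := fun x => by
    simp [T, iterateFrobenius_def]
  have hinv : ∀ x, T (x ^ 3) = T x := by
    intro x
    have e := (Finset.sum_range_succ' (fun i => x ^ 3 ^ i) f).symm.trans
      (Finset.sum_range_succ (fun i => x ^ 3 ^ i) f)
    rw [← hcard, FiniteField.pow_card, pow_zero, pow_one, add_left_inj] at e
    rw [hT, hT, ← e]
    refine Finset.sum_congr rfl fun i _ => ?_
    rw [← pow_mul, pow_succ']
  obtain ⟨x₀, hx₀⟩ : ∃ x₀, T x₀ ≠ 0 := by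
    by_contra hcon
    push Not at hcon
    let P : Polynomial F := ∑ i ∈ Finset.range f, Polynomial.X ^ 3 ^ i
    have hev : ∀ x, P.eval x = 0 := fun x => by
      simpa [P, Polynomial.eval_finsetSum, hT] using hcon x
    have hdeg : P.natDegree < Fintype.card F := by
      refine lt_of_le_of_lt (Polynomial.natDegree_sum_le_of_forall_le _ _ (n := 3 ^ (f - 1))
        fun i hi => ?_) ?_
      · rw [Polynomial.natDegree_X_pow]
        have := Finset.mem_range.1 hi
        exact Nat.pow_le_pow_right (by norm_num) (by omega)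
      · rw [hcard]
        exact Nat.pow_lt_pow_right (by norm_num) (by omega)
    have h0 : P = 0 :=
      Polynomial.eq_zero_of_natDegree_lt_card_of_eval_eq_zero P (f := id) Function.injective_id hev
        (by simpa using hdeg)
    have h1 : P.coeff 1 = 1 := by
      simp only [P, Polynomial.finsetSum_coeff, Polynomial.coeff_X_pow]
      rw [Finset.sum_eq_single 0 (fun i _ hi => if_neg (fun e => hi ?_)) (by simp [hf])]
      · simp
      · exact (Nat.pow_eq_one.1 e.symm).resolve_left (by norm_num)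
    rw [h0] at h1
    simp at h1
  obtain ⟨ψ₁, hψ₁⟩ := exists_addChar_ne_one (F := F)
  obtain ⟨t, ht⟩ := exists_mul_ne hψ₁ hx₀
  refine ⟨ψ₁.compAddMonoidHom ((AddMonoidHom.mulRight t).comp T), fun e => ht ?_, fun x => ?_⟩
  · have := DFunLike.congr_fun e x₀
    simpa using this
  · simp [hinv]

variable {V : Type v} [AddCommGroup V] [Module ℂ V] [FiniteDimensional ℂ V]
  (ρ : ↥(chevG2.group F) →* Module.End ℂ V)

theorem no_fixed (hirr : Representation.IsIrreducible (ρ : Representation ℂ ↥(chevG2.group F) V))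
    (hne : RF ρ [11] ≠ ⊤) : ∀ w : V, (∀ g, ρ g w = w) → w = 0 := by
  let ρR : Representation ℂ ↥(chevG2.group F) V := ρ
  haveI : ρR.IsIrreducible := hirr
  intro w hw
  let S : Subrepresentation ρR :=
    { toSubmodule := Fix ρ Set.univ
      apply_mem_toSubmodule := fun g x hx => by
        show ρ g x ∈ Fix ρ Set.univ
        rw [hx g trivial]
        exact hx }
  rcases IsSimpleOrder.eq_bot_or_eq_top S with hS | hS
  · have hw' : w ∈ S.toSubmodule := fun g _ => hw g
    rw [hS] at hw'
    exact (Submodule.mem_bot ℂ).1 hw'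
  · refine absurd (eq_top_iff.2 fun x _ => ?_) hne
    have hx : x ∈ S.toSubmodule := by rw [hS]; exact Submodule.mem_top
    exact fun g _ => hx g trivial

theorem RF_ne_top (hρ : Function.Injective ρ) {r : ℕ} (hr : r < 12) : RF ρ [r] ≠ ⊤ := by
  intro h
  have h1 : el r (1 : F) = 1 := hρ (by
    rw [map_one]
    refine LinearMap.ext fun v => ?_
    have hv : v ∈ RF ρ [r] := h ▸ Submodule.mem_top
    exact hv _ (el_mem_XS (List.mem_singleton_self r) 1))
  exact one_ne_zero (el_injective hr (h1.trans (el_zero r).symm))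

/-- The three bounds. -/
theorem degree_bounds (hρ : Function.Injective ρ)
    (hirr : Representation.IsIrreducible (ρ : Representation ℂ ↥(chevG2.group F) V)) :
    (Fintype.card F % 3 = 1 → 4 < Fintype.card F → Fintype.card F ^ 3 + 1 ≤ finrank ℂ V) ∧
    (Fintype.card F % 3 = 2 → 2 < Fintype.card F → Fintype.card F ^ 3 - 1 ≤ finrank ℂ V) ∧
    (Fintype.card F % 3 = 0 → 3 < Fintype.card F →
      Fintype.card F ^ 4 + Fintype.card F ^ 2 + 1 ≤ finrank ℂ V) := by
  classical
  have hne : RF ρ [11] ≠ ⊤ := RF_ne_top ρ hρ (by norm_num)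
  refine ⟨fun hmod hq => ?_, fun hmod hq => ?_, fun hmod hq => ?_⟩
  · obtain ⟨ψ, hψ⟩ := exists_addChar_ne_one (F := F)
    obtain ⟨-, hsmall⟩ := generic_case ρ hψ (three_ne_zero_of_mod (by omega)) (by omega) hne
    by_contra hlt
    have hle : finrank ℂ V ≤ Fintype.card F ^ 3 := by omega
    have hS := hsmall hle
    rcases Nat.le_one_iff_eq_zero_or_eq_one.1 hS.zero_le with h0 | h1
    · obtain ⟨ζ, hζ, hζ1⟩ := exists_cube_root hmod
      have := hS.not_cuspidal ρ hψ h0 (by omega) ζ hζ hζ1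
      omega
    · exact hS.false_of_nu_one ρ hψ h1 (by omega) hirr
  · obtain ⟨ψ, hψ⟩ := exists_addChar_ne_one (F := F)
    exact (generic_case ρ hψ (three_ne_zero_of_mod (by omega)) (by omega) hne).1
  · obtain ⟨f, hf, hcard, hchar⟩ := exists_card_three hmod
    haveI := hchar
    obtain ⟨ψ, hψ, hψ3⟩ := exists_frobenius_addChar hf hcard
    have h3 : (3 : F) = 0 := by exact_mod_cast CharP.cast_eq_zero F 3
    have h9 : 9 ≤ Fintype.card F := by
      rw [hcard] at hq ⊢
      have h2 : 2 ≤ f := by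
        by_contra h
        rw [show f = 1 by omega] at hq
        norm_num at hq
      calc 9 = 3 ^ 2 := by norm_num
        _ ≤ 3 ^ f := Nat.pow_le_pow_right (by norm_num) h2
    haveI : Finite ↥(chevG2.group F) := Subtype.finite
    haveI := Fintype.ofFinite ↥(chevG2.group F)
    let ρR : Representation ℂ ↥(chevG2.group F) V := ρ
    haveI : ρR.IsIrreducible := hirr
    exact char_three_bound ρ hψ hψ3 h3 h9 (fun r hr => RF_ne_top ρ hρ hr)
      (no_fixed ρ hirr hne) (CfsgLib.CharTheory.finrank_dvd_card ρR)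

end CfsgLib.Chevalley.G2Degree
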