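import Cfsg.Agent.Lib.Chevalley.SimpleData
import Cfsg.Agent.Lib.Chevalley.CommAll
import Cfsg.Agent.Lib.Chevalley.Weyl
import Cfsg.Agent.Lib.Chevalley.Unipotent
import Cfsg.Agent.Lib.Chevalley.Bruhat

/-!
Root elements, torus elements and Weyl elements of `G₂` with their explicit relations.
The roots are numbered as in the datum: `7 = a`, `6 = b`, `8 = a+b`, `9 = 2a+b`, `10 = 3a+b`,
`11 = 3a+2b`.
-/

set_option autoImplicit false
set_option linter.unusedSectionVars false
set_option linter.style.haveILetI false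
set_option maxRecDepth 10000

open Cfsg.Lie

namespace CfsgLib.Chevalley.G2Degree

variable {F : Type*} [Field F]

/-- All the certificates of G2. -/
theorem full : Full chevG2 auxG2 := ⟨⟨cert_G2, posG2, by simp⟩, extraG2⟩

/-- A root element. -/
noncomputable def el (r : ℕ) (t : F) : ↥(chevG2.group F) :=
  ⟨xG cert_G2 r t, rootsU_le_group cert_G2 Set.univ (xG_mem_rootsU cert_G2 (Set.mem_univ _) t)⟩

theorem el_add (r : ℕ) (s t : F) : el r (s + t) = el r s * el r t :=
  Subtype.ext (xG_mul cert_G2 r s t).symm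

@[simp] theorem el_zero (r : ℕ) : el r (0 : F) = 1 := Subtype.ext (xG_zero cert_G2 r)

theorem el_inv (r : ℕ) (t : F) : (el r t)⁻¹ = el r (-t) := Subtype.ext (xG_inv cert_G2 r t)

theorem el_injective {r : ℕ} (hr : r < 12) :
    Function.Injective (el r : F → ↥(chevG2.group F)) := fun _ _ h =>
  xG_injective cert_G2 (show r < chevG2.nroots from hr) (congrArg Subtype.val h)

theorem closure_el :
    Subgroup.closure {g : ↥(chevG2.group F) | ∃ r < 12, ∃ t, g = el r t} = ⊤ := by
  refine (Subgroup.eq_top_iff' _).2 fun g => ?_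
  obtain ⟨g, hg⟩ := g
  induction hg using Subgroup.closure_induction with
  | mem x hx =>
    obtain ⟨r, t, e⟩ := hx
    refine Subgroup.subset_closure ⟨r, r.isLt, t, Subtype.ext (Units.ext ?_)⟩
    show (x : Matrix chevG2.Idx chevG2.Idx F) = chevG2.x F r t
    rw [e, ChevalleyDatum.x, dif_pos r.isLt]
  | one => exact one_mem _
  | mul x y hx hy ihx ihy => exact mul_mem ihx ihy
  | inv x hx ihx => exact inv_mem ihx

/-- Two root elements in the reverse order. -/
theorem el_swap {r s : ℕ} (hr : r < 12) (hs : s < 12) (hsr : s ≠ r) (hneg : s ≠ chevG2.neg r)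
    (t u : F) :
    el s u * el r t = el r t * el s u *
      ((chevG2.commTerms r s).map fun c =>
        el c.1 ((c.2.1 : F) * (-t) ^ c.2.2.1 * u ^ c.2.2.2)).prod := by
  apply Subtype.ext
  simp only [Subgroup.coe_mul, Subgroup.val_list_prod, List.map_map]
  have h := x_mul_x (F := F) (D := chevG2) (by simp) (show r < chevG2.nroots from hr)
    (show s < chevG2.nroots from hs) hsr hneg t u
  rw [wordMat_eq_prod cert_G2] at h
  simp only [ChevalleyDatum.commWord, List.map_map, Function.comp_def] at h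
  refine Units.ext ?_
  simpa [el, Function.comp_def] using h

/-- Two roots whose elements commute. -/
def commB (r s : ℕ) : Bool :=
  decide (r < 12) && decide (s < 12) && decide (s ≠ r) && decide (s ≠ chevG2.neg r) &&
    (chevG2.commTerms r s).isEmpty

theorem el_comm {r s : ℕ} (h : commB r s = true) (t u : F) : Commute (el s u) (el r t) := by
  simp only [commB, Bool.and_eq_true, decide_eq_true_eq, List.isEmpty_iff] at h
  have := el_swap h.1.1.1.1 h.1.1.1.2 h.1.1.2 h.1.2 t u
  rw [h.2, List.map_nil, List.prod_nil, mul_one] at this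
  exact this

theorem el_comm_self (r : ℕ) (t u : F) : Commute (el r u) (el r t) := by
  rw [Commute, SemiconjBy, ← el_add, ← el_add, add_comm]

theorem data_6_10 : chevG2.commTerms 6 10 = [(11, 1, 1, 1)] := by decide +kernel
theorem data_7_6 : chevG2.commTerms 7 6 =
    [(8, -1, 1, 1), (9, 1, 2, 1), (10, 1, 3, 1), (11, 1, 3, 2)] := by decide +kernel
theorem data_7_8 : chevG2.commTerms 7 8 = [(9, -2, 1, 1), (10, -3, 2, 1), (11, 3, 1, 2)] := by
  decide +kernel
theorem data_7_9 : chevG2.commTerms 7 9 = [(10, 3, 1, 1)] := by decide +kernel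
theorem data_8_9 : chevG2.commTerms 8 9 = [(11, 3, 1, 1)] := by decide +kernel
theorem data_6_7 : chevG2.commTerms 6 7 =
    [(8, 1, 1, 1), (9, 1, 1, 2), (10, -1, 1, 3), (11, -2, 2, 3)] := by decide +kernel

theorem swap_b_3ab (t u : F) :
    el 10 u * el 6 t = el 6 t * el 10 u * el 11 (-(t * u)) := by
  rw [el_swap (r := 6) (s := 10) (by decide) (by decide) (by decide) (by decide +kernel), data_6_10]
  simp

theorem swap_a_b (s t : F) :
    el 6 t * el 7 s = el 7 s * el 6 t *
      (el 8 (s * t) * el 9 (s ^ 2 * t) * el 10 (-(s ^ 3 * t)) *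
        el 11 (-(s ^ 3 * t ^ 2))) := by
  rw [el_swap (r := 7) (s := 6) (by decide) (by decide) (by decide) (by decide +kernel), data_7_6]
  simp [mul_assoc]
  ring_nf

theorem swap_a_ab (s t : F) :
    el 8 t * el 7 s = el 7 s * el 8 t *
      (el 9 (2 * (s * t)) * el 10 (-(3 * (s ^ 2 * t))) *
        el 11 (-(3 * (s * t ^ 2)))) := by
  rw [el_swap (r := 7) (s := 8) (by decide) (by decide) (by decide) (by decide +kernel), data_7_8]
  simp [mul_assoc]

theorem swap_a_2ab (s t : F) :
    el 9 t * el 7 s = el 7 s * el 9 t * el 10 (-(3 * (s * t))) := by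
  rw [el_swap (r := 7) (s := 9) (by decide) (by decide) (by decide) (by decide +kernel), data_7_9]
  simp
  ring_nf

theorem swap_ab_2ab (t u : F) :
    el 9 u * el 8 t = el 8 t * el 9 u * el 11 (-(3 * (t * u))) := by
  rw [el_swap (r := 8) (s := 9) (by decide) (by decide) (by decide) (by decide +kernel), data_8_9]
  simp
  ring_nf

theorem swap_b_a (s t : F) :
    el 7 t * el 6 s = el 6 s * el 7 t *
      (el 8 (-(s * t)) * el 9 (-(s * t ^ 2)) * el 10 (s * t ^ 3) *
        el 11 (-(2 * (s ^ 2 * t ^ 3)))) := by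
  rw [el_swap (r := 6) (s := 7) (by decide) (by decide) (by decide) (by decide +kernel), data_6_7]
  simp [mul_assoc]

/-- The coordinates of a torus element. -/
def tc (s t : Fˣ) (k : Fin chevG2.rank) : Fˣ :=
  if (k : ℕ) = 0 then s ^ 2 * t else s ^ 3 * t ^ 2

/-- The torus element with values `s` at `a` and `t` at `b`. -/
noncomputable def tor (s t : Fˣ) : ↥(chevG2.group F) :=
  ⟨torusHom chevG2 F (tc s t),
    borel_le_group cert_G2 (SetLike.le_def.1 le_sup_right (torus_mem_diagonal full _))⟩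

/-- The coefficients of a root at `a` and at `b`. -/
def ca (r : ℕ) : ℤ := ([-3, -3, -2, -1, -1, 0, 0, 1, 1, 2, 3, 3] : List ℤ).getD r 0

/-- The coefficient of a root at `b`. -/
def cb (r : ℕ) : ℤ := ([-2, -1, -1, -1, 0, -1, 1, 0, 1, 1, 1, 2] : List ℤ).getD r 0

theorem cartan_comb : ∀ r : Fin 12, chevG2.cartan 0 r * 2 + chevG2.cartan 1 r * 3 = ca r ∧
    chevG2.cartan 0 r + chevG2.cartan 1 r * 2 = cb r := by
  decide +kernel

/-- The value of a torus element at a root. -/
noncomputable def rv (s t : Fˣ) (r : ℕ) : Fˣ := s ^ ca r * t ^ cb r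

theorem tor_conj (s t : Fˣ) {r : ℕ} (hr : r < 12) (u : F) :
    tor s t * el r u * (tor s t)⁻¹ = el r ((rv s t r : F) * u) := by
  apply Subtype.ext
  rw [Subgroup.coe_mul, Subgroup.coe_mul, Subgroup.coe_inv]
  show torusHom chevG2 F _ * xG cert_G2 r u * (torusHom chevG2 F _)⁻¹ = xG cert_G2 r _
  rw [(acts_torus cert_G2 _).conj (⟨r, hr⟩ : Fin chevG2.nroots) u]
  congr 2
  refine congrArg Units.val ?_
  show ∏ k : Fin 2, tc s t k ^ chevG2.cartan k r = _
  obtain ⟨h1, h2⟩ := cartan_comb ⟨r, hr⟩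
  simp only at h1 h2
  rw [Fin.prod_univ_two]
  simp only [tc, Fin.val_zero, Fin.val_one, if_true, one_ne_zero, if_false,
    rv, mul_zpow, ← zpow_natCast, ← zpow_mul, ← h1, ← h2, zpow_add, Nat.cast_ofNat]
  rw [mul_mul_mul_comm, mul_comm (chevG2.cartan 0 r) 2, mul_comm (chevG2.cartan 1 r) 3,
    mul_comm (chevG2.cartan 1 r) 2]

theorem tor_mul (s t s' t' : Fˣ) : tor s t * tor s' t' = tor (s * s') (t * t') := by
  apply Subtype.ext
  rw [Subgroup.coe_mul]
  show torusHom chevG2 F _ * torusHom chevG2 F _ = torusHom chevG2 F _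
  rw [← map_mul]
  congr 1
  funext k
  simp only [Pi.mul_apply, tc]
  split_ifs <;> simp only [mul_pow] <;> exact mul_mul_mul_comm _ _ _ _

/-- A Weyl element. -/
noncomputable def wEl (l : List (Fin chevG2.rank)) : ↥(chevG2.group F) :=
  ⟨nW cert_G2 F l, by
    induction l with
    | nil => exact one_mem _
    | cons i l ih =>
      rw [nW_cons]
      refine mul_mem ?_ ih
      exact mul_mem (mul_mem (el (chevG2.simple i) (1 : F)).2
        (el (chevG2.neg (chevG2.simple i)) (-(1 : F)⁻¹)).2) (el (chevG2.simple i) (1 : F)).2⟩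

theorem wEl_append (l l' : List (Fin chevG2.rank)) : (wEl (l ++ l') : ↥(chevG2.group F)) = wEl l * wEl l' :=
  Subtype.ext (nW_append cert_G2 l l')

/-- The action of a Weyl word on the roots. -/
def wAct (l : List (Fin chevG2.rank)) (r : ℕ) : ℕ :=
  if h : r < chevG2.nroots then (wPerm cert_G2 l ⟨r, h⟩ : Fin chevG2.nroots) else r

theorem wEl_conj (l : List (Fin chevG2.rank)) : ∃ η : ℕ → Fˣ, ∀ r < 12, ∀ u : F,
    wEl l * el r u * (wEl l)⁻¹ = el (wAct l r) ((η r : F) * u) := by
  obtain ⟨η, hA⟩ := acts_nW (F := F) full l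
  refine ⟨fun r => if h : r < chevG2.nroots then Units.mk0 _ (hA.ne_zero ⟨r, h⟩) else 1,
    fun r hr u => ?_⟩
  apply Subtype.ext
  rw [Subgroup.coe_mul, Subgroup.coe_mul, Subgroup.coe_inv]
  have hr' : r < chevG2.nroots := hr
  simp only [wAct, dif_pos hr', Units.val_mk0]
  exact hA.conj ⟨r, hr'⟩ u

theorem wAct_wa : ∀ r : Fin 12, wAct [(0 : Fin 2)] r =
    ([0, 5, 3, 2, 7, 1, 10, 4, 9, 8, 6, 11] : List ℕ).getD r 0 := by
  decide +kernel

theorem wAct_wb : ∀ r : Fin 12, wAct [(1 : Fin 2)] r =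
    ([1, 0, 2, 4, 3, 6, 5, 8, 7, 9, 11, 10] : List ℕ).getD r 0 := by
  decide +kernel

end CfsgLib.Chevalley.G2Degree
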