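import Cfsg.Agent.Lib.Chevalley.G2Degree.Spec
import Cfsg.Agent.Lib.Chevalley.G2Degree.Relations

/-!
Representations of `G₂(q)` seen on root subgroups: fixed spaces, their invariance under the Weyl
group, and the families of commuting root subgroups.
-/

set_option autoImplicit false
set_option linter.unusedSectionVars false
set_option linter.style.haveILetI false
set_option maxRecDepth 10000

open Cfsg.Lie Module

namespace CfsgLib.Chevalley.G2Degree

universe u v

variable {F : Type u} [Field F]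

/-- The elements of some root subgroups. -/
def XS (F : Type u) [Field F] (L : List ℕ) : Set ↥(chevG2.group F) :=
  {g | ∃ r ∈ L, ∃ t : F, g = el r t}

theorem el_mem_XS {L : List ℕ} {r : ℕ} (h : r ∈ L) (t : F) : el r t ∈ XS F L := ⟨r, h, t, rfl⟩

/-- The two fundamental reflections. -/
abbrev wa : List (Fin chevG2.rank) := [(0 : Fin 2)]

/-- The reflection in `b`. -/
abbrev wb : List (Fin chevG2.rank) := [(1 : Fin 2)]

theorem wAct_append (l l' : List (Fin chevG2.rank)) {r : ℕ} (hr : r < 12) :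
    wAct (l ++ l') r = wAct l (wAct l' r) := by
  have hr' : r < chevG2.nroots := hr
  simp only [wAct, dif_pos hr']
  rw [dif_pos (wPerm cert_G2 l' ⟨r, hr'⟩).isLt, Fin.eta, wPerm_append]
  rfl

variable {V : Type v} [AddCommGroup V] [Module ℂ V]
  (ρ : ↥(chevG2.group F) →* Module.End ℂ V)

/-- The common fixed space of some root subgroups. -/
abbrev RF (L : List ℕ) : Submodule ℂ V := Fix ρ (XS F L)

theorem RF_anti {L M : List ℕ} (h : L ⊆ M) : RF ρ M ≤ RF ρ L :=
  fix_anti ρ fun _ ⟨r, hr, t, e⟩ => ⟨r, h hr, t, e⟩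

theorem RF_append (L M : List ℕ) : RF ρ (L ++ M) = RF ρ L ⊓ RF ρ M := by
  rw [RF, RF, RF, ← fix_union]
  congr 1
  ext g
  simp only [XS, List.mem_append, Set.mem_union, Set.mem_ofPred_eq, or_and_right, exists_or]

theorem RF_congr {L M : List ℕ} (h : ∀ r, r ∈ L ↔ r ∈ M) : RF ρ L = RF ρ M :=
  le_antisymm (RF_anti ρ fun r hr => (h r).2 hr) (RF_anti ρ fun r hr => (h r).1 hr)

theorem finrank_RF_weyl [FiniteDimensional ℂ V] (l : List (Fin chevG2.rank)) (L M : List ℕ)
    (hL : ∀ r ∈ L, r < 12) (hM : L.map (wAct l) = M) :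
    finrank ℂ (RF ρ L) = finrank ℂ (RF ρ M) := by
  subst hM
  obtain ⟨η, hη⟩ := wEl_conj (F := F) l
  refine finrank_fix_conj ρ (wEl l) _ _ ?_ ?_
  · rintro _ ⟨r', hr', t, rfl⟩
    obtain ⟨r, hr, rfl⟩ := List.mem_map.1 hr'
    refine ⟨r, hr, (η r : F)⁻¹ * t, ?_⟩
    have := hη r (hL r hr) ((η r : F)⁻¹ * t)
    rw [← mul_assoc, mul_inv_cancel₀ (η r).ne_zero, one_mul] at this
    rw [← this]
    group
  · rintro _ ⟨r, hr, t, rfl⟩
    exact ⟨_, List.mem_map.2 ⟨r, hr, rfl⟩, _, hη r (hL r hr) t⟩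

/-- Elements normalising a fixed space of root subgroups preserve it. -/
theorem RF_stable (g : ↥(chevG2.group F)) (L : List ℕ)
    (h : ∀ r ∈ L, ∀ t : F, g⁻¹ * el r t * g ∈ XS F L) {w : V} (hw : w ∈ RF ρ L) :
    ρ g w ∈ RF ρ L :=
  map_fix_le ρ g _ _ (by rintro _ ⟨r, hr, t, rfl⟩; exact h r hr t) ⟨w, hw, rfl⟩

theorem RF_stable_tor (s t : Fˣ) (L : List ℕ) (hL : ∀ r ∈ L, r < 12) {w : V} (hw : w ∈ RF ρ L) :
    ρ (tor s t) w ∈ RF ρ L := by
  refine RF_stable ρ _ L (fun r hr u => ⟨r, hr, ((rv s t r : Fˣ) : F)⁻¹ * u, ?_⟩) hw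
  have := tor_conj s t (hL r hr) (((rv s t r : Fˣ) : F)⁻¹ * u)
  rw [← mul_assoc, mul_inv_cancel₀ (rv s t r).ne_zero, one_mul] at this
  rw [← this]
  group

theorem RF_stable_weyl (l : List (Fin chevG2.rank)) (L : List ℕ) (hL : ∀ r ∈ L, r < 12)
    (hperm : ∀ r ∈ L, ∃ r' ∈ L, wAct l r' = r) {w : V} (hw : w ∈ RF ρ L) :
    ρ (wEl l) w ∈ RF ρ L := by
  obtain ⟨η, hη⟩ := wEl_conj (F := F) l
  refine RF_stable ρ _ L (fun r hr u => ?_) hw
  obtain ⟨r', hr', rfl⟩ := hperm r hr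
  refine ⟨r', hr', (η r' : F)⁻¹ * u, ?_⟩
  have := hη r' (hL r' hr') ((η r' : F)⁻¹ * u)
  rw [← mul_assoc, mul_inv_cancel₀ (η r').ne_zero, one_mul] at this
  rw [← this]
  group

theorem RF_stable_el (s : ℕ) (L : List ℕ) (hc : ∀ r ∈ L, commB r s = true ∨ r = s) (t : F) {w : V}
    (hw : w ∈ RF ρ L) : ρ (el s t) w ∈ RF ρ L := by
  refine RF_stable ρ _ L (fun r hr u => ⟨r, hr, u, ?_⟩) hw
  have h : Commute (el s t) (el r u) := by
    rcases hc r hr with h | rfl
    · exact el_comm h u t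
    · exact el_comm_self r u t
  rw [mul_assoc, ← h.eq, inv_mul_cancel_left]

/-- A product of root elements of given roots. -/
noncomputable def fam {n : ℕ} (L : Fin n → ℕ) (x : Fin n → F) : ↥(chevG2.group F) :=
  (List.ofFn fun i => el (L i) (x i)).prod

theorem fam_succ {n : ℕ} (L : Fin (n + 1) → ℕ) (x : Fin (n + 1) → F) :
    fam L x = el (L 0) (x 0) * fam (fun i => L i.succ) (fun i => x i.succ) := by
  simp [fam, List.ofFn_succ]

theorem fam_zero {n : ℕ} (L : Fin n → ℕ) : fam L (0 : Fin n → F) = 1 := by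
  simp [fam, List.ofFn_const]

theorem fam_single : ∀ {n : ℕ} (L : Fin n → ℕ) (i : Fin n) (t : F),
    fam L (Pi.single i t) = el (L i) t := by
  intro n
  induction n with
  | zero => exact fun _ i => i.elim0
  | succ n ih =>
    intro L i t
    rw [fam_succ]
    rcases Fin.eq_zero_or_eq_succ i with rfl | ⟨j, rfl⟩
    · rw [Pi.single_eq_same, show (fun k : Fin n => (Pi.single (0 : Fin (n + 1)) t : _ → F) k.succ) = 0
        from funext fun k => Pi.single_eq_of_ne (Fin.succ_ne_zero k) _, fam_zero, mul_one]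
    · rw [Pi.single_eq_of_ne (Fin.succ_ne_zero j).symm, el_zero, one_mul,
        show (fun k : Fin n => (Pi.single j.succ t : _ → F) k.succ) = Pi.single j t from
          funext fun k => by simp [Pi.single_apply, Fin.succ_inj], ih]

theorem fam_mem {n : ℕ} {W : Submodule ℂ V} {L : Fin n → ℕ}
    (hW : ∀ i t, ∀ w ∈ W, ρ (el (L i) t) w ∈ W) : ∀ x, ∀ w ∈ W, ρ (fam L x) w ∈ W := by
  induction n with
  | zero => intro x w hw; simpa [fam] using hw
  | succ n ih =>
    intro x w hw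
    rw [fam_succ, map_mul, Module.End.mul_apply]
    exact hW 0 _ _ (ih (fun i => hW i.succ) _ w hw)

theorem fam_comm {n : ℕ} {W : Submodule ℂ V} {L : Fin n → ℕ}
    (hW : ∀ i t, ∀ w ∈ W, ρ (el (L i) t) w ∈ W) {g : ↥(chevG2.group F)}
    (hg : ∀ i t, ∀ w ∈ W, ρ g (ρ (el (L i) t) w) = ρ (el (L i) t) (ρ g w))
    :
    ∀ x, ∀ w ∈ W, ρ g (ρ (fam L x) w) = ρ (fam L x) (ρ g w) := by
  induction n with
  | zero => intro x w _; simp [fam]
  | succ n ih =>
    intro x w hw
    rw [fam_succ, map_mul, Module.End.mul_apply, Module.End.mul_apply,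
      hg 0 _ _ (fam_mem ρ (fun i => hW i.succ) _ w hw),
      ih (fun i => hW i.succ) (fun i => hg i.succ) _ w hw]

theorem fam_isFam {n : ℕ} {W : Submodule ℂ V} {L : Fin n → ℕ}
    (hW : ∀ i t, ∀ w ∈ W, ρ (el (L i) t) w ∈ W)
    (hc : ∀ i j s t, ∀ w ∈ W,
      ρ (el (L i) s) (ρ (el (L j) t) w) = ρ (el (L j) t) (ρ (el (L i) s) w)) :
    Fam ρ W (fam L) := by
  refine ⟨fam_mem ρ hW, fun w _ => by rw [fam_zero, map_one, Module.End.one_apply], ?_⟩
  induction n with
  | zero => intro x y w _; simp [fam]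
  | succ n ih =>
    intro x y w hw
    simp only [fam_succ, Pi.add_apply, el_add, map_mul, Module.End.mul_apply]
    rw [show (fun i : Fin n => x i.succ + y i.succ) =
      (fun i : Fin n => x i.succ) + fun i => y i.succ from rfl,
      ih (fun i => hW i.succ) (fun i j => hc i.succ j.succ) _ _ w hw,
      fam_comm ρ (fun i => hW i.succ) (fun i t => hc 0 i.succ (y 0) t) _ _
        (fam_mem ρ (fun i => hW i.succ) _ w hw)]

/-- Commuting root subgroups give a family on a fixed space they preserve. -/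
theorem fam_of_commB {n : ℕ} {L : Fin n → ℕ} {M : List ℕ}
    (hM : ∀ i, ∀ r ∈ M, commB r (L i) = true ∨ r = L i)
    (hc : ∀ i j, ∀ s t, ∀ w ∈ RF ρ M,
      ρ (el (L i) s) (ρ (el (L j) t) w) = ρ (el (L j) t) (ρ (el (L i) s) w)) :
    Fam ρ (RF ρ M) (fam L) :=
  fam_isFam ρ (fun i t _ hw => RF_stable_el ρ (L i) M (hM i) t hw) hc

theorem comm_apply {r s : ℕ} (h : commB r s = true ∨ r = s) (t u : F) (w : V) :
    ρ (el s u) (ρ (el r t) w) = ρ (el r t) (ρ (el s u) w) := by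
  rw [← Module.End.mul_apply, ← Module.End.mul_apply, ← map_mul, ← map_mul]
  rcases h with h | rfl
  · rw [(el_comm h t u).eq]
  · rw [(el_comm_self r t u).eq]

/-- Commuting pairs of roots. -/
def famB {n : ℕ} (L : Fin n → ℕ) : Bool :=
  (List.finRange n).all fun i => (List.finRange n).all fun j => decide (L i = L j) || commB (L i) (L j)

/-- A family of commuting root subgroups on the whole space. -/
theorem fam_top {n : ℕ} {L : Fin n → ℕ} (h : famB L = true) : Fam ρ ⊤ (fam (F := F) L) := by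
  refine fam_isFam ρ (fun _ _ _ _ => trivial) fun i j s t w _ => comm_apply ρ ?_ t s w
  simp only [famB, List.all_eq_true, Bool.or_eq_true, decide_eq_true_eq] at h
  exact (h j (List.mem_finRange j) i (List.mem_finRange i)).symm

variable [Fintype F] [DecidableEq F] [FiniteDimensional ℂ V] {ψ : AddChar F ℂ}

theorem XS_fam {n : ℕ} (L : Fin n → ℕ) (J : List (Fin n)) :
    ({g | ∃ i ∈ J.toFinset, ∃ t : F, g = fam L (Pi.single i t)} : Set ↥(chevG2.group F)) =
      XS F (J.map L) := by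
  ext g
  simp only [XS, Set.mem_ofPred_eq, List.mem_toFinset, List.mem_map, fam_single]
  constructor
  · rintro ⟨i, hi, t, rfl⟩; exact ⟨_, ⟨i, hi, rfl⟩, t, rfl⟩
  · rintro ⟨_, ⟨i, hi, rfl⟩, t, rfl⟩; exact ⟨i, hi, t, rfl⟩

/-- The fixed space of part of a family, from the multiplicities. -/
theorem finrank_RF_eq (hψ : ψ ≠ 1) {n : ℕ} {L : Fin n → ℕ} {M : List ℕ}
    (h : Fam ρ (RF ρ M) (fam L)) (J : List (Fin n)) :
    finrank ℂ (RF ρ (M ++ J.map L)) =
      ∑ a ∈ Finset.univ.filter (fun a : Fin n → F => ∀ i ∈ J, a i = 0),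
        mu ψ ρ (RF ρ M) (fam L) a := by
  have e := finrank_fixJ ρ hψ h J.toFinset
  rw [XS_fam] at e
  simp only [List.mem_toFinset] at e
  rw [← e, RF_append]

/-- A family on the whole space. -/
theorem finrank_top_eq (hψ : ψ ≠ 1) {n : ℕ} {L : Fin n → ℕ} (h : Fam ρ ⊤ (fam L)) (J : List (Fin n)) :
    finrank ℂ (RF ρ (J.map L)) =
      ∑ a ∈ Finset.univ.filter (fun a : Fin n → F => ∀ i ∈ J, a i = 0),
        mu ψ ρ ⊤ (fam L) a := by
  have e := finrank_fixJ ρ hψ h J.toFinset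
  rw [XS_fam] at e
  simp only [List.mem_toFinset] at e
  rw [← e, top_inf_eq]

end CfsgLib.Chevalley.G2Degree
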