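import Cfsg.Agent.Lib.InvCentralizers.EigenTrace
import Mathlib.NumberTheory.LegendreSymbol.AddCharacter
import Mathlib.Algebra.Group.AddChar

/-!
Spectra of families of commuting operators indexed by `Fⁿ`: dimensions of the common fixed spaces
as sums of spectral multiplicities, and invariance of the multiplicities under intertwiners.
-/

set_option autoImplicit false
set_option linter.unusedSectionVars false
set_option linter.style.haveILetI false

open Module

namespace CfsgLib.Chevalley.G2Degree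

open InvCentralizers.AbelianEigen

variable {F : Type*} [Field F] [Fintype F] [DecidableEq F] {n : ℕ}

/-- The pairing of `Fⁿ` with itself through an additive character. -/
def pair (ψ : AddChar F ℂ) (a x : Fin n → F) : ℂ := ψ (∑ i, a i * x i)

variable {ψ : AddChar F ℂ}

theorem pair_add_left (a b x : Fin n → F) : pair ψ (a + b) x = pair ψ a x * pair ψ b x := by
  simp [pair, add_mul, Finset.sum_add_distrib, AddChar.map_add_eq_mul]

theorem pair_add_right (a x y : Fin n → F) : pair ψ a (x + y) = pair ψ a x * pair ψ a y := by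
  simp [pair, mul_add, Finset.sum_add_distrib, AddChar.map_add_eq_mul]

theorem pair_comm (a x : Fin n → F) : pair ψ a x = pair ψ x a := by
  simp [pair, mul_comm]

theorem pair_zero_left (x : Fin n → F) : pair ψ 0 x = 1 := by simp [pair]

theorem pair_single (a : Fin n → F) (i : Fin n) (t : F) :
    pair ψ a (Pi.single i t) = ψ (a i * t) := by
  rw [pair, Finset.sum_eq_single i (fun j _ hj => by simp [Pi.single_eq_of_ne hj]) (by simp)]
  simp

theorem exists_mul_ne (hψ : ψ ≠ 1) {c : F} (hc : c ≠ 0) : ∃ t, ψ (c * t) ≠ 1 := by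
  by_contra h
  push Not at h
  refine hψ (DFunLike.ext _ _ fun x => ?_)
  have := h (c⁻¹ * x)
  rw [← mul_assoc, mul_inv_cancel₀ hc, one_mul] at this
  rw [this, AddChar.one_apply]

/-- The pairing is perfect on one coordinate. -/
theorem eq_of_forall_mul (hψ : ψ ≠ 1) {a b : F} (h : ∀ t, ψ (a * t) = ψ (b * t)) : a = b := by
  by_contra hab
  obtain ⟨t, ht⟩ := exists_mul_ne hψ (sub_ne_zero.2 hab)
  apply ht
  have e : ψ ((a - b) * t) * ψ (b * t) = ψ (b * t) := by
    rw [← AddChar.map_add_eq_mul, ← add_mul, sub_add_cancel, h]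
  exact (mul_eq_right₀ (ψ.val_isUnit (b * t)).ne_zero).1 e

/-- Every additive character is a multiplicative shift. -/
theorem exists_shift (hψ : ψ ≠ 1) (χ : AddChar F ℂ) : ∃ v, ∀ t, χ t = ψ (v * t) := by
  have hinj : Function.Injective fun v : F => AddChar.mulShift ψ v := fun a b h =>
    eq_of_forall_mul hψ fun t => by simpa [AddChar.mulShift_apply] using DFunLike.congr_fun h t
  have hc : Fintype.card F = Fintype.card (AddChar F ℂ) := (AddChar.card_eq).symm
  obtain ⟨v, hv⟩ := ((Fintype.bijective_iff_injective_and_card _).2 ⟨hinj, hc⟩).2 χ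
  exact ⟨v, fun t => by rw [← hv]; rfl⟩

theorem sum_pair (hψ : ψ ≠ 1) {a : Fin n → F} (ha : a ≠ 0) : ∑ x, pair ψ a x = 0 := by
  classical
  obtain ⟨i, hi⟩ := Function.ne_iff.1 ha
  obtain ⟨t, ht⟩ := exists_mul_ne hψ hi
  have h : ∑ x, pair ψ a x = ψ (a i * t) * ∑ x, pair ψ a x := by
    rw [Finset.mul_sum]
    refine Fintype.sum_equiv (Equiv.addLeft (-Pi.single i t)) _ _ fun x => ?_
    rw [← pair_single a i t, Equiv.coe_addLeft, ← pair_add_right, add_neg_cancel_left]
  rcases mul_left_eq_self₀.1 h.symm with h1 | h1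
  · exact absurd h1 ht
  · exact h1

variable {G : Type*} [Group G] {V : Type*} [AddCommGroup V] [Module ℂ V]
  (ρ : G →* Module.End ℂ V)

/-- The common fixed space of a set of elements. -/
def Fix (S : Set G) : Submodule ℂ V where
  carrier := {v | ∀ s ∈ S, ρ s v = v}
  add_mem' {v w} hv hw := fun s hs => by rw [map_add, hv s hs, hw s hs]
  zero_mem' := fun s _ => map_zero _
  smul_mem' c {v} hv := fun s hs => by rw [map_smul, hv s hs]

theorem mem_fix {S : Set G} {v : V} : v ∈ Fix ρ S ↔ ∀ s ∈ S, ρ s v = v := Iff.rfl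

theorem fix_anti {S T : Set G} (h : S ⊆ T) : Fix ρ T ≤ Fix ρ S := fun _ hv s hs => hv s (h hs)

theorem fix_union (S T : Set G) : Fix ρ (S ∪ T) = Fix ρ S ⊓ Fix ρ T := by
  ext v
  simp only [mem_fix, Submodule.mem_inf, Set.mem_union]
  exact ⟨fun h => ⟨fun s hs => h s (Or.inl hs), fun s hs => h s (Or.inr hs)⟩,
    fun h s hs => hs.elim (h.1 s) (h.2 s)⟩

theorem ρ_inv_apply (g : G) (v : V) : ρ g⁻¹ (ρ g v) = v := by
  rw [← Module.End.mul_apply, ← map_mul, inv_mul_cancel, map_one, Module.End.one_apply]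

theorem ρ_apply_inv (g : G) (v : V) : ρ g (ρ g⁻¹ v) = v := by
  rw [← Module.End.mul_apply, ← map_mul, mul_inv_cancel, map_one, Module.End.one_apply]

/-- `ρ g` as an equivalence. -/
def ρEquiv (g : G) : V ≃ₗ[ℂ] V :=
  LinearEquiv.ofLinearMap (ρ g) (ρ g⁻¹) (LinearMap.ext (ρ_apply_inv ρ g))
    (LinearMap.ext (ρ_inv_apply ρ g))

theorem map_fix_le (g : G) (S T : Set G) (h : ∀ t ∈ T, g⁻¹ * t * g ∈ S) :
    (Fix ρ S).map (ρEquiv ρ g : V →ₗ[ℂ] V) ≤ Fix ρ T := by
  rintro _ ⟨v, hv, rfl⟩ t ht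
  show ρ t (ρ g v) = ρ g v
  have e : ρ t (ρ g v) = ρ g (ρ (g⁻¹ * t * g) v) := by
    rw [← Module.End.mul_apply, ← Module.End.mul_apply, ← map_mul, ← map_mul]
    congr 2
    group
  rw [e, hv _ (h t ht)]

theorem finrank_fix_conj [FiniteDimensional ℂ V] (g : G) (S T : Set G)
    (h : ∀ t ∈ T, g⁻¹ * t * g ∈ S) (h' : ∀ s ∈ S, g * s * g⁻¹ ∈ T) :
    finrank ℂ (Fix ρ S) = finrank ℂ (Fix ρ T) := by
  refine le_antisymm ?_ ?_
  · have := Submodule.finrank_mono (map_fix_le ρ g S T h)
    rwa [LinearEquiv.finrank_map_eq] at this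
  · have := Submodule.finrank_mono (map_fix_le ρ g⁻¹ T S fun s hs => by
      rw [inv_inv]; exact h' s hs)
    rwa [LinearEquiv.finrank_map_eq] at this

/-- A family of elements of `G` acting on `W` as a representation of `Fⁿ`. -/
structure Fam (W : Submodule ℂ V) (α : (Fin n → F) → G) : Prop where
  mem : ∀ x, ∀ w ∈ W, ρ (α x) w ∈ W
  zero : ∀ w ∈ W, ρ (α 0) w = w
  add : ∀ x y, ∀ w ∈ W, ρ (α (x + y)) w = ρ (α x) (ρ (α y) w)

variable (ψ)

/-- The simultaneous eigenvectors in `W` of the family for the character `a`. -/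
def spec (W : Submodule ℂ V) (α : (Fin n → F) → G) (a : Fin n → F) : Submodule ℂ V where
  carrier := {v | v ∈ W ∧ ∀ x, ρ (α x) v = pair ψ a x • v}
  add_mem' {v w} hv hw := ⟨W.add_mem hv.1 hw.1, fun x => by rw [map_add, hv.2, hw.2, smul_add]⟩
  zero_mem' := ⟨W.zero_mem, fun x => by simp⟩
  smul_mem' c {v} hv := ⟨W.smul_mem c hv.1, fun x => by rw [map_smul, hv.2, smul_comm]⟩

/-- The multiplicity of the character `a`. -/
noncomputable def mu (W : Submodule ℂ V) (α : (Fin n → F) → G) (a : Fin n → F) : ℕ :=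
  finrank ℂ (spec ψ ρ W α a)

variable {ψ}

/-- The restricted operators. -/
noncomputable def rest {W : Submodule ℂ V} {α : (Fin n → F) → G} (h : Fam ρ W α) (x : Fin n → F) :
    Module.End ℂ W :=
  (ρ (α x)).restrict (h.mem x)

theorem setup_rest (hψ : ψ ≠ 1) {W : Submodule ℂ V} {α : (Fin n → F) → G} (h : Fam ρ W α) :
    Setup (pair (n := n) ψ) (rest ρ h) where
  addL := pair_add_left
  addR := pair_add_right
  zeroL := pair_zero_left
  orth a ha := sum_pair hψ ha
  orth' x hx := by simpa only [pair_comm _ x] using sum_pair hψ hx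
  zeroR a := by rw [pair_comm, pair_zero_left]
  map_zero := LinearMap.ext fun w => Subtype.ext (h.zero _ w.2)
  map_add x y := LinearMap.ext fun w => Subtype.ext (h.add x y _ w.2)

theorem map_eig {W : Submodule ℂ V} {α : (Fin n → F) → G} (h : Fam ρ W α) (a : Fin n → F) :
    (eig (pair ψ) (rest ρ h) a).map W.subtype = spec ψ ρ W α a := by
  ext v
  constructor
  · rintro ⟨w, hw, rfl⟩
    exact ⟨w.2, fun x => congrArg Subtype.val (hw x)⟩
  · rintro ⟨hv, he⟩
    exact ⟨⟨v, hv⟩, fun x => Subtype.ext (he x), rfl⟩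

/-- The family restricted to some coordinates fixes exactly the spectral subspaces of the
characters vanishing there. -/
theorem finrank_fixJ [FiniteDimensional ℂ V] (hψ : ψ ≠ 1) {W : Submodule ℂ V}
    {α : (Fin n → F) → G} (h : Fam ρ W α) (J : Finset (Fin n)) :
    finrank ℂ ↥(W ⊓ Fix ρ {g | ∃ i ∈ J, ∃ t : F, g = α (Pi.single i t)}) =
      ∑ a ∈ Finset.univ.filter (fun a : Fin n → F => ∀ i ∈ J, a i = 0), mu ψ ρ W α a := by
  classical
  have hS := setup_rest ρ hψ h
  set X : Submodule ℂ W := (Fix ρ {g | ∃ i ∈ J, ∃ t : F, g = α (Pi.single i t)}).comap W.subtype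
    with hX
  have e1 : finrank ℂ ↥(W ⊓ Fix ρ {g | ∃ i ∈ J, ∃ t : F, g = α (Pi.single i t)}) = finrank ℂ X := by
    rw [hX, ← Submodule.map_comap_subtype, ← (Submodule.equivMapOfInjective _
      W.injective_subtype _).finrank_eq]
  set O := Finset.univ.filter (fun a : Fin n → F => ∀ i ∈ J, a i = 0) with hO
  have hproj : LinearMap.IsProj X (∑ a ∈ O, eproj (pair ψ) (rest ρ h) a) := by
    constructor
    · intro w
      rw [LinearMap.sum_apply]
      refine Submodule.sum_mem _ fun a ha => ?_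
      show W.subtype _ ∈ Fix ρ _
      rintro g ⟨i, hi, t, rfl⟩
      have := congrArg Subtype.val (eproj_mem hS a w (Pi.single i t))
      rw [pair_single, (Finset.mem_filter.1 ha).2 i hi, zero_mul, AddChar.map_zero_eq_one,
        one_smul] at this
      exact this
    · intro w hw
      have hzero : ∀ a, a ∉ O → eproj (pair ψ) (rest ρ h) a w = 0 := by
        intro a ha
        rw [hO, Finset.mem_filter] at ha
        push Not at ha
        obtain ⟨i, hi, hai⟩ := ha (Finset.mem_univ a)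
        obtain ⟨t, ht⟩ := exists_mul_ne hψ hai
        have hfix : rest ρ h (Pi.single i t) w = w :=
          Subtype.ext (hw _ ⟨i, hi, t, rfl⟩)
        have hcomm : eproj (pair ψ) (rest ρ h) a (rest ρ h (Pi.single i t) w) =
            rest ρ h (Pi.single i t) (eproj (pair ψ) (rest ρ h) a w) := by
          simp only [eproj, proj, LinearMap.smul_apply, LinearMap.sum_apply, map_smul, map_sum]
          refine congrArg _ (Finset.sum_congr rfl fun x _ => congrArg _ ?_)
          rw [← Module.End.mul_apply, ← Module.End.mul_apply, ← hS.map_add, ← hS.map_add,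
            add_comm]
        rw [hfix, eproj_mem hS a w (Pi.single i t), pair_single] at hcomm
        have h0 : (ψ (a i * t) - 1) • eproj (pair ψ) (rest ρ h) a w = 0 := by
          rw [sub_smul, one_smul, ← hcomm, sub_self]
        exact (smul_eq_zero.1 h0).resolve_left (sub_ne_zero.2 ht)
      conv_rhs => rw [← Module.End.one_apply (R := ℂ) w, ← sum_eproj hS, LinearMap.sum_apply]
      rw [LinearMap.sum_apply]
      exact Finset.sum_subset (Finset.subset_univ _) fun a _ ha => hzero a ha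
  have e2 : (finrank ℂ X : ℂ) = ∑ a ∈ O, (mu ψ ρ W α a : ℂ) := by
    rw [← hproj.trace, map_sum]
    refine Finset.sum_congr rfl fun a _ => ?_
    rw [trace_eproj hS, mu, ← map_eig ρ h a,
      (Submodule.equivMapOfInjective _ W.injective_subtype _).finrank_eq]
  rw [e1]
  exact_mod_cast e2

theorem finrank_fam [FiniteDimensional ℂ V] (hψ : ψ ≠ 1) {W : Submodule ℂ V}
    {α : (Fin n → F) → G} (h : Fam ρ W α) : finrank ℂ W = ∑ a, mu ψ ρ W α a := by
  have e := finrank_fixJ ρ hψ h ∅
  rw [show W ⊓ Fix ρ {g | ∃ i ∈ (∅ : Finset (Fin n)), ∃ t : F, g = α (Pi.single i t)} = W from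
    inf_eq_left.2 fun v _ s hs => by simp at hs] at e
  rw [e]
  simp

/-- A vector of `W` fixed by part of the family lies in any subspace containing the spectral
subspaces of the characters vanishing there. -/
theorem mem_of_spec [FiniteDimensional ℂ V] (hψ : ψ ≠ 1) {W : Submodule ℂ V}
    {α : (Fin n → F) → G} (h : Fam ρ W α) (J : Finset (Fin n)) {X : Submodule ℂ V}
    (hX : ∀ a, (∀ i ∈ J, a i = 0) → spec ψ ρ W α a ≤ X) {v : V} (hv : v ∈ W)
    (hfix : ∀ i ∈ J, ∀ t : F, ρ (α (Pi.single i t)) v = v) : v ∈ X := by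
  classical
  have hS := setup_rest ρ hψ h
  have e : (⟨v, hv⟩ : W) = ∑ a, eproj (pair ψ) (rest ρ h) a ⟨v, hv⟩ := by
    rw [← LinearMap.sum_apply, sum_eproj hS, Module.End.one_apply]
  have e' := congrArg W.subtype e
  rw [map_sum] at e'
  rw [show v = W.subtype ⟨v, hv⟩ from rfl, e']
  refine Submodule.sum_mem _ fun a _ => ?_
  by_cases ha : ∀ i ∈ J, a i = 0
  · refine hX a ha ?_
    rw [← map_eig ρ h a]
    exact ⟨_, eproj_mem hS a _, rfl⟩
  push Not at ha
  obtain ⟨i, hi, hai⟩ := ha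
  obtain ⟨t, ht⟩ := exists_mul_ne hψ hai
  have hf : rest ρ h (Pi.single i t) ⟨v, hv⟩ = ⟨v, hv⟩ := Subtype.ext (hfix i hi t)
  have hcomm : eproj (pair ψ) (rest ρ h) a (rest ρ h (Pi.single i t) ⟨v, hv⟩) =
      rest ρ h (Pi.single i t) (eproj (pair ψ) (rest ρ h) a ⟨v, hv⟩) := by
    simp only [eproj, proj, LinearMap.smul_apply, LinearMap.sum_apply, map_smul, map_sum]
    refine congrArg _ (Finset.sum_congr rfl fun x _ => congrArg _ ?_)
    rw [← Module.End.mul_apply, ← Module.End.mul_apply, ← hS.map_add, ← hS.map_add, add_comm]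
  rw [hf, eproj_mem hS a _ (Pi.single i t), pair_single] at hcomm
  have h0 : (ψ (a i * t) - 1) • eproj (pair ψ) (rest ρ h) a ⟨v, hv⟩ = 0 := by
    rw [sub_smul, one_smul, ← hcomm, sub_self]
  rw [(smul_eq_zero.1 h0).resolve_left (sub_ne_zero.2 ht), map_zero]
  exact X.zero_mem

/-- Spectral vectors of distinct characters are independent. -/
theorem spec_indep [FiniteDimensional ℂ V] (hψ : ψ ≠ 1) {W : Submodule ℂ V}
    {α : (Fin n → F) → G} (h : Fam ρ W α) {ι : Type*} [Fintype ι] (a : ι → Fin n → F)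
    (ha : Function.Injective a) (v : ι → V) (hv : ∀ i, v i ∈ spec ψ ρ W α (a i))
    (hsum : ∑ i, v i = 0) (i : ι) : v i = 0 := by
  classical
  have hS := setup_rest ρ hψ h
  let v' : ι → W := fun j => ⟨v j, (hv j).1⟩
  have hv' : ∀ j, v' j ∈ eig (pair ψ) (rest ρ h) (a j) := fun j x => Subtype.ext ((hv j).2 x)
  have h0 : ∑ j, v' j = 0 := by
    apply W.injective_subtype
    rw [map_sum, map_zero]
    exact hsum
  have h1 := congrArg (eproj (pair ψ) (rest ρ h) (a i)) h0
  rw [map_sum, map_zero, Finset.sum_eq_single i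
    (fun j _ hj => eproj_eig_ne hS (fun e => hj (ha e)) (hv' j)) (by simp),
    eproj_eig hS (hv' i)] at h1
  exact congrArg Subtype.val h1

/-- An element normalising `W` which carries the character `a` to `a'`. -/
theorem mu_le [FiniteDimensional ℂ V] {W : Submodule ℂ V} {α : (Fin n → F) → G} {g : G}
    {a a' : Fin n → F} (hW : ∀ w ∈ W, ρ g w ∈ W)
    (hconj : ∀ x, ∃ y, (∀ w ∈ W, ρ (g⁻¹ * α x * g) w = ρ (α y) w) ∧ pair ψ a y = pair ψ a' x) :
    mu ψ ρ W α a ≤ mu ψ ρ W α a' := by
  have hle : (spec ψ ρ W α a).map (ρEquiv ρ g : V →ₗ[ℂ] V) ≤ spec ψ ρ W α a' := by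
    rintro _ ⟨v, hv, rfl⟩
    refine ⟨hW v hv.1, fun x => ?_⟩
    obtain ⟨y, hy, hp⟩ := hconj x
    show ρ (α x) (ρ g v) = pair ψ a' x • ρ g v
    have e : ρ (α x) (ρ g v) = ρ g (ρ (g⁻¹ * α x * g) v) := by
      rw [← Module.End.mul_apply, ← Module.End.mul_apply, ← map_mul, ← map_mul]
      congr 2
      group
    rw [e, hy v hv.1, hv.2 y, map_smul, hp]
  have := Submodule.finrank_mono hle
  rwa [LinearEquiv.finrank_map_eq] at this

/-- Multiplicities below their images under a bijection are invariant. -/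
theorem eq_of_le_perm {ι : Type*} [Fintype ι] {m : ι → ℕ} (π : ι ≃ ι)
    (h : ∀ a, m a ≤ m (π a)) (a : ι) : m (π a) = m a := by
  have hs : ∑ x, m x = ∑ x, m (π x) := (Equiv.sum_comp π m).symm
  exact ((Finset.sum_eq_sum_iff_of_le fun x _ => h x).1 hs a (Finset.mem_univ a)).symm

/-- The average over a one-parameter family. -/
noncomputable def avg (e : F → G) : Module.End ℂ V :=
  (Fintype.card F : ℂ)⁻¹ • ∑ t, ρ (e t)

theorem avg_of_fix {e : F → G} {v : V} (hv : v ∈ Fix ρ (Set.range e)) : avg ρ e v = v := by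
  have : ∀ t, ρ (e t) v = v := fun t => hv _ ⟨t, rfl⟩
  simp [avg, LinearMap.sum_apply, this, ← Nat.cast_smul_eq_nsmul ℂ, smul_smul]

theorem avg_mem_fix {e : F → G} (he : ∀ s t, e (s + t) = e s * e t) (v : V) :
    avg ρ e v ∈ Fix ρ (Set.range e) := by
  rintro _ ⟨s, rfl⟩
  simp only [avg, LinearMap.smul_apply, LinearMap.sum_apply, map_smul, map_sum]
  congr 1
  refine Fintype.sum_equiv (Equiv.addLeft s) _ _ fun t => ?_
  rw [Equiv.coe_addLeft, he, map_mul, Module.End.mul_apply]

end CfsgLib.Chevalley.G2Degree
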